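import Cfsg.Agent.Lib.Helper9.ThmPair

set_option autoImplicit false

namespace Cfsg.Agent.Lib.Helper9

open Cfsg.Lie

/-- The verified data on the fundamental roots orthogonal to the last root: the last root is
the `k`-th fundamental weight, and `L` lists the negatives of the other fundamental roots. -/
def CentP (D : ChevalleyDatum) (L : List ℕ) (k : ℕ) : Prop :=
  k < D.rank ∧
  (∀ i < D.rank, cartanExp D i (Nat.add D.rank (D.nroots - 1)) = if i = k then 1 else 0) ∧
  (∀ i < D.rank, i ≠ k → D.reflectRoot i (D.nroots - 1) = D.nroots - 1 ∧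
    D.neg (D.simple i) ∈ L) ∧
  D.reflectRoot k (D.nroots - 1) ≠ D.nroots - 1 ∧
  ∀ s ∈ L, ∃ i < D.rank, i ≠ k ∧ s = D.neg (D.simple i)

instance (D : ChevalleyDatum) (L : List ℕ) (k : ℕ) : Decidable (CentP D L k) :=
  inferInstanceAs (Decidable (_ ∧ _))

set_option maxRecDepth 1000000 in
theorem centE6_ok : CentP chevE6 [15, 29, 32, 34, 35] 1 := by decide +kernel

set_option maxRecDepth 1000000 in
theorem centE7_ok : CentP chevE7 [47, 52, 56, 59, 61, 62] 0 := by decide +kernel

set_option maxRecDepth 1000000 in
theorem centE8_ok : CentP chevE8 [77, 98, 104, 109, 113, 116, 118] 7 := by decide +kernel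

set_option maxRecDepth 1000000 in
theorem centG2_ok : CentP chevG2 [4] 1 := by decide +kernel

set_option maxRecDepth 1000000 in
theorem centF4_ok : CentP chevF4 [14, 20, 22] 3 := by decide +kernel

set_option maxRecDepth 1000000 in
theorem centD4_ok : CentP chevD4 [5, 10, 11] 1 := by decide +kernel

set_option maxRecDepth 1000000 in
theorem pairF4_top : chevF4.IsPosRoot (chevF4.nroots - 1) := by decide +kernel

end Cfsg.Agent.Lib.Helper9
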