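import Cfsg.Agent.Lib.Helper9.ThmEven

set_option autoImplicit false

namespace Cfsg.Agent.Lib.Helper9

open Cfsg.Lie

/-- The verified data on the fundamental roots orthogonal to a root `th` that is the `k`-th
fundamental weight; `L` lists the negatives of the other fundamental roots. -/
def CentQ (D : ChevalleyDatum) (th : ℕ) (L : List ℕ) (k : ℕ) : Prop :=
  k < D.rank ∧ D.IsPosRoot th ∧
  (∀ i < D.rank, cartanExp D i (Nat.add D.rank th) = if i = k then 1 else 0) ∧
  (∀ i < D.rank, i ≠ k → D.reflectRoot i th = th ∧ D.neg (D.simple i) ∈ L) ∧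
  D.reflectRoot k th ≠ th ∧
  ∀ s ∈ L, ∃ i < D.rank, i ≠ k ∧ s = D.neg (D.simple i)

instance (D : ChevalleyDatum) (th : ℕ) (L : List ℕ) (k : ℕ) : Decidable (CentQ D th L k) :=
  inferInstanceAs (Decidable (_ ∧ _))

set_option maxRecDepth 1000000 in
theorem centF4s_ok : CentQ chevF4 44 [20, 22, 23] 0 := by decide +kernel

set_option maxRecDepth 1000000 in
theorem centF4l_ok : CentQ chevF4 47 [14, 20, 22] 3 := by decide +kernel

/-- Every positive root other than `th` has even commutator coefficients with `th`. -/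
def evenAllB (D : ChevalleyDatum) (Ps : List ℕ) (J Dp n th : ℕ) : Bool :=
  allB D.nroots (fun r => or (not (decide (D.IsPosRoot r)))
    (or (Nat.beq r th) (evenB D Ps J Dp n r th)))

theorem evenAllB_spec {D : ChevalleyDatum} {n th : ℕ}
    (h : evenAllB D (permOf D) (orbJOf D) (orbDOf D) n th = true) {r : ℕ} (hr : D.IsPosRoot r)
    (hne : r ≠ th) : evenB D (permOf D) (orbJOf D) (orbDOf D) n r th = true := by
  have h1 := allB_spec h hr.1
  simp only [Bool.or_eq_true, Bool.not_eq_true', decide_eq_false_iff_not] at h1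
  rcases h1 with h1 | h1 | h1
  · exact absurd hr h1
  · exact absurd (Nat.eq_of_beq_eq_true h1) hne
  · exact h1

set_option maxRecDepth 1000000 in
theorem evenF4_ok : evenAllB chevF4 permLitF4 orbJLitF4 orbDLitF4 12 44 = true := by
  decide +kernel

end Cfsg.Agent.Lib.Helper9
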