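import Cfsg.Agent.Lib.Helper9.OrbB2
import Cfsg.Agent.Lib.Helper9.ChevPJ

set_option autoImplicit false

namespace Cfsg.Agent.Lib.Helper9

open Cfsg.Lie

/-- The packed rows of a positive multiple of the inverse of the Cartan matrix of `chevB2`. -/
def adjLitB2 : List ℕ := [514, 513]

set_option maxRecDepth 1000000 in
theorem reflSuppB2_ok : allB chevB2.rank
    (fun j => allB chevB2.nroots (reflSuppB chevB2 (getN permLitB2 j) j)) = true := by
  decide +kernel

set_option maxRecDepth 1000000 in
theorem commSuppB2_ok : allB chevB2.rank (fun i => allB chevB2.nroots (commSuppB chevB2 i)) = true := by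
  decide +kernel

set_option maxRecDepth 1000000 in
theorem parPosB2_ok : allB chevB2.nroots (parPosB chevB2 permLitB2 lvlLitB2 parJLitB2) = true := by
  decide +kernel

set_option maxRecDepth 1000000 in
theorem simpSuppB2_ok : allB chevB2.rank (simpSuppB chevB2) = true := by decide +kernel

set_option maxRecDepth 1000000 in
theorem gradB2_ok : allB chevB2.rank
    (fun i => allB chevB2.nroots (gradB chevB2 (getN adjLitB2 i) i)) = true := by
  decide +kernel

end Cfsg.Agent.Lib.Helper9
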