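import Cfsg.Agent.Lib.Helper9.OrbD4
import Cfsg.Agent.Lib.Helper9.ChevPJ

set_option autoImplicit false

namespace Cfsg.Agent.Lib.Helper9

open Cfsg.Lie

/-- The packed rows of a positive multiple of the inverse of the Cartan matrix of `chevD4`. -/
def adjLitD4 : List ℕ := [16843266, 33686530, 16908801, 33620481]

set_option maxRecDepth 1000000 in
theorem reflSuppD4_ok : allB chevD4.rank
    (fun j => allB chevD4.nroots (reflSuppB chevD4 (getN permLitD4 j) j)) = true := by
  decide +kernel

set_option maxRecDepth 1000000 in
theorem commSuppD4_ok : allB chevD4.rank (fun i => allB chevD4.nroots (commSuppB chevD4 i)) = true := by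
  decide +kernel

set_option maxRecDepth 1000000 in
theorem parPosD4_ok : allB chevD4.nroots (parPosB chevD4 permLitD4 lvlLitD4 parJLitD4) = true := by
  decide +kernel

set_option maxRecDepth 1000000 in
theorem simpSuppD4_ok : allB chevD4.rank (simpSuppB chevD4) = true := by decide +kernel

set_option maxRecDepth 1000000 in
theorem gradD4_ok : allB chevD4.rank
    (fun i => allB chevD4.nroots (gradB chevD4 (getN adjLitD4 i) i)) = true := by
  decide +kernel

end Cfsg.Agent.Lib.Helper9
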