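import Cfsg.Agent.Lib.Helper9.OrbE6
import Cfsg.Agent.Lib.Helper9.ChevPJ

set_option autoImplicit false

namespace Cfsg.Agent.Lib.Helper9

open Cfsg.Lie

/-- The packed rows of a positive multiple of the inverse of the Cartan matrix of `chevE6`. -/
def adjLitE6 : List ℕ := [2216304116484, 3324456076803, 4432608232965, 6648912152838, 5540709664260, 4419622273794]

set_option maxRecDepth 1000000 in
theorem reflSuppE6_ok : allB chevE6.rank
    (fun j => allB chevE6.nroots (reflSuppB chevE6 (getN permLitE6 j) j)) = true := by
  decide +kernel

set_option maxRecDepth 1000000 in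
theorem commSuppE6_ok : allB chevE6.rank (fun i => allB chevE6.nroots (commSuppB chevE6 i)) = true := by
  decide +kernel

set_option maxRecDepth 1000000 in
theorem parPosE6_ok : allB chevE6.nroots (parPosB chevE6 permLitE6 lvlLitE6 parJLitE6) = true := by
  decide +kernel

set_option maxRecDepth 1000000 in
theorem simpSuppE6_ok : allB chevE6.rank (simpSuppB chevE6) = true := by decide +kernel

set_option maxRecDepth 1000000 in
theorem gradE6_ok : allB chevE6.rank
    (fun i => allB chevE6.nroots (gradB chevE6 (getN adjLitE6 i) i)) = true := by
  decide +kernel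

end Cfsg.Agent.Lib.Helper9
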