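import Cfsg.Agent.Lib.Helper9.OrbE7
import Cfsg.Agent.Lib.Helper9.ChevPJ

set_option autoImplicit false

namespace Cfsg.Agent.Lib.Helper9

open Cfsg.Lie

/-- The packed rows of a positive multiple of the inverse of the Cartan matrix of `chevE7`. -/
def adjLitE7 : List ℕ := [567373904348164, 851060856456964, 1134747808696326, 1702121712913416, 1418434727119110, 1134739151390212, 848844552405762]

set_option maxRecDepth 1000000 in
theorem reflSuppE7_ok : allB chevE7.rank
    (fun j => allB chevE7.nroots (reflSuppB chevE7 (getN permLitE7 j) j)) = true := by
  decide +kernel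

set_option maxRecDepth 1000000 in
theorem commSuppE7_ok : allB chevE7.rank (fun i => allB chevE7.nroots (commSuppB chevE7 i)) = true := by
  decide +kernel

set_option maxRecDepth 1000000 in
theorem parPosE7_ok : allB chevE7.nroots (parPosB chevE7 permLitE7 lvlLitE7 parJLitE7) = true := by
  decide +kernel

set_option maxRecDepth 1000000 in
theorem simpSuppE7_ok : allB chevE7.rank (simpSuppB chevE7) = true := by decide +kernel

set_option maxRecDepth 1000000 in
theorem gradE7_ok : allB chevE7.rank
    (fun i => allB chevE7.nroots (gradB chevE7 (getN adjLitE7 i) i)) = true := by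
  decide +kernel

end Cfsg.Agent.Lib.Helper9
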