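import Cfsg.Agent.Lib.Helper9.OrbE8
import Cfsg.Agent.Lib.Helper9.ChevPJ

set_option autoImplicit false

namespace Cfsg.Agent.Lib.Helper9

open Cfsg.Lie

/-- The packed rows of a positive multiple of the inverse of the Cartan matrix of `chevE8`. -/
def adjLitE8 : List ℕ := [145247719580435716, 217871579370620933, 290495439160871431, 435743158741241610, 363119298934213640, 290495434832218374, 217870471218595332, 144964032628261634]

set_option maxRecDepth 1000000 in
theorem reflSuppE8_ok : allB chevE8.rank
    (fun j => allB chevE8.nroots (reflSuppB chevE8 (getN permLitE8 j) j)) = true := by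
  decide +kernel

set_option maxRecDepth 1000000 in
theorem commSuppE8_ok : allB chevE8.rank (fun i => allB chevE8.nroots (commSuppB chevE8 i)) = true := by
  decide +kernel

set_option maxRecDepth 1000000 in
theorem parPosE8_ok : allB chevE8.nroots (parPosB chevE8 permLitE8 lvlLitE8 parJLitE8) = true := by
  decide +kernel

set_option maxRecDepth 1000000 in
theorem simpSuppE8_ok : allB chevE8.rank (simpSuppB chevE8) = true := by decide +kernel

set_option maxRecDepth 1000000 in
theorem gradE8_ok : allB chevE8.rank
    (fun i => allB chevE8.nroots (gradB chevE8 (getN adjLitE8 i) i)) = true := by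
  decide +kernel

end Cfsg.Agent.Lib.Helper9
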