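import Cfsg.Agent.Lib.Helper9.OrbF4
import Cfsg.Agent.Lib.Helper9.ChevPJ

set_option autoImplicit false

namespace Cfsg.Agent.Lib.Helper9

open Cfsg.Lie

/-- The packed rows of a positive multiple of the inverse of the Cartan matrix of `chevF4`. -/
def adjLitF4 : List ℕ := [33817346, 67634691, 50725890, 33751553]

set_option maxRecDepth 1000000 in
theorem reflSuppF4_ok : allB chevF4.rank
    (fun j => allB chevF4.nroots (reflSuppB chevF4 (getN permLitF4 j) j)) = true := by
  decide +kernel

set_option maxRecDepth 1000000 in
theorem commSuppF4_ok : allB chevF4.rank (fun i => allB chevF4.nroots (commSuppB chevF4 i)) = true := by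
  decide +kernel

set_option maxRecDepth 1000000 in
theorem parPosF4_ok : allB chevF4.nroots (parPosB chevF4 permLitF4 lvlLitF4 parJLitF4) = true := by
  decide +kernel

set_option maxRecDepth 1000000 in
theorem simpSuppF4_ok : allB chevF4.rank (simpSuppB chevF4) = true := by decide +kernel

set_option maxRecDepth 1000000 in
theorem gradF4_ok : allB chevF4.rank
    (fun i => allB chevF4.nroots (gradB chevF4 (getN adjLitF4 i) i)) = true := by
  decide +kernel

end Cfsg.Agent.Lib.Helper9
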