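import Cfsg.Agent.Lib.Helper9.OrbG2
import Cfsg.Agent.Lib.Helper9.ChevPJ

set_option autoImplicit false

namespace Cfsg.Agent.Lib.Helper9

open Cfsg.Lie

/-- The packed rows of a positive multiple of the inverse of the Cartan matrix of `chevG2`. -/
def adjLitG2 : List ℕ := [770, 513]

set_option maxRecDepth 1000000 in
theorem reflSuppG2_ok : allB chevG2.rank
    (fun j => allB chevG2.nroots (reflSuppB chevG2 (getN permLitG2 j) j)) = true := by
  decide +kernel

set_option maxRecDepth 1000000 in
theorem commSuppG2_ok : allB chevG2.rank (fun i => allB chevG2.nroots (commSuppB chevG2 i)) = true := by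
  decide +kernel

set_option maxRecDepth 1000000 in
theorem parPosG2_ok : allB chevG2.nroots (parPosB chevG2 permLitG2 lvlLitG2 parJLitG2) = true := by
  decide +kernel

set_option maxRecDepth 1000000 in
theorem simpSuppG2_ok : allB chevG2.rank (simpSuppB chevG2) = true := by decide +kernel

set_option maxRecDepth 1000000 in
theorem gradG2_ok : allB chevG2.rank
    (fun i => allB chevG2.nroots (gradB chevG2 (getN adjLitG2 i) i)) = true := by
  decide +kernel

end Cfsg.Agent.Lib.Helper9
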