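import Cfsg.Agent.Lib.Helper9.CertOrb
import Cfsg.Agent.Lib.Helper9.PjOkG2
import Cfsg.Agent.Lib.Helper9.PjOkB2
import Cfsg.Agent.Lib.Helper9.PjOkD4
import Cfsg.Agent.Lib.Helper9.PjOkF4
import Cfsg.Agent.Lib.Helper9.PjOkE6
import Cfsg.Agent.Lib.Helper9.PjOkE7
import Cfsg.Agent.Lib.Helper9.PjOkE8

set_option autoImplicit false

namespace Cfsg.Agent.Lib.Helper9

open Cfsg.Lie

/-- The packed rows of a positive multiple of the inverse of the Cartan matrix. -/
def adjOf (D : ChevalleyDatum) : List ℕ :=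
  if D.nroots = 12 then adjLitG2 else
  if D.nroots = 8 then adjLitB2 else
  if D.nroots = 24 then adjLitD4 else
  if D.nroots = 48 then adjLitF4 else
  if D.nroots = 72 then adjLitE6 else
  if D.nroots = 126 then adjLitE7 else
  adjLitE8

theorem adjOf_G2 : adjOf chevG2 = adjLitG2 := rfl
theorem adjOf_B2 : adjOf chevB2 = adjLitB2 := rfl
theorem adjOf_D4 : adjOf chevD4 = adjLitD4 := rfl
theorem adjOf_F4 : adjOf chevF4 = adjLitF4 := rfl
theorem adjOf_E6 : adjOf chevE6 = adjLitE6 := rfl
theorem adjOf_E7 : adjOf chevE7 = adjLitE7 := rfl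
theorem adjOf_E8 : adjOf chevE8 = adjLitE8 := rfl

/-- The verified data on the supports of the coroots and on the gradings by the coefficients of
the fundamental roots. -/
structure PJOK (D : ChevalleyDatum) : Prop where
  rsupp : ∀ j < D.rank, ∀ r < D.nroots, reflSuppB D (getN (permOf D) j) j r = true
  csupp : ∀ i < D.rank, ∀ s < D.nroots, commSuppB D i s = true
  ppos : ∀ r < D.nroots, parPosB D (permOf D) (lvlOf D) (parJOf D) r = true
  ssupp : ∀ j < D.rank, simpSuppB D j = true
  grad : ∀ i < D.rank, ∀ s < D.nroots, gradB D (getN (adjOf D) i) i s = true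

theorem pjok_all (D : ChevalleyDatum)
    (hD : D ∈ [chevG2, chevB2, chevD4, chevF4, chevE6, chevE7, chevE8]) : PJOK D := by
  simp only [List.mem_cons, List.not_mem_nil, or_false] at hD
  rcases hD with rfl | rfl | rfl | rfl | rfl | rfl | rfl
  · exact ⟨fun _ hj _ hr => allB_spec (allB_spec reflSuppG2_ok hj) hr,
      fun _ hi _ hs => allB_spec (allB_spec commSuppG2_ok hi) hs,
      fun _ hr => allB_spec parPosG2_ok hr, fun _ hj => allB_spec simpSuppG2_ok hj,
      fun _ hi _ hs => allB_spec (allB_spec gradG2_ok hi) hs⟩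
  · exact ⟨fun _ hj _ hr => allB_spec (allB_spec reflSuppB2_ok hj) hr,
      fun _ hi _ hs => allB_spec (allB_spec commSuppB2_ok hi) hs,
      fun _ hr => allB_spec parPosB2_ok hr, fun _ hj => allB_spec simpSuppB2_ok hj,
      fun _ hi _ hs => allB_spec (allB_spec gradB2_ok hi) hs⟩
  · exact ⟨fun _ hj _ hr => allB_spec (allB_spec reflSuppD4_ok hj) hr,
      fun _ hi _ hs => allB_spec (allB_spec commSuppD4_ok hi) hs,
      fun _ hr => allB_spec parPosD4_ok hr, fun _ hj => allB_spec simpSuppD4_ok hj,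
      fun _ hi _ hs => allB_spec (allB_spec gradD4_ok hi) hs⟩
  · exact ⟨fun _ hj _ hr => allB_spec (allB_spec reflSuppF4_ok hj) hr,
      fun _ hi _ hs => allB_spec (allB_spec commSuppF4_ok hi) hs,
      fun _ hr => allB_spec parPosF4_ok hr, fun _ hj => allB_spec simpSuppF4_ok hj,
      fun _ hi _ hs => allB_spec (allB_spec gradF4_ok hi) hs⟩
  · exact ⟨fun _ hj _ hr => allB_spec (allB_spec reflSuppE6_ok hj) hr,
      fun _ hi _ hs => allB_spec (allB_spec commSuppE6_ok hi) hs,
      fun _ hr => allB_spec parPosE6_ok hr, fun _ hj => allB_spec simpSuppE6_ok hj,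
      fun _ hi _ hs => allB_spec (allB_spec gradE6_ok hi) hs⟩
  · exact ⟨fun _ hj _ hr => allB_spec (allB_spec reflSuppE7_ok hj) hr,
      fun _ hi _ hs => allB_spec (allB_spec commSuppE7_ok hi) hs,
      fun _ hr => allB_spec parPosE7_ok hr, fun _ hj => allB_spec simpSuppE7_ok hj,
      fun _ hi _ hs => allB_spec (allB_spec gradE7_ok hi) hs⟩
  · exact ⟨fun _ hj _ hr => allB_spec (allB_spec reflSuppE8_ok hj) hr,
      fun _ hi _ hs => allB_spec (allB_spec commSuppE8_ok hi) hs,
      fun _ hr => allB_spec parPosE8_ok hr, fun _ hj => allB_spec simpSuppE8_ok hj,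
      fun _ hi _ hs => allB_spec (allB_spec gradE8_ok hi) hs⟩

end Cfsg.Agent.Lib.Helper9
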