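import Cfsg.Agent.Lib.Helper9.ThmRootCent

set_option autoImplicit false

namespace Cfsg.Agent.Lib.Helper9

open Cfsg.Lie

variable {D : ChevalleyDatum} {F : Type*} [Field F]

/-- All the coefficients of the commutator formula of the pair `(r, s)` are even; the pair is
moved by fundamental reflections until `r` is fundamental. -/
def evenB (D : ChevalleyDatum) (Ps : List ℕ) (J Dp : ℕ) : ℕ → ℕ → ℕ → Bool
  | 0, _, _ => false
  | n + 1, r, s =>
    if digitAt 64 Dp r = 0 then
      (D.commTerms (D.simple (digitAt 16 J r)) s).all fun c => decide (c.2.1 % 2 = 0)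
    else evenB D Ps J Dp n (digitAt 256 (getN Ps (digitAt 16 J r)) r)
      (digitAt 256 (getN Ps (digitAt 16 J r)) s)

theorem wordMat_commWord_even [CharP F 2] (r s : ℕ) (t u : F)
    (h : ∀ c ∈ D.commTerms r s, c.2.1 % 2 = 0) : D.wordMat F (D.commWord F r s t u) = 1 := by
  unfold ChevalleyDatum.wordMat ChevalleyDatum.commWord
  rw [List.map_map]
  apply List.prod_eq_one
  intro m hm
  obtain ⟨c, hc, rfl⟩ := List.mem_map.mp hm
  have h1 := h c hc
  have h2 : ((c.2.1 : ℤ) : F) = 0 := by
    obtain ⟨q, hq⟩ : (2 : ℤ) ∣ c.2.1 := Int.dvd_of_emod_eq_zero h1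
    rw [hq]
    push_cast
    rw [CharTwo.two_eq_zero, zero_mul]
  simp only [Function.comp_apply]
  rw [h2, zero_mul, zero_mul, x_zero]

/-- In characteristic two, two root elements commute if the coefficients of their commutator
formula are even. -/
theorem comm_even [CharP F 2] (A : ALLOK D) :
    ∀ (n r : ℕ), r < D.nroots → ∀ s < D.nroots, s ≠ r → s ≠ D.neg r →
      evenB D (permOf D) (orbJOf D) (orbDOf D) n r s = true → ∀ t u : F,
      xU A.hk s u * xU A.hk r t = xU A.hk r t * xU A.hk s u := by
  intro n
  induction n with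
  | zero =>
    intro r _ s _ _ _ h
    simp [evenB] at h
  | succ n ih =>
    intro r hr s hs hsr hsn h t u
    obtain ⟨hj, h0⟩ := orbB_spec (A.ok.orb r hr)
    unfold evenB at h
    generalize digitAt 16 (orbJOf D) r = j at hj h0 h
    by_cases hd : digitAt 64 (orbDOf D) r = 0
    · rw [if_pos hd] at h
      have hrj : r = D.simple j := by
        rcases h0 with ⟨_, h1⟩ | ⟨h1, _, _⟩
        · exact h1
        · omega
      subst hrj
      apply Units.ext
      simp only [Units.val_mul, xU_val]
      have e := comm_simple A.hk A.ck hj hs hsn t u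
      rw [wordMat_commWord_even (F := F) (D.simple j) s t u
        (fun c hc => by simpa using List.all_eq_true.mp h c hc), mul_one] at e
      exact e
    · rw [if_neg hd] at h
      obtain ⟨hlt, hback, hneg⟩ : digitAt 64 (orbDOf D) (digitAt 256 (getN (permOf D) j) r) <
            digitAt 64 (orbDOf D) r ∧
          digitAt 256 (getN (permOf D) j) (digitAt 256 (getN (permOf D) j) r) = r ∧
          digitAt 256 (getN (permOf D) j) (D.neg (digitAt 256 (getN (permOf D) j) r)) =
            D.neg r := by
        rcases h0 with ⟨h1, _⟩ | h1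
        · exact absurd h1 hd
        · exact h1
      have hp : ∀ s < D.nroots, digitAt 256 (getN (permOf D) j) s = D.reflectRoot j s :=
        fun s hs => refl_eq_perm A.xk hj hs
      have hr' : D.reflectRoot j r < D.nroots := refl_lt A.hk A.nk hj hr
      have hs' : D.reflectRoot j s < D.nroots := refl_lt A.hk A.nk hj hs
      rw [hp r hr] at hlt hback hneg h
      rw [hp s hs] at h
      rw [hp _ hr'] at hback
      rw [hp _ (A.hk.neg _ hr').2] at hneg
      have hne1 : D.reflectRoot j s ≠ D.reflectRoot j r := by
        intro e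
        apply hsr
        rw [← refl_refl A.xk A.hk A.nk A.uk hj hs, e, hback]
      have hne2 : D.reflectRoot j s ≠ D.neg (D.reflectRoot j r) := by
        intro e
        apply hsn
        rw [← refl_refl A.xk A.hk A.nk A.uk hj hs, e, hneg]
      have e := ih (D.reflectRoot j r) hr' (D.reflectRoot j s) hs' hne1 hne2 h
        (((etaF (getN (etaOf D) j) (D.reflectRoot j r) : ℤ) : F) * t)
        (((etaF (getN (etaOf D) j) (D.reflectRoot j s) : ℤ) : F) * u)
      have e1 := congrArg (fun g => nU A.hk F j * g * (nU A.hk F j)⁻¹) e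
      beta_reduce at e1
      have e2 : ∀ a b : GL D.Idx F, nU A.hk F j * (a * b) * (nU A.hk F j)⁻¹ =
          (nU A.hk F j * a * (nU A.hk F j)⁻¹) * (nU A.hk F j * b * (nU A.hk F j)⁻¹) := by
        intro a b
        group
      rw [e2, e2, nU_conj A.hk A.nk A.xk hj hr', nU_conj A.hk A.nk A.xk hj hs', hback,
        refl_refl A.xk A.hk A.nk A.uk hj hs, eta_sq, eta_sq] at e1
      exact e1

end Cfsg.Agent.Lib.Helper9
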