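import Cfsg.Agent.Lib.Helper9.ThmRootCent2

set_option autoImplicit false

namespace Cfsg.Agent.Lib.Helper9

open Cfsg.Lie

variable {D : ChevalleyDatum} {F : Type*} [Field F]

theorem centGen_three (a b c : ℕ) : centGen D F [a, b, c] =
    D.posUnipotent F ⊔ D.rootSubgroup F a ⊔ D.rootSubgroup F b ⊔ D.rootSubgroup F c := by
  unfold centGen ChevalleyDatum.rootSubgroup
  rw [sup_assoc, sup_assoc, ← Subgroup.closure_union, ← Subgroup.closure_union]
  congr 2
  ext g
  simp only [List.mem_cons, List.not_mem_nil, or_false, Set.mem_setOf_eq, Set.mem_union]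
  constructor
  · rintro ⟨s, rfl | rfl | rfl, c, h⟩
    · exact Or.inl ⟨c, h⟩
    · exact Or.inr (Or.inl ⟨c, h⟩)
    · exact Or.inr (Or.inr ⟨c, h⟩)
  · rintro (⟨c, h⟩ | ⟨c, h⟩ | ⟨c, h⟩)
    · exact ⟨_, Or.inl rfl, c, h⟩
    · exact ⟨_, Or.inr (Or.inl rfl), c, h⟩
    · exact ⟨_, Or.inr (Or.inr rfl), c, h⟩

theorem evenF4_ok' :
    evenAllB chevF4 (permOf chevF4) (orbJOf chevF4) (orbDOf chevF4) 12 44 = true := by
  rw [permOf_F4, orbJOf_F4, orbDOf_F4]
  exact evenF4_ok

/-- In characteristic two the highest short root elements of `chevF4` commute with the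
positive root elements. -/
theorem f4_short_comm [CharP F 2] (A : ALLOK chevF4) (r : ℕ) (hr : chevF4.IsPosRoot r)
    (t u : F) : xU A.hk 44 u * xU A.hk r t = xU A.hk r t * xU A.hk 44 u := by
  by_cases hrt : r = 44
  · rw [hrt, xU_mul, xU_mul, add_comm]
  · have h44 : chevF4.IsPosRoot 44 := centF4s_ok.2.1
    have hsn : (44 : ℕ) ≠ chevF4.neg r := by
      intro e
      have h1 := lamR_pos A.uk h44
      rw [e, lamR_neg A.uk hr.1] at h1
      have h2 := lamR_pos A.uk hr
      omega
    exact comm_even A 12 r hr.1 44 h44.1 (Ne.symm hrt) hsn (evenAllB_spec evenF4_ok' hr hrt) t u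

/-- The centraliser of the long root involution of `chevF4` in characteristic two. -/
theorem f4_cent_long [CharP F 2] (t : GL chevF4.Idx F)
    (ht : (t : Matrix chevF4.Idx chevF4.Idx F) = chevF4.x F 47 1) :
    chevF4.group F ⊓ Subgroup.centralizer {t} = chevF4.posUnipotent F ⊔
      chevF4.rootSubgroup F 14 ⊔ chevF4.rootSubgroup F 20 ⊔ chevF4.rootSubgroup F 22 := by
  have A : ALLOK chevF4 := allok_cert _ (by simp)
  rw [← centGen_three]
  exact root_cent_of_comm A centF4l_ok (fun r hr t u => top_comm A pairF4_top hr t u) t ht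

/-- The centraliser of the short root involution of `chevF4` in characteristic two. -/
theorem f4_cent_short [CharP F 2] (u : GL chevF4.Idx F)
    (hu : (u : Matrix chevF4.Idx chevF4.Idx F) = chevF4.x F 44 1) :
    chevF4.group F ⊓ Subgroup.centralizer {u} = chevF4.posUnipotent F ⊔
      chevF4.rootSubgroup F 20 ⊔ chevF4.rootSubgroup F 22 ⊔ chevF4.rootSubgroup F 23 := by
  have A : ALLOK chevF4 := allok_cert _ (by simp)
  rw [← centGen_three]
  exact root_cent_of_comm A centF4s_ok (f4_short_comm A) u hu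

end Cfsg.Agent.Lib.Helper9
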