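import Cfsg.Agent.Lib.Helper9.ThmFieldFix

set_option autoImplicit false

namespace Cfsg.Agent.Lib.Helper9

open Cfsg.Lie

open Cfsg.Agent.Lib.Helper4

variable {D : ChevalleyDatum} {F : Type*} [Field F]

section decomp

variable (A : ALLOK D) (σ : F →+* F) (L : Subgroup (GL D.Idx F))
  (hL : ∀ (r : ℕ) (t : F), σ t = t → xU A.hk r t ∈ L)

include hL

/-- An element of `U` fixed by the field endomorphism is a product of root elements with fixed
parameters. -/
theorem fixed_posU_L {u : GL D.Idx F} (hu : u ∈ D.posUnipotent F) (hτ : glMap D σ u = u) :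
    u ∈ L := by
  obtain ⟨huniq, -⟩ := unipotent_unique (F := F) A.hk A.nk A.xk A.wk A.ck A.ok A.uk
  obtain ⟨t, ⟨ht0, ht⟩, hun⟩ := huniq u hu
  have h2 : (fun r => σ (t r)) = t := by
    apply hun
    refine ⟨fun r hr => by rw [ht0 r hr, map_zero], ?_⟩
    have h3 := congrArg Units.val hτ
    rw [glMap_val, ht, wordMat_map, List.map_map] at h3
    rw [ht]
    exact h3.symm
  have e : u = wordU A.hk (D.posRoots.map fun r => (r, t r)) := by
    apply Units.ext
    rw [ht, wordU_val]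
  rw [e]
  apply wordU_mem
  intro p hp
  obtain ⟨r, _, rfl⟩ := List.mem_map.mp hp
  exact hL r (t r) (congrFun h2 r)

theorem mono_decomp_L {n : GL D.Idx F} (hn : n ∈ D.monomialSubgroup F) :
    ∃ h' ∈ D.diagonalSubgroup F, ∃ n₀ ∈ D.monomialSubgroup F, n = h' * n₀ ∧
      glMap D σ n₀ = n₀ ∧ n₀ ∈ L := by
  let T : Subgroup (GL D.Idx F) :=
    { carrier := {n | ∃ h' ∈ D.diagonalSubgroup F, ∃ n₀ ∈ D.monomialSubgroup F, n = h' * n₀ ∧
        glMap D σ n₀ = n₀ ∧ n₀ ∈ L}
      one_mem' := ⟨1, one_mem _, 1, one_mem _, by simp, map_one _, one_mem _⟩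
      mul_mem' := by
        rintro a b ⟨h₁, hh₁, n₁, hn₁, rfl, hσ₁, hK₁⟩ ⟨h₂, hh₂, n₂, hn₂, rfl, hσ₂, hK₂⟩
        refine ⟨h₁ * (n₁ * h₂ * n₁⁻¹), mul_mem hh₁ ?_, n₁ * n₂, mul_mem hn₁ hn₂, by group,
          by rw [map_mul, hσ₁, hσ₂], mul_mem hK₁ hK₂⟩
        exact (Subgroup.mem_normalizer_iff.mp (mono_le_normalizer A.hk A.wk A.ak hn₁) h₂).mp hh₂
      inv_mem' := by
        rintro a ⟨h₁, hh₁, n₁, hn₁, rfl, hσ₁, hK₁⟩
        refine ⟨n₁⁻¹ * h₁⁻¹ * n₁⁻¹⁻¹, ?_, n₁⁻¹, inv_mem hn₁, by group,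
          by rw [map_inv, hσ₁], inv_mem hK₁⟩
        exact (Subgroup.mem_normalizer_iff.mp
          (mono_le_normalizer A.hk A.wk A.ak (inv_mem hn₁)) h₁⁻¹).mp (inv_mem hh₁) }
  have hle : D.monomialSubgroup F ≤ T := by
    unfold ChevalleyDatum.monomialSubgroup
    apply sup_le
    · intro h hh
      exact ⟨h, hh, 1, one_mem _, by simp, map_one _, one_mem _⟩
    · rw [Subgroup.closure_le]
      rintro g ⟨r, hr, hg⟩
      refine ⟨1, one_mem _, g, ?_, by simp, ?_, ?_⟩
      · exact (le_sup_right : _ ≤ D.diagonalSubgroup F ⊔ _) (Subgroup.subset_closure ⟨r, hr, hg⟩)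
      · apply Units.ext
        rw [glMap_val, hg]
        unfold ChevalleyDatum.nMat
        rw [wordMat_map, nWord_map_one]
      · have e : g = wordU A.hk (D.nWord r (1 : F)) := by
          apply Units.ext
          rw [hg, wordU_val]
          rfl
        rw [e]
        apply wordU_mem
        intro p hp
        apply hL
        simp only [ChevalleyDatum.nWord, List.mem_cons, List.not_mem_nil, or_false] at hp
        rcases hp with rfl | rfl | rfl <;> simp
  exact hle hn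

/-- An element of the group fixed by the field endomorphism is a product `u h v` with `u`, `v`
products of root elements with fixed parameters and `h` a fixed element of `H`. -/
theorem fixed_decomp {g : GL D.Idx F} (hg : g ∈ D.group F) (hτ : glMap D σ g = g) :
    ∃ u ∈ L, ∃ h ∈ D.diagonalSubgroup F, ∃ v ∈ L, glMap D σ h = h ∧ g = u * h * v := by
  obtain ⟨hex, huniq⟩ := bruhat_normal_form (F := F) A.hk A.nk A.xk A.wk A.lk A.ak A.w0k A.ck
    A.pk A.ok A.bk A.rk A.hnp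
  obtain ⟨b, hb, n, hn, u', hu', rfl⟩ := hex g hg
  obtain ⟨h', hh', n₀, hn₀N, rfl, hn₀σ, hn₀K⟩ := mono_decomp_L A σ L hL hn
  have hu'' : u' ∈ unegSub D F n₀ := uneg_of_diag_mul A hh' hu'
  have hτu' : glMap D σ u' ∈ unegSub D F n₀ := uneg_map σ n₀ (Subgroup.mem_map_of_mem _ hu'')
  have hb1 : b * h' ∈ D.borelSubgroup F := mul_mem hb (diag_le_borel hh')
  have hτb1 : glMap D σ (b * h') ∈ D.borelSubgroup F :=
    glMap_borel σ (Subgroup.mem_map_of_mem _ hb1)
  have e : b * h' * n₀ * u' = glMap D σ (b * h') * n₀ * glMap D σ u' := by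
    have h1 : glMap D σ (b * h' * n₀ * u') = b * h' * n₀ * u' := by
      rw [mul_assoc b h' n₀]
      exact hτ
    rw [map_mul, map_mul, hn₀σ] at h1
    exact h1.symm
  obtain ⟨-, h2⟩ := huniq _ _ _ _ _ _ hb1 hτb1 hn₀N hn₀N hu'' hτu' e
  obtain ⟨e1, e2⟩ := h2 rfl
  obtain ⟨u, hu, h, hh, e3⟩ := borel_decomp A.hk A.wk A.ak (b * h') hb1
  have hτu : glMap D σ u ∈ D.posUnipotent F := glMap_posU σ (Subgroup.mem_map_of_mem _ hu)
  have hτh : glMap D σ h ∈ D.diagonalSubgroup F := glMap_diag σ (Subgroup.mem_map_of_mem _ hh)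
  have e4 : u * h = glMap D σ u * glMap D σ h := by rw [← map_mul, ← e3, ← e1]
  have e5 : (glMap D σ u)⁻¹ * u = glMap D σ h * h⁻¹ := by
    rw [inv_mul_eq_iff_eq_mul, ← mul_assoc, ← e4]
    group
  have e6 : (glMap D σ u)⁻¹ * u ∈ D.posUnipotent F ⊓ D.diagonalSubgroup F :=
    Subgroup.mem_inf.mpr ⟨mul_mem (inv_mem hτu) hu, by rw [e5]; exact mul_mem hτh (inv_mem hh)⟩
  rw [posU_inf_diag A.hk A.lk A.ak, Subgroup.mem_bot, inv_mul_eq_one] at e6
  have hh_fix : glMap D σ h = h := by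
    rw [e6] at e4
    exact (mul_left_cancel e4).symm
  refine ⟨u, fixed_posU_L A σ L hL hu e6, h, hh,
    n₀ * u', mul_mem hn₀K (fixed_posU_L A σ L hL (uneg_le_pos n₀ hu'') e2.symm), hh_fix, ?_⟩
  rw [← mul_assoc b, e3]
  simp only [mul_assoc]

end decomp

section centralizer

variable (A : ALLOK D)

theorem xU_inj_of (hk : HOK D) {r : ℕ} (hr : r < D.nroots) {a b : F}
    (h : xU hk r a = xU hk r b) : a = b := by
  have h1 : xU hk r (a - b) = 1 := by
    rw [sub_eq_add_neg, ← xU_mul, ← xU_inv, h, mul_inv_cancel]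
  exact sub_eq_zero.mp (xU_eq_one hk hr h1)

/-- An element of the group commuting with the root elements `x_r(±1)` is trivial. -/
theorem centralizer_trivial {c : GL D.Idx F} (hc : c ∈ D.group F)
    (hcomm : ∀ r < D.nroots, ∀ t : F, (t = 1 ∨ t = -1) → Commute c (xU A.hk r t)) : c = 1 := by
  classical
  obtain ⟨P, hB, _, _⟩ := bn_pair_exists (F := F) A.hk A.nk A.xk A.wk A.lk A.ak A.w0k A.ck A.pk
    A.ok A.bk
  obtain ⟨hex, huniq⟩ := bruhat_normal_form (F := F) A.hk A.nk A.xk A.wk A.lk A.ak A.w0k A.ck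
    A.pk A.ok A.bk A.rk A.hnp
  obtain ⟨b, hb, n, hn, u', hu', e0⟩ := hex c hc
  obtain ⟨π, hπ, hact⟩ := exists_actsAs A hn
  have hpos : ∀ r : Fin D.nroots, D.IsPosRoot r → D.IsPosRoot (π r) := by
    intro r hr
    rcases A.hk.posneg (π r) (π r).2 with h1 | h1
    · exact h1
    · exfalso
      obtain ⟨c', e⟩ := hact r
      have hx : xU A.hk r 1 ∈ unegSub D F n := xU_mem_uneg A.hk c' hr h1 e 1
      have e1 : b * n * (u' * xU A.hk r 1) = xU A.hk r 1 * b * n * u' := by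
        have h3 : c * xU A.hk r 1 = xU A.hk r 1 * c := hcomm r r.2 1 (Or.inl rfl)
        rw [e0] at h3
        rw [← mul_assoc, h3]
        simp only [mul_assoc]
      obtain ⟨-, h2⟩ := huniq _ _ _ _ _ _ hb (mul_mem (xU_pos_mem_borel A.hk hr 1) hb) hn hn
        (mul_mem hu' hx) hu' e1
      obtain ⟨-, e3⟩ := h2 rfl
      have h4 : xU A.hk r (1 : F) = 1 := mul_eq_left.mp e3
      exact one_ne_zero (xU_eq_one A.hk r.2 h4)
  have hnH : n ∈ D.diagonalSubgroup F := by
    have hnG := mono_le_group A.hk hn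
    have hU : D.posUnipotent F ≤ (D.borelSubgroup F).comap (MulAut.conj n).toMonoidHom := by
      unfold ChevalleyDatum.posUnipotent
      rw [Subgroup.closure_le]
      rintro g ⟨r, t, hr, hg⟩
      show n * g * n⁻¹ ∈ D.borelSubgroup F
      obtain ⟨c', e⟩ := hact ⟨r, hr.1⟩
      rw [eq_xU A.hk hg, e t]
      exact xU_pos_mem_borel A.hk (hpos ⟨r, hr.1⟩ hr) _
    have hH : D.diagonalSubgroup F ≤ (D.borelSubgroup F).comap (MulAut.conj n).toMonoidHom := by
      intro h' hh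
      show n * h' * n⁻¹ ∈ D.borelSubgroup F
      exact diag_le_borel
        ((Subgroup.mem_normalizer_iff.mp (mono_le_normalizer A.hk A.wk A.ak hn) h').mp hh)
    have hBle : D.borelSubgroup F ≤ (D.borelSubgroup F).comap (MulAut.conj n).toMonoidHom :=
      sup_le hU hH
    have hBmem : ∀ x : ↥(D.group F), x ∈ P.B ↔ (x : GL D.Idx F) ∈ D.borelSubgroup F := by
      rw [hB]
      intro x
      exact Iff.rfl
    have h1 : (⟨n, hnG⟩ : ↥(D.group F)) ∈ P.B := by
      apply BN.mem_of_conj_mem P P.B P.B le_rfl le_rfl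
      intro x hx
      rw [hBmem]
      exact hBle ((hBmem x).mp hx)
    have h2 : n ∈ D.borelSubgroup F := (hBmem _).mp h1
    rw [← borel_inf_mono A.hk A.nk A.xk A.lk A.wk A.ak A.ok]
    exact ⟨h2, hn⟩
  have hcB : c ∈ D.borelSubgroup F := by
    rw [e0]
    exact mul_mem (mul_mem hb (diag_le_borel hnH))
      ((le_sup_left : D.posUnipotent F ≤ D.borelSubgroup F) (uneg_le_pos n hu'))
  have hcn : Commute c (nW A.hk F (w0Of D)) := by
    unfold nW
    apply Commute.list_prod_right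
    intro g hg
    obtain ⟨j, hj, rfl⟩ := List.mem_map.mp hg
    have hj' := A.w0k.lt j hj
    have hs := simple_lt D A.hk.simple hj'
    unfold nU
    exact ((hcomm _ hs.1 1 (Or.inl rfl)).mul_right (hcomm _ hs.2 (-1) (Or.inr rfl))).mul_right
      (hcomm _ hs.1 1 (Or.inl rfl))
  have hcH : c ∈ D.diagonalSubgroup F := by
    obtain ⟨u, hu, h, hh, e3⟩ := borel_decomp A.hk A.wk A.ak c hcB
    have hnN : nW A.hk F (w0Of D) ∈ D.monomialSubgroup F := nW_mem A.hk _ A.w0k.lt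
    have h1 : nW A.hk F (w0Of D) * u * (nW A.hk F (w0Of D))⁻¹ ∈ D.negUnipotent F := by
      rw [← w0_conj (F := F) A.hk A.nk A.xk _ _ A.w0k.lt A.w0k.ok]
      exact ⟨u, hu, rfl⟩
    have h2 : nW A.hk F (w0Of D) * h * (nW A.hk F (w0Of D))⁻¹ ∈ D.diagonalSubgroup F :=
      (Subgroup.mem_normalizer_iff.mp (mono_le_normalizer A.hk A.wk A.ak hnN) h).mp hh
    have e4 : c = nW A.hk F (w0Of D) * u * (nW A.hk F (w0Of D))⁻¹ *
        (nW A.hk F (w0Of D) * h * (nW A.hk F (w0Of D))⁻¹) := by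
      have e5 : c = nW A.hk F (w0Of D) * c * (nW A.hk F (w0Of D))⁻¹ := by
        rw [← hcn.eq, mul_inv_cancel_right]
      rw [e3] at e5 ⊢
      rw [e5]
      group
    have h3 : c ∈ D.borelSubgroup F ⊓ (D.negUnipotent F ⊔ D.diagonalSubgroup F) := by
      refine Subgroup.mem_inf.mpr ⟨hcB, ?_⟩
      rw [e4]
      exact Subgroup.mul_mem_sup h1 h2
    rw [(borel_inf_neg A.hk A.wk A.lk A.ak).2] at h3
    exact h3
  obtain ⟨c', hc'0, hc'⟩ := diag_chi A.hk A.ak c hcH
  apply Units.ext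
  rw [hc', Units.val_one]
  unfold chiMat
  rw [← Matrix.diagonal_one]
  congr 1
  funext col
  rcases col with i | r
  · exact chiN_cartan D c' D.rank i.2
  · have h1 := chi_conj_xU A.hk A.wk c c' hc'0 hc' r.2 (1 : F)
    have h2 : c * xU A.hk r 1 * c⁻¹ = xU A.hk r 1 := by
      rw [(hcomm r r.2 1 (Or.inl rfl)).eq, mul_inv_cancel_right]
    rw [h2] at h1
    have h3 := xU_inj_of A.hk r.2 h1
    rw [mul_one] at h3
    exact h3.symm

end centralizer

section normalizer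

/-- The subgroup generated by the root elements with parameters fixed by `σ`. -/
def fixGen (D : ChevalleyDatum) (σ : F →+* F) : Subgroup (GL D.Idx F) :=
  Subgroup.closure {g : GL D.Idx F | ∃ (s : ℕ) (t : F), σ t = t ∧
    (g : Matrix D.Idx D.Idx F) = D.x F s t}

variable (A : ALLOK D) (σ : F →+* F)

theorem xU_mem_fixGen (r : ℕ) (t : F) (ht : σ t = t) : xU A.hk r t ∈ fixGen D σ :=
  Subgroup.subset_closure ⟨r, t, ht, xU_val A.hk r t⟩

include A in
/-- A fixed element of `H` normalises the group generated by the fixed root elements. -/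
theorem diag_conj_fixGen {h : GL D.Idx F} (hh : h ∈ D.diagonalSubgroup F)
    (hτ : glMap D σ h = h) {x : GL D.Idx F} (hx : x ∈ fixGen D σ) :
    h * x * h⁻¹ ∈ fixGen D σ := by
  suffices hsuff : fixGen D σ ≤ (fixGen D σ).comap (MulAut.conj h).toMonoidHom from hsuff hx
  unfold fixGen
  rw [Subgroup.closure_le]
  rintro g ⟨s, t, ht, hg⟩
  show h * g * h⁻¹ ∈ fixGen D σ
  by_cases hs : s < D.nroots
  · obtain ⟨c', hc'0, hc'⟩ := diag_chi A.hk A.ak h hh
    rw [eq_xU A.hk hg, chi_conj_xU A.hk A.wk h c' hc'0 hc' hs t]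
    have h1 : ((glMap D σ h : GL D.Idx F) : Matrix D.Idx D.Idx F) (Sum.inr ⟨s, hs⟩)
        (Sum.inr ⟨s, hs⟩) = (h : Matrix D.Idx D.Idx F) (Sum.inr ⟨s, hs⟩) (Sum.inr ⟨s, hs⟩) := by
      rw [hτ]
    rw [glMap_val, hc'] at h1
    simp only [chiMat, Matrix.map_apply, Matrix.diagonal_apply_eq] at h1
    refine xU_mem_fixGen A σ _ _ ?_
    rw [map_mul, ht]
    congr 1
  · have e : g = 1 := by
      apply Units.ext
      rw [hg, Units.val_one]
      simp [ChevalleyDatum.x, hs]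
    rw [e, mul_one, mul_inv_cancel]
    exact one_mem _

variable (K : Subgroup (GL D.Idx F)) (hKG : K ≤ D.group F) (hLK : fixGen D σ ≤ K)
  (hKfix : ∀ g ∈ K, glMap D σ g = g)

include A hLK in
theorem cent_fix : D.group F ⊓ Subgroup.centralizer (K : Set (GL D.Idx F)) = ⊥ := by
  rw [eq_bot_iff]
  rintro c ⟨hc, hcent⟩
  rw [Subgroup.mem_bot]
  apply centralizer_trivial A hc
  intro r hr t ht
  have hmem : xU A.hk r t ∈ K := by
    apply hLK
    refine xU_mem_fixGen A σ _ _ ?_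
    rcases ht with rfl | rfl
    · exact map_one σ
    · rw [map_neg, map_one]
  exact (Subgroup.mem_centralizer_iff.mp hcent _ hmem).symm

include A hKG hLK hKfix in
theorem norm_fix {g : GL D.Idx F} (hg : g ∈ D.group F) :
    g ∈ Subgroup.normalizer (K : Set (GL D.Idx F)) ↔ glMap D σ g = g := by
  constructor
  · intro hn
    have hz : g⁻¹ * glMap D σ g ∈ D.group F ⊓ Subgroup.centralizer (K : Set (GL D.Idx F)) := by
      refine Subgroup.mem_inf.mpr
        ⟨mul_mem (inv_mem hg) (glMap_group σ (Subgroup.mem_map_of_mem _ hg)), ?_⟩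
      rw [Subgroup.mem_centralizer_iff]
      intro x hx
      have h1 : g * x * g⁻¹ ∈ K := (Subgroup.mem_normalizer_iff.mp hn x).mp hx
      have h2 := hKfix _ h1
      rw [map_mul, map_mul, map_inv, hKfix x hx] at h2
      have h3 : glMap D σ g * x = g * x * g⁻¹ * glMap D σ g := by
        rw [← h2]
        group
      calc x * (g⁻¹ * glMap D σ g) = g⁻¹ * (g * x * g⁻¹ * glMap D σ g) := by group
        _ = g⁻¹ * (glMap D σ g * x) := by rw [h3]
        _ = g⁻¹ * glMap D σ g * x := by group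
    rw [cent_fix A σ K hLK, Subgroup.mem_bot, inv_mul_eq_one] at hz
    exact hz.symm
  · intro hτ
    have hL := xU_mem_fixGen A σ
    obtain ⟨u, hu, h, hh, v, hv, hhτ, rfl⟩ := fixed_decomp A σ (fixGen D σ) hL hg hτ
    have hconj : ∀ (h : GL D.Idx F), h ∈ D.diagonalSubgroup F → glMap D σ h = h →
        ∀ x ∈ K, h * x * h⁻¹ ∈ K := by
      intro h hh hhτ x hx
      obtain ⟨u₁, hu₁, h₁, hh₁, v₁, hv₁, -, rfl⟩ :=
        fixed_decomp A σ (fixGen D σ) hL (hKG hx) (hKfix x hx)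
      have hh₁K : h₁ ∈ K := by
        have e : h₁ = u₁⁻¹ * (u₁ * h₁ * v₁) * v₁⁻¹ := by group
        rw [e]
        exact mul_mem (mul_mem (inv_mem (hLK hu₁)) hx) (inv_mem (hLK hv₁))
      have hc := diag_comm A.hk A.ak h h₁ hh hh₁
      have hc' : h⁻¹ * h₁ * h = h₁ := by rw [mul_assoc, ← hc, inv_mul_cancel_left]
      have e : h * (u₁ * h₁ * v₁) * h⁻¹ = (h * u₁ * h⁻¹) * h₁ * (h * v₁ * h⁻¹) := by
        calc h * (u₁ * h₁ * v₁) * h⁻¹ = h * u₁ * h₁ * v₁ * h⁻¹ := by group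
          _ = h * u₁ * (h⁻¹ * h₁ * h) * v₁ * h⁻¹ := by rw [hc']
          _ = (h * u₁ * h⁻¹) * h₁ * (h * v₁ * h⁻¹) := by group
      rw [e]
      exact mul_mem (mul_mem (hLK (diag_conj_fixGen A σ hh hhτ hu₁)) hh₁K)
        (hLK (diag_conj_fixGen A σ hh hhτ hv₁))
    have hfwd : ∀ x ∈ K, (u * h * v) * x * (u * h * v)⁻¹ ∈ K := by
      intro x hx
      have e : (u * h * v) * x * (u * h * v)⁻¹ = u * (h * (v * x * v⁻¹) * h⁻¹) * u⁻¹ := by group
      rw [e]
      exact mul_mem (mul_mem (hLK hu) (hconj h hh hhτ _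
        (mul_mem (mul_mem (hLK hv) hx) (inv_mem (hLK hv))))) (inv_mem (hLK hu))
    have hbwd : ∀ x ∈ K, (u * h * v)⁻¹ * x * (u * h * v) ∈ K := by
      intro x hx
      have e : (u * h * v)⁻¹ * x * (u * h * v) = v⁻¹ * (h⁻¹ * (u⁻¹ * x * u) * h⁻¹⁻¹) * v := by
        group
      rw [e]
      have hinvτ : glMap D σ h⁻¹ = h⁻¹ := by rw [map_inv, hhτ]
      exact mul_mem (mul_mem (inv_mem (hLK hv)) (hconj h⁻¹ (inv_mem hh) hinvτ _
        (mul_mem (mul_mem (inv_mem (hLK hu)) hx) (hLK hu)))) (hLK hv)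
    rw [Subgroup.mem_normalizer_iff]
    intro x
    constructor
    · exact hfwd x
    · intro hx
      have h5 := hbwd _ hx
      have e : (u * h * v)⁻¹ * ((u * h * v) * x * (u * h * v)⁻¹) * (u * h * v) = x := by group
      rwa [e] at h5

end normalizer

end Cfsg.Agent.Lib.Helper9
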