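import Cfsg.Agent.Lib.Helper9.ThmTw
import Cfsg.Agent.Lib.Helper9.ChevComm

set_option autoImplicit false

namespace Cfsg.Agent.Lib.Helper9

open Cfsg.Lie

variable {D : ChevalleyDatum} {F : Type*} [Field F]

theorem aba_cdc {G : Type*} [Group G] {a b c d : G} (h1 : Commute a c) (h2 : Commute b c)
    (h3 : Commute a d) : a * b * a * (c * d * c) = (a * c) * (b * d) * (a * c) := by
  have e1 : ∀ X, a * (c * X) = c * (a * X) := fun X => by rw [← mul_assoc, h1.eq, mul_assoc]
  have e2 : ∀ X, b * (c * X) = c * (b * X) := fun X => by rw [← mul_assoc, h2.eq, mul_assoc]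
  have e3 : ∀ X, a * (d * X) = d * (a * X) := fun X => by rw [← mul_assoc, h3.eq, mul_assoc]
  simp only [mul_assoc]
  conv_lhs => rw [e1, e2, e3]

/-- Two root elements commute when the commutator formula of their roots has no term. -/
theorem comm_of_terms_nil (hk : HOK D) {r s : ℕ} (hr : r < D.nroots) (hs : s < D.nroots)
    (hne : s ≠ D.neg r) (hB : commB D (litsOf D) r s = true) (hnil : D.commTerms r s = [])
    (t u : F) : Commute (xU hk r t) (xU hk s u) := by
  have h := comm_of_commB D hk.hN (litsOf D) hk.xok hr hs hne hB t u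
  rw [ChevalleyDatum.commWord, hnil] at h
  simp only [List.map_nil, ChevalleyDatum.wordMat, List.prod_nil, mul_one] at h
  apply Units.ext
  rw [Units.val_mul, Units.val_mul, xU_val, xU_val]
  exact h.symm

theorem nW_append (hk : HOK D) (w₁ w₂ : List ℕ) :
    nW hk F (w₁ ++ w₂) = nW hk F w₁ * nW hk F w₂ := by
  simp [nW]

theorem nW_flatten_mem (hk : HOK D) (G1 : Subgroup (GL D.Idx F)) (L : List (List ℕ))
    (h : ∀ blk ∈ L, nW hk F blk ∈ G1) : nW hk F L.flatten ∈ G1 := by
  induction L with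
  | nil => simp [nW]
  | cons blk L ih =>
    rw [List.flatten_cons, nW_append]
    exact mul_mem (h blk (by simp)) (ih (fun b hb => h b (by simp [hb])))

theorem nU_eq_three (hk : HOK D) (i : ℕ) :
    nU hk F i = xU hk (D.simple i) 1 * xU hk (D.neg (D.simple i)) (-1) * xU hk (D.simple i) 1 := by
  rw [nU_eq_nrU, nrU, inv_one]

theorem nW_one (hk : HOK D) (i : ℕ) : nW hk F [i] = nU hk F i := by simp [nW]

theorem nW_two (hk : HOK D) (i j : ℕ) : nW hk F [i, j] = nU hk F i * nU hk F j := by simp [nW]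

theorem nW_three (hk : HOK D) (i j k : ℕ) :
    nW hk F [i, j, k] = nU hk F i * nU hk F j * nU hk F k := by simp [nW, mul_assoc]

/-- The product of the `n_p` of two fundamental roots with commuting root subgroups. -/
theorem block2 (hk : HOK D) (G1 : Subgroup (GL D.Idx F)) {i j : ℕ}
    (hac : Commute (xU hk (D.simple i) (1 : F)) (xU hk (D.simple j) 1))
    (hbc : Commute (xU hk (D.neg (D.simple i)) (-1 : F)) (xU hk (D.simple j) 1))
    (had : Commute (xU hk (D.simple i) (1 : F)) (xU hk (D.neg (D.simple j)) (-1)))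
    (h1 : xU hk (D.simple i) (1 : F) * xU hk (D.simple j) 1 ∈ G1)
    (h2 : xU hk (D.neg (D.simple i)) (-1 : F) * xU hk (D.neg (D.simple j)) (-1) ∈ G1) :
    nU hk F i * nU hk F j ∈ G1 := by
  rw [nU_eq_three, nU_eq_three, aba_cdc hac hbc had]
  exact mul_mem (mul_mem h1 h2) h1

/-- The product of the `n_p` of three fundamental roots with pairwise commuting root
subgroups. -/
theorem block3 (hk : HOK D) (G1 : Subgroup (GL D.Idx F)) {i j k : ℕ}
    (hac : Commute (xU hk (D.simple i) (1 : F)) (xU hk (D.simple j) 1))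
    (hbc : Commute (xU hk (D.neg (D.simple i)) (-1 : F)) (xU hk (D.simple j) 1))
    (had : Commute (xU hk (D.simple i) (1 : F)) (xU hk (D.neg (D.simple j)) (-1)))
    (hae : Commute (xU hk (D.simple i) (1 : F)) (xU hk (D.simple k) 1))
    (hce : Commute (xU hk (D.simple j) (1 : F)) (xU hk (D.simple k) 1))
    (hbe : Commute (xU hk (D.neg (D.simple i)) (-1 : F)) (xU hk (D.simple k) 1))
    (hde : Commute (xU hk (D.neg (D.simple j)) (-1 : F)) (xU hk (D.simple k) 1))
    (haf : Commute (xU hk (D.simple i) (1 : F)) (xU hk (D.neg (D.simple k)) (-1)))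
    (hcf : Commute (xU hk (D.simple j) (1 : F)) (xU hk (D.neg (D.simple k)) (-1)))
    (h1 : xU hk (D.simple i) (1 : F) * xU hk (D.simple j) 1 * xU hk (D.simple k) 1 ∈ G1)
    (h2 : xU hk (D.neg (D.simple i)) (-1 : F) * xU hk (D.neg (D.simple j)) (-1) *
      xU hk (D.neg (D.simple k)) (-1) ∈ G1) :
    nU hk F i * nU hk F j * nU hk F k ∈ G1 := by
  rw [nU_eq_three, nU_eq_three, nU_eq_three, aba_cdc hac hbc had,
    aba_cdc (hae.mul_left hce) (hbe.mul_left hde) (haf.mul_left hcf)]
  exact mul_mem (mul_mem h1 h2) h1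

theorem neg_one_pow_card {K : Type*} [Field K] [Fintype K] {q n : ℕ} (hn : n ≠ 0)
    (hK : Fintype.card K = q ^ n) : (-1 : K) ^ q = -1 := by
  rcases Nat.even_or_odd q with he | ho
  · have h2 : ringChar K = 2 := by
      rw [FiniteField.even_card_iff_char_two, hK]
      exact Nat.even_iff.mp (he.pow_of_ne_zero hn)
    have h3 : (-1 : K) = 1 := neg_one_eq_one_iff.mpr h2
    rw [h3, one_pow]
  · exact ho.neg_one_pow

end Cfsg.Agent.Lib.Helper9
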