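import Cfsg.Agent.Lib.Helper9.ThmF4Cent
import Cfsg.Agent.Lib.Helper9.ThmTw2

set_option autoImplicit false

namespace Cfsg.Agent.Lib.Helper9

open Cfsg.Lie

open Cfsg.Agent.Lib.Helper4

section general

variable {D : ChevalleyDatum} {F : Type*} [Field F]

theorem centGen_one (a : ℕ) : centGen D F [a] = D.posUnipotent F ⊔ D.rootSubgroup F a := by
  unfold centGen ChevalleyDatum.rootSubgroup
  congr 2
  ext g
  simp only [List.mem_cons, List.not_mem_nil, or_false]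
  constructor
  · rintro ⟨s, rfl, c, h⟩
    exact ⟨c, h⟩
  · rintro ⟨c, h⟩
    exact ⟨_, rfl, c, h⟩

theorem vSub_anti (hk : HOK D) (S : ℕ → Prop) {k k' : ℕ} (h : k' ≤ k) :
    vSub hk F S k ≤ vSub hk F S k' := by
  unfold vSub
  apply Subgroup.closure_mono
  rintro y ⟨r, t, hr, hkr, rfl⟩
  exact ⟨r, t, hr, by omega, rfl⟩

/-- A positive root element normalises the group generated by the root subgroups of the
positive roots of index at least `k`. -/
theorem xU_mem_normalizer_vSub_pos (A : ALLOK D) (k : ℕ) {r : ℕ} (hr : D.IsPosRoot r) (t : F) :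
    xU A.hk r t ∈ Subgroup.normalizer (vSub A.hk F D.IsPosRoot k : Set (GL D.Idx F)) := by
  have key : ∀ (t u : F) (s : ℕ), D.IsPosRoot s → k ≤ s →
      (xU A.hk r t)⁻¹ * xU A.hk s u * xU A.hk r t ∈ vSub A.hk F D.IsPosRoot k := by
    intro t u s hs hks
    by_cases e : s = r
    · subst e
      have e1 : (xU A.hk s t)⁻¹ * xU A.hk s u * xU A.hk s t = xU A.hk s u := by
        rw [xU_inv, xU_mul, xU_mul]
        congr 1
        ring
      rw [e1]
      exact xU_mem_vSub A.hk hs hks u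
    · have hsn : s ≠ D.neg r := by
        intro e'
        have h1 := lamR_pos A.uk hs
        rw [e', lamR_neg A.uk hr.1] at h1
        have h2 := lamR_pos A.uk hr
        omega
      obtain ⟨L, hL, e2⟩ := comm_all A.hk A.nk A.xk A.ck A.ok A.uk _ r hr.1 rfl s hs.1 e hsn t u
      have e3 : (xU A.hk r t)⁻¹ * xU A.hk s u * xU A.hk r t = xU A.hk s u * wordU A.hk L := by
        rw [mul_assoc, e2]
        group
      rw [e3]
      apply mul_mem (xU_mem_vSub A.hk hs hks u)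
      apply wordU_mem
      intro p hp
      have h1 := hL p hp
      have h2 := comb_pos A.hk A.uk hr hs h1
      exact xU_mem_vSub A.hk h2.1 (by omega) _
  apply mem_normalizer_closure
  · rintro y ⟨s, u, hs, hks, rfl⟩
    have h := key (-t) u s hs hks
    rwa [← xU_inv, inv_inv] at h
  · rintro y ⟨s, u, hs, hks, rfl⟩
    exact key t u s hs hks

theorem diag_le_normalizer_vSub_pos (A : ALLOK D) (k : ℕ) :
    D.diagonalSubgroup F ≤
      Subgroup.normalizer (vSub A.hk F D.IsPosRoot k : Set (GL D.Idx F)) := by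
  have e : vSub A.hk F D.IsPosRoot k = Subgroup.closure {g : GL D.Idx F | ∃ (r : ℕ) (t : F),
      (D.IsPosRoot r ∧ k ≤ r) ∧ (g : Matrix D.Idx D.Idx F) = D.x F r t} := by
    unfold vSub
    congr 1
    ext g
    constructor
    · rintro ⟨r, t, hr, hkr, rfl⟩
      exact ⟨r, t, ⟨hr, hkr⟩, xU_val A.hk r t⟩
    · rintro ⟨r, t, ⟨hr, hkr⟩, hg⟩
      exact ⟨r, t, hr, hkr, eq_xU A.hk hg⟩
  rw [e]
  exact diag_le_normalizer A.hk A.wk A.ak (fun r => D.IsPosRoot r ∧ k ≤ r) (fun r h => h.1.1)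

/-- The Borel subgroup normalises the group generated by the root subgroups of the positive
roots of index at least `k`. -/
theorem borel_le_normalizer_vSub_pos (A : ALLOK D) (k : ℕ) :
    D.borelSubgroup F ≤
      Subgroup.normalizer (vSub A.hk F D.IsPosRoot k : Set (GL D.Idx F)) := by
  unfold ChevalleyDatum.borelSubgroup
  apply sup_le
  · unfold ChevalleyDatum.posUnipotent
    rw [Subgroup.closure_le]
    rintro g ⟨r, t, hr, hg⟩
    rw [eq_xU A.hk hg]
    exact xU_mem_normalizer_vSub_pos A k hr t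
  · exact diag_le_normalizer_vSub_pos A k

end general

/-! ### Certificates for type `G₂` -/

set_option maxRecDepth 1000000 in
theorem g2c_comm_facts : ∀ p ∈ [((9 : ℕ), (10 : ℕ)), (9, 11), (9, 6), (9, 5), (10, 11),
      (7, 10), (7, 11), (8, 11)],
    p.1 < chevG2.nroots ∧ p.2 < chevG2.nroots ∧ p.2 ≠ chevG2.neg p.1 ∧
      commB chevG2 (litsOf chevG2) p.1 p.2 = true ∧ chevG2.commTerms p.1 p.2 = [] := by
  decide +kernel

set_option maxRecDepth 1000000 in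
theorem g2c_comm_terms :
    commB chevG2 (litsOf chevG2) 9 7 = true ∧ chevG2.commTerms 9 7 = [(10, -3, 1, 1)] ∧
    commB chevG2 (litsOf chevG2) 9 8 = true ∧ chevG2.commTerms 9 8 = [(11, -3, 1, 1)] ∧
    (7 : ℕ) ≠ chevG2.neg 9 ∧ (8 : ℕ) ≠ chevG2.neg 9 := by
  decide +kernel

theorem g2c_pos : ∀ r ∈ [(6 : ℕ), 7, 8, 9, 10, 11], chevG2.IsPosRoot r := by
  decide +kernel

theorem g2c_pos_ge : ∀ r < chevG2.nroots, chevG2.IsPosRoot r → 6 ≤ r := by
  decide +kernel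

theorem g2c_idx : chevG2.simple 0 = 7 ∧ chevG2.simple 1 = 6 ∧ chevG2.neg 6 = 5 ∧
    chevG2.rank = 2 ∧ chevG2.nroots = 12 := by
  decide +kernel

theorem g2c_cart : ∀ i < chevG2.rank,
    cartanExp chevG2 i (Nat.add chevG2.rank 9) = if i = 0 then 1 else 0 := by
  decide +kernel

theorem g2c_sinv : ∀ r < chevG2.nroots, chevG2.IsPosRoot r →
    chevG2.IsNegRoot (chevG2.reflectRoot 1 r) → r = 6 := by
  decide +kernel

/-- The Weyl group of type `G₂` as lists of images of the roots. -/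
def g2WTab : List (List ℕ) :=
  [[0,1,2,3,4,5,6,7,8,9,10,11],[0,5,3,2,7,1,10,4,9,8,6,11],[1,0,2,4,3,6,5,8,7,9,11,10],
   [1,6,4,2,8,0,11,3,9,7,5,10],[5,0,3,7,2,10,1,9,4,8,11,6],[5,10,7,3,9,0,11,2,8,4,1,6],
   [6,1,4,8,2,11,0,9,3,7,10,5],[6,11,8,4,9,1,10,2,7,3,0,5],[10,5,7,9,3,11,0,8,2,4,6,1],
   [10,11,9,7,8,5,6,3,4,2,0,1],[11,6,8,9,4,10,1,7,2,3,5,0],[11,10,9,8,7,6,5,4,3,2,1,0]]

theorem g2WTab_gen :
    (∀ r < chevG2.nroots, chevG2.reflectRoot 0 r =
      ([0,5,3,2,7,1,10,4,9,8,6,11] : List ℕ).getD r 0) ∧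
    (∀ r < chevG2.nroots, chevG2.reflectRoot 1 r =
      ([1,0,2,4,3,6,5,8,7,9,11,10] : List ℕ).getD r 0) ∧
    (∀ r < chevG2.nroots, r = ([0,1,2,3,4,5,6,7,8,9,10,11] : List ℕ).getD r 0) := by
  decide +kernel

set_option maxRecDepth 1000000 in
theorem g2WTab_mul : ∀ L1 ∈ g2WTab, ∀ L2 ∈ g2WTab, ∃ L ∈ g2WTab, ∀ r < chevG2.nroots,
    L.getD r 0 = L1.getD (L2.getD r 0) 0 := by
  decide +kernel

set_option maxRecDepth 1000000 in
theorem g2WTab_inv : ∀ L ∈ g2WTab, ∃ L' ∈ g2WTab, ∀ r < chevG2.nroots,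
    L'.getD r 0 < chevG2.nroots ∧ L.getD (L'.getD r 0) 0 = r := by
  decide +kernel

set_option maxRecDepth 1000000 in
theorem g2WTab_facts : ∀ L ∈ g2WTab,
    (chevG2.IsPosRoot (L.getD 9 0) → L.getD 9 0 = 7 ∨ L.getD 9 0 = 8 ∨ L.getD 9 0 = 9) ∧
    (chevG2.IsPosRoot (L.getD 10 0) →
      L.getD 10 0 = 6 ∨ L.getD 10 0 = 10 ∨ L.getD 10 0 = 11) ∧
    (chevG2.IsPosRoot (L.getD 11 0) →
      L.getD 11 0 = 6 ∨ L.getD 11 0 = 10 ∨ L.getD 11 0 = 11) ∧
    (L.getD 9 0 = 9 → L = [0,1,2,3,4,5,6,7,8,9,10,11] ∨ L = [1,0,2,4,3,6,5,8,7,9,11,10]) := by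
  decide +kernel

theorem g2_Wp_tab (A : ALLOK chevG2) {π : Equiv.Perm (Fin chevG2.nroots)} (hπ : π ∈ Wp A) :
    ∃ L ∈ g2WTab, ∀ r : Fin chevG2.nroots, ((π r : Fin chevG2.nroots) : ℕ) = L.getD r 0 := by
  refine Subgroup.closure_induction (p := fun π _ => ∃ L ∈ g2WTab,
    ∀ r : Fin chevG2.nroots, ((π r : Fin chevG2.nroots) : ℕ) = L.getD r 0) ?_ ?_ ?_ ?_ hπ
  · rintro x ⟨j, hj, rfl⟩
    have hj' : j < 2 := hj
    interval_cases j
    · refine ⟨[0,5,3,2,7,1,10,4,9,8,6,11], by decide, fun r => ?_⟩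
      rw [sig_apply A hj]
      exact g2WTab_gen.1 r r.2
    · refine ⟨[1,0,2,4,3,6,5,8,7,9,11,10], by decide, fun r => ?_⟩
      rw [sig_apply A hj]
      exact g2WTab_gen.2.1 r r.2
  · exact ⟨[0,1,2,3,4,5,6,7,8,9,10,11], by decide, fun r => g2WTab_gen.2.2 r r.2⟩
  · rintro x y _ _ ⟨L1, hL1, h1⟩ ⟨L2, hL2, h2⟩
    obtain ⟨L, hL, h⟩ := g2WTab_mul L1 hL1 L2 hL2
    refine ⟨L, hL, fun r => ?_⟩
    rw [Equiv.Perm.mul_apply, h1, h2, h r r.2]
  · rintro x _ ⟨L, hL, h1⟩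
    obtain ⟨L', hL', h⟩ := g2WTab_inv L hL
    refine ⟨L', hL', fun r => ?_⟩
    have e : x ⟨L'.getD r 0, (h r r.2).1⟩ = r := Fin.ext (by rw [h1]; exact (h r r.2).2)
    have e2 : x⁻¹ r = ⟨L'.getD r 0, (h r r.2).1⟩ := by
      rw [Equiv.Perm.inv_eq_iff_eq, e]
    rw [e2]

section g2

variable {F : Type*} [Field F]

theorem g2c_commute (hk : HOK chevG2) {r s : ℕ}
    (h : (r, s) ∈ [((9 : ℕ), (10 : ℕ)), (9, 11), (9, 6), (9, 5), (10, 11),
      (7, 10), (7, 11), (8, 11)])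
    (t u : F) : Commute (xU hk r t) (xU hk s u) := by
  obtain ⟨h1, h2, h3, h4, h5⟩ := g2c_comm_facts (r, s) h
  exact comm_of_terms_nil hk h1 h2 h3 h4 h5 t u

theorem g2c_conj7 (hk : HOK chevG2) (t u : F) :
    xU hk 7 u * xU hk 9 t * (xU hk 7 u)⁻¹ = xU hk 9 t * xU hk 10 (3 * t * u) := by
  obtain ⟨hB7, hT7, -, -, hn7, -⟩ := g2c_comm_terms
  have h := comm_of_commB chevG2 hk.hN (litsOf chevG2) hk.xok (r := 9) (s := 7)
    (by decide) (by decide) hn7 hB7 t u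
  rw [ChevalleyDatum.commWord, hT7] at h
  simp only [List.map_cons, List.map_nil, ChevalleyDatum.wordMat, List.prod_cons, List.prod_nil,
    mul_one] at h
  have e : xU hk 7 u * xU hk 9 t = xU hk 9 t * xU hk 7 u * xU hk 10 (3 * t * u) := by
    apply Units.ext
    rw [Units.val_mul, Units.val_mul, Units.val_mul, xU_val, xU_val, xU_val, h]
    congr 2
    push_cast
    ring
  have hc := (g2c_commute hk (r := 7) (s := 10) (by simp) u (3 * t * u)).eq
  rw [e, mul_assoc (xU hk 9 t), hc]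
  group

theorem g2c_conj8 (hk : HOK chevG2) (t u : F) :
    xU hk 8 u * xU hk 9 t * (xU hk 8 u)⁻¹ = xU hk 9 t * xU hk 11 (3 * t * u) := by
  obtain ⟨-, -, hB8, hT8, -, hn8⟩ := g2c_comm_terms
  have h := comm_of_commB chevG2 hk.hN (litsOf chevG2) hk.xok (r := 9) (s := 8)
    (by decide) (by decide) hn8 hB8 t u
  rw [ChevalleyDatum.commWord, hT8] at h
  simp only [List.map_cons, List.map_nil, ChevalleyDatum.wordMat, List.prod_cons, List.prod_nil,
    mul_one] at h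
  have e : xU hk 8 u * xU hk 9 t = xU hk 9 t * xU hk 8 u * xU hk 11 (3 * t * u) := by
    apply Units.ext
    rw [Units.val_mul, Units.val_mul, Units.val_mul, xU_val, xU_val, xU_val, h]
    congr 2
    push_cast
    ring
  have hc := (g2c_commute hk (r := 8) (s := 11) (by simp) u (3 * t * u)).eq
  rw [e, mul_assoc (xU hk 9 t), hc]
  group

theorem g2c_unique (A : ALLOK chevG2) {a b c : F}
    (h : xU A.hk 9 a * xU A.hk 10 b * xU A.hk 11 c = 1) : a = 0 ∧ b = 0 ∧ c = 0 := by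
  have hS := closed_pos A.hk A.uk
  have p9 : chevG2.IsPosRoot 9 := g2c_pos 9 (by simp)
  have p10 : chevG2.IsPosRoot 10 := g2c_pos 10 (by simp)
  have p11 : chevG2.IsPosRoot 11 := g2c_pos 11 (by simp)
  have ha : a = 0 := by
    apply xU_vSub_eq_zero A.hk A.wk A.uk hS p9
    have e : xU A.hk 9 a = (xU A.hk 11 c)⁻¹ * (xU A.hk 10 b)⁻¹ := by
      rw [← mul_inv_rev, eq_inv_iff_mul_eq_one, ← mul_assoc]
      exact h
    rw [e]
    exact mul_mem (inv_mem (xU_mem_vSub A.hk p11 (by norm_num) c))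
      (inv_mem (xU_mem_vSub A.hk p10 (by norm_num) b))
  subst ha
  rw [xU_zero, one_mul] at h
  have hb : b = 0 := by
    apply xU_vSub_eq_zero A.hk A.wk A.uk hS p10
    have e : xU A.hk 10 b = (xU A.hk 11 c)⁻¹ := eq_inv_of_mul_eq_one_left h
    rw [e]
    exact inv_mem (xU_mem_vSub A.hk p11 (by norm_num) c)
  subst hb
  rw [xU_zero, one_mul] at h
  exact ⟨rfl, rfl, xU_eq_one A.hk (by decide) h⟩

/-- The group generated by the root subgroups of `2a+b`, `3a+b`, `3a+2b`, `b` and `-b`. -/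
def g2T (F : Type*) [Field F] : Subgroup (GL chevG2.Idx F) :=
  chevG2.rootSubgroup F 9 ⊔ chevG2.rootSubgroup F 10 ⊔ chevG2.rootSubgroup F 11 ⊔
    chevG2.rootSubgroup F 6 ⊔ chevG2.rootSubgroup F 5

theorem xU_mem_g2T (hk : HOK chevG2) {r : ℕ} (hr : r ∈ [(9 : ℕ), 10, 11, 6, 5]) (c : F) :
    xU hk r c ∈ g2T F := by
  have h : xU hk r c ∈ chevG2.rootSubgroup F r := (mem_rootSubgroup_iff' hk).mpr ⟨c, rfl⟩
  simp only [List.mem_cons, List.not_mem_nil, or_false] at hr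
  unfold g2T
  rcases hr with rfl | rfl | rfl | rfl | rfl
  · exact Subgroup.mem_sup_left (Subgroup.mem_sup_left (Subgroup.mem_sup_left
      (Subgroup.mem_sup_left h)))
  · exact Subgroup.mem_sup_left (Subgroup.mem_sup_left (Subgroup.mem_sup_left
      (Subgroup.mem_sup_right h)))
  · exact Subgroup.mem_sup_left (Subgroup.mem_sup_left (Subgroup.mem_sup_right h))
  · exact Subgroup.mem_sup_left (Subgroup.mem_sup_right h)
  · exact Subgroup.mem_sup_right h

theorem g2T_le (A : ALLOK chevG2) :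
    g2T F ≤ chevG2.group F ⊓ Subgroup.centralizer {xU A.hk 9 (1 : F)} := by
  have key : ∀ r ∈ [(9 : ℕ), 10, 11, 6, 5], chevG2.rootSubgroup F r ≤
      chevG2.group F ⊓ Subgroup.centralizer {xU A.hk 9 (1 : F)} := by
    intro r hr g hg
    obtain ⟨c, rfl⟩ := rootSubgroup_mem A.hk hg
    simp only [List.mem_cons, List.not_mem_nil, or_false] at hr
    refine ⟨xU_mem_group A.hk (by rcases hr with rfl | rfl | rfl | rfl | rfl <;> decide) c, ?_⟩
    show xU A.hk r c ∈ Subgroup.centralizer {xU A.hk 9 (1 : F)}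
    rw [Subgroup.mem_centralizer_iff]
    intro y hy
    rw [Set.mem_singleton_iff] at hy
    rw [hy]
    rcases hr with rfl | rfl | rfl | rfl | rfl
    · rw [xU_mul, xU_mul, add_comm]
    · exact (g2c_commute A.hk (r := 9) (s := 10) (by simp) 1 c).eq
    · exact (g2c_commute A.hk (r := 9) (s := 11) (by simp) 1 c).eq
    · exact (g2c_commute A.hk (r := 9) (s := 6) (by simp) 1 c).eq
    · exact (g2c_commute A.hk (r := 9) (s := 5) (by simp) 1 c).eq
  unfold g2T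
  exact sup_le (sup_le (sup_le (sup_le (key 9 (by simp)) (key 10 (by simp))) (key 11 (by simp)))
    (key 6 (by simp))) (key 5 (by simp))

theorem g2Q_le (A : ALLOK chevG2) : vSub A.hk F chevG2.IsPosRoot 9 ≤ g2T F := by
  unfold vSub
  rw [Subgroup.closure_le]
  rintro y ⟨r, t, hr, hkr, rfl⟩
  have hr12 : r < 12 := hr.1
  apply xU_mem_g2T
  interval_cases r <;> simp

theorem g2Q_comm (A : ALLOK chevG2) {q : GL chevG2.Idx F}
    (hq : q ∈ vSub A.hk F chevG2.IsPosRoot 9) (c : F) :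
    xU A.hk 9 c * q = q * xU A.hk 9 c := by
  have hle : vSub A.hk F chevG2.IsPosRoot 9 ≤ Subgroup.centralizer {xU A.hk 9 c} := by
    unfold vSub
    rw [Subgroup.closure_le]
    rintro y ⟨r, t, hr, hkr, rfl⟩
    rw [SetLike.mem_coe, Subgroup.mem_centralizer_iff]
    intro z hz
    rw [Set.mem_singleton_iff] at hz
    rw [hz]
    have hr12 : r < 12 := hr.1
    interval_cases r
    · rw [xU_mul, xU_mul, add_comm]
    · exact (g2c_commute A.hk (r := 9) (s := 10) (by simp) c t).eq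
    · exact (g2c_commute A.hk (r := 9) (s := 11) (by simp) c t).eq
  exact Subgroup.mem_centralizer_iff.mp (hle hq) _ rfl

theorem six_rearr {G : Type*} [Group G] {A1 B1 A2 B2 A3 B3 : G} (h12 : Commute B1 A2)
    (h13 : Commute B1 A3) (h23 : Commute B2 A3) :
    (A1 * B1) * (A2 * B2) * (A3 * B3) = (A1 * A2 * A3) * (B1 * B2 * B3) := by
  calc (A1 * B1) * (A2 * B2) * (A3 * B3) = A1 * (B1 * A2) * (B2 * A3) * B3 := by group
    _ = A1 * (A2 * B1) * (A3 * B2) * B3 := by rw [h12.eq, h23.eq]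
    _ = A1 * A2 * (B1 * A3) * B2 * B3 := by group
    _ = A1 * A2 * (A3 * B1) * B2 * B3 := by rw [h13.eq]
    _ = (A1 * A2 * A3) * (B1 * B2 * B3) := by group

theorem conj_three {G : Type*} [Group G] (n x y z : G) :
    n * (x * y * z) * n⁻¹ = (n * x * n⁻¹) * (n * y * n⁻¹) * (n * z * n⁻¹) := by
  group

/-- An element of the Borel subgroup centralising `x_{2a+b}(1)` lies in the group generated by
the five root subgroups. -/
theorem g2_cent_borel [CharP F 2] (A : ALLOK chevG2) (g : GL chevG2.Idx F)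
    (hg : g ∈ chevG2.borelSubgroup F)
    (hc : xU A.hk 9 (1 : F) * g = g * xU A.hk 9 1) : g ∈ g2T F := by
  have hS := closed_pos A.hk A.uk
  obtain ⟨u₁, hu₁, h₁, hh₁, rfl⟩ := borel_decomp A.hk A.wk A.ak g hg
  obtain ⟨cc, hcc, hval⟩ := diag_chi A.hk A.ak h₁ hh₁
  have h9 := chi_conj_xU A.hk A.wk h₁ cc hcc hval (s := 9) (by decide) (1 : F)
  have h11 : chiN chevG2 cc chevG2.rank (Nat.add chevG2.rank 9) = cc 0 := by
    unfold chiN
    rw [Finset.prod_eq_single 0]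
    · rw [g2c_cart 0 (by decide), if_pos rfl, zpow_one]
    · intro i hi hik
      rw [g2c_cart i (Finset.mem_range.mp hi), if_neg hik, zpow_zero]
    · intro h
      exact absurd (Finset.mem_range.mpr (by decide)) h
  rw [h11, mul_one] at h9
  have hconj : u₁ * xU A.hk 9 (cc 0) * u₁⁻¹ = xU A.hk 9 1 := by
    rw [← h9]
    calc u₁ * (h₁ * xU A.hk 9 1 * h₁⁻¹) * u₁⁻¹
        = (u₁ * h₁ * xU A.hk 9 1) * (u₁ * h₁)⁻¹ := by group
      _ = xU A.hk 9 1 * (u₁ * h₁) * (u₁ * h₁)⁻¹ := by rw [hc]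
      _ = xU A.hk 9 1 := by group
  have hu6 : u₁ ∈ vSub A.hk F chevG2.IsPosRoot 6 := by
    rw [posU_eq_vSub A.hk] at hu₁
    have hle : vSub A.hk F chevG2.IsPosRoot 0 ≤ vSub A.hk F chevG2.IsPosRoot 6 := by
      unfold vSub
      apply Subgroup.closure_mono
      rintro y ⟨r, t, hr, _, rfl⟩
      exact ⟨r, t, hr, g2c_pos_ge r hr.1 hr, rfl⟩
    exact hle hu₁
  obtain ⟨s6, v6, hv6, rfl⟩ := vSub_split A.hk A.nk A.xk A.ck A.ok A.uk hS
    (g2c_pos 6 (by simp)) u₁ hu6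
  obtain ⟨s7, v7, hv7, rfl⟩ := vSub_split A.hk A.nk A.xk A.ck A.ok A.uk hS
    (g2c_pos 7 (by simp)) v6 hv6
  obtain ⟨s8, q, hq, rfl⟩ := vSub_split A.hk A.nk A.xk A.ck A.ok A.uk hS
    (g2c_pos 8 (by simp)) v7 hv7
  have hqc : q * xU A.hk 9 (cc 0) * q⁻¹ = xU A.hk 9 (cc 0) := by
    rw [← g2Q_comm A hq]
    group
  have e1 : (xU A.hk 6 s6 * (xU A.hk 7 s7 * (xU A.hk 8 s8 * q))) * xU A.hk 9 (cc 0) *
      (xU A.hk 6 s6 * (xU A.hk 7 s7 * (xU A.hk 8 s8 * q)))⁻¹ =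
      xU A.hk 6 s6 * (xU A.hk 7 s7 * (xU A.hk 8 s8 * (q * xU A.hk 9 (cc 0) * q⁻¹) *
        (xU A.hk 8 s8)⁻¹) * (xU A.hk 7 s7)⁻¹) * (xU A.hk 6 s6)⁻¹ := by group
  rw [e1, hqc, g2c_conj8] at hconj
  have e2 : xU A.hk 7 s7 * (xU A.hk 9 (cc 0) * xU A.hk 11 (3 * cc 0 * s8)) * (xU A.hk 7 s7)⁻¹ =
      xU A.hk 9 (cc 0) * xU A.hk 10 (3 * cc 0 * s7) * xU A.hk 11 (3 * cc 0 * s8) := by
    have hc7 := (g2c_commute A.hk (r := 7) (s := 11) (by simp) s7 (3 * cc 0 * s8)).eq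
    calc xU A.hk 7 s7 * (xU A.hk 9 (cc 0) * xU A.hk 11 (3 * cc 0 * s8)) * (xU A.hk 7 s7)⁻¹
        = (xU A.hk 7 s7 * xU A.hk 9 (cc 0) * (xU A.hk 7 s7)⁻¹) *
          ((xU A.hk 7 s7 * xU A.hk 11 (3 * cc 0 * s8)) * (xU A.hk 7 s7)⁻¹) := by group
      _ = xU A.hk 9 (cc 0) * xU A.hk 10 (3 * cc 0 * s7) * xU A.hk 11 (3 * cc 0 * s8) := by
          rw [g2c_conj7, hc7]
          group
  rw [e2] at hconj
  have hc6 := (g2c_commute A.hk (r := 9) (s := 6) (by simp) (1 : F) s6).eq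
  have e3 : xU A.hk 9 (cc 0) * xU A.hk 10 (3 * cc 0 * s7) * xU A.hk 11 (3 * cc 0 * s8) =
      xU A.hk 9 1 := by
    calc xU A.hk 9 (cc 0) * xU A.hk 10 (3 * cc 0 * s7) * xU A.hk 11 (3 * cc 0 * s8)
        = (xU A.hk 6 s6)⁻¹ * (xU A.hk 6 s6 * (xU A.hk 9 (cc 0) * xU A.hk 10 (3 * cc 0 * s7) *
            xU A.hk 11 (3 * cc 0 * s8)) * (xU A.hk 6 s6)⁻¹) * xU A.hk 6 s6 := by group
      _ = (xU A.hk 6 s6)⁻¹ * (xU A.hk 9 1 * xU A.hk 6 s6) := by rw [hconj, mul_assoc]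
      _ = xU A.hk 9 1 := by rw [hc6]; group
  have e4 : xU A.hk 9 (-1 + cc 0) * xU A.hk 10 (3 * cc 0 * s7) * xU A.hk 11 (3 * cc 0 * s8) =
      1 := by
    rw [← xU_mul, mul_assoc, mul_assoc, ← mul_assoc (xU A.hk 9 (cc 0)), e3, xU_mul,
      neg_add_cancel, xU_zero]
  obtain ⟨ha, hb, hc'⟩ := g2c_unique A e4
  have hχ : cc 0 = 1 := by linear_combination ha
  have h3 : (3 : F) = 1 := by
    have h2 : (2 : F) = 0 := CharTwo.two_eq_zero
    linear_combination h2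
  rw [hχ, h3, one_mul, one_mul] at hb hc'
  subst hb
  subst hc'
  rw [xU_zero, xU_zero, one_mul, one_mul]
  apply mul_mem (mul_mem (xU_mem_g2T A.hk (by simp) s6) (g2Q_le A hq))
  have hval3 : (h₁ : Matrix chevG2.Idx chevG2.Idx F) =
      chevG2.wordMat F ((List.range chevG2.rank).flatMap fun i =>
        chevG2.hWord (chevG2.simple i) (cc i)) := by
    rw [hval, prod_hMat chevG2 A.hk.hN (litsOf chevG2) A.hk.xok
      (fun i hi => simple_lt chevG2 A.hk.simple hi) A.hk.hdiag cc chevG2.rank le_rfl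
      (fun i _ => hcc i)]
    rfl
  have hh2 : h₁ = hProd A.hk cc chevG2.rank := Units.ext (by rw [hval3, hProd_val])
  rw [hh2]
  unfold hProd
  apply Subgroup.list_prod_mem
  intro g hg
  obtain ⟨i, hi, rfl⟩ := List.mem_map.mp hg
  rw [List.mem_range] at hi
  have hi2 : i < 2 := hi
  interval_cases i
  · rw [hχ]
    have e3' := nrU_neg_one_mul (F := F) A.hk (chevG2.simple 0)
    have e4' : nrU A.hk (chevG2.simple 0) (1 : F) = (nrU A.hk (chevG2.simple 0) (-1 : F))⁻¹ :=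
      eq_inv_of_mul_eq_one_right e3'
    rw [e4', inv_mul_cancel]
    exact one_mem _
  · have hmem : ∀ a : F, nrU A.hk (chevG2.simple 1) a ∈ g2T F := by
      intro a
      rw [nrU, g2c_idx.2.1, g2c_idx.2.2.1]
      exact mul_mem (mul_mem (xU_mem_g2T A.hk (by simp) _) (xU_mem_g2T A.hk (by simp) _))
        (xU_mem_g2T A.hk (by simp) _)
    exact mul_mem (hmem _) (hmem _)

/-- If `n` maps `x_9(c₉) x_10(c₁₀) x_11(c₁₁)` into `U`, then the roots with a nonzero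
coefficient are mapped to positive roots. -/
theorem g2_split (A : ALLOK chevG2) {n : GL chevG2.Idx F}
    {π : Equiv.Perm (Fin chevG2.nroots)} (hact : ActsAs A n π) (c9 c10 c11 : F)
    (hy : n * (xU A.hk 9 c9 * xU A.hk 10 c10 * xU A.hk 11 c11) * n⁻¹ ∈ chevG2.posUnipotent F) :
    (c9 ≠ 0 → chevG2.IsPosRoot (π ⟨9, by decide⟩)) ∧
    (c10 ≠ 0 → chevG2.IsPosRoot (π ⟨10, by decide⟩)) ∧
    (c11 ≠ 0 → chevG2.IsPosRoot (π ⟨11, by decide⟩)) := by
  classical
  obtain ⟨e9, he9⟩ := hact ⟨9, by decide⟩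
  obtain ⟨e10, he10⟩ := hact ⟨10, by decide⟩
  obtain ⟨e11, he11⟩ := hact ⟨11, by decide⟩
  have hlt9 : ((π ⟨9, by decide⟩ : Fin chevG2.nroots) : ℕ) < chevG2.nroots := (π _).2
  have hlt10 : ((π ⟨10, by decide⟩ : Fin chevG2.nroots) : ℕ) < chevG2.nroots := (π _).2
  have hlt11 : ((π ⟨11, by decide⟩ : Fin chevG2.nroots) : ℕ) < chevG2.nroots := (π _).2
  generalize ((π ⟨9, by decide⟩ : Fin chevG2.nroots) : ℕ) = p9 at he9 hlt9 ⊢
  generalize ((π ⟨10, by decide⟩ : Fin chevG2.nroots) : ℕ) = p10 at he10 hlt10 ⊢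
  generalize ((π ⟨11, by decide⟩ : Fin chevG2.nroots) : ℕ) = p11 at he11 hlt11 ⊢
  have key : ∀ (p : ℕ) (e a : F), (chevG2.IsPosRoot p ∨ a = 0) →
      xU A.hk p (e * a) ∈ chevG2.posUnipotent F := by
    intro p e a h
    rcases h with h | h
    · exact Subgroup.subset_closure ⟨p, _, h, xU_val A.hk _ _⟩
    · rw [h, mul_zero, xU_zero]
      exact one_mem _
  have keyn : ∀ (p : ℕ) (e a : F), (chevG2.IsNegRoot p ∨ a = 0) →
      xU A.hk p (e * a) ∈ chevG2.negUnipotent F := by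
    intro p e a h
    rcases h with h | h
    · exact Subgroup.subset_closure ⟨p, _, h, xU_val A.hk _ _⟩
    · rw [h, mul_zero, xU_zero]
      exact one_mem _
  have hsplit : xU A.hk 9 c9 * xU A.hk 10 c10 * xU A.hk 11 c11 =
      (xU A.hk 9 (if chevG2.IsPosRoot p9 then c9 else 0) *
        xU A.hk 10 (if chevG2.IsPosRoot p10 then c10 else 0) *
        xU A.hk 11 (if chevG2.IsPosRoot p11 then c11 else 0)) *
      (xU A.hk 9 (if chevG2.IsPosRoot p9 then 0 else c9) *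
        xU A.hk 10 (if chevG2.IsPosRoot p10 then 0 else c10) *
        xU A.hk 11 (if chevG2.IsPosRoot p11 then 0 else c11)) := by
    rw [← six_rearr (g2c_commute A.hk (r := 9) (s := 10) (by simp) _ _)
      (g2c_commute A.hk (r := 9) (s := 11) (by simp) _ _)
      (g2c_commute A.hk (r := 10) (s := 11) (by simp) _ _), xU_mul, xU_mul, xU_mul]
    congr 3 <;> split_ifs <;> simp
  rw [hsplit] at hy
  have hP : n * (xU A.hk 9 (if chevG2.IsPosRoot p9 then c9 else 0) *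
        xU A.hk 10 (if chevG2.IsPosRoot p10 then c10 else 0) *
        xU A.hk 11 (if chevG2.IsPosRoot p11 then c11 else 0)) * n⁻¹ ∈ chevG2.posUnipotent F := by
    rw [conj_three, he9, he10, he11]
    refine mul_mem (mul_mem (key _ _ _ ?_) (key _ _ _ ?_)) (key _ _ _ ?_)
    · by_cases h : chevG2.IsPosRoot p9
      · exact Or.inl h
      · exact Or.inr (if_neg h)
    · by_cases h : chevG2.IsPosRoot p10
      · exact Or.inl h
      · exact Or.inr (if_neg h)
    · by_cases h : chevG2.IsPosRoot p11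
      · exact Or.inl h
      · exact Or.inr (if_neg h)
  have hN : n * (xU A.hk 9 (if chevG2.IsPosRoot p9 then 0 else c9) *
        xU A.hk 10 (if chevG2.IsPosRoot p10 then 0 else c10) *
        xU A.hk 11 (if chevG2.IsPosRoot p11 then 0 else c11)) * n⁻¹ ∈ chevG2.negUnipotent F := by
    rw [conj_three, he9, he10, he11]
    refine mul_mem (mul_mem (keyn _ _ _ ?_) (keyn _ _ _ ?_)) (keyn _ _ _ ?_)
    · by_cases h : chevG2.IsPosRoot p9
      · exact Or.inr (if_pos h)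
      · exact Or.inl ((neg_iff_not_pos A hlt9).mpr h)
    · by_cases h : chevG2.IsPosRoot p10
      · exact Or.inr (if_pos h)
      · exact Or.inl ((neg_iff_not_pos A hlt10).mpr h)
    · by_cases h : chevG2.IsPosRoot p11
      · exact Or.inr (if_pos h)
      · exact Or.inl ((neg_iff_not_pos A hlt11).mpr h)
  generalize xU A.hk 9 (if chevG2.IsPosRoot p9 then c9 else 0) *
        xU A.hk 10 (if chevG2.IsPosRoot p10 then c10 else 0) *
        xU A.hk 11 (if chevG2.IsPosRoot p11 then c11 else 0) = P at hy hP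
  have hNU : n * (xU A.hk 9 (if chevG2.IsPosRoot p9 then 0 else c9) *
        xU A.hk 10 (if chevG2.IsPosRoot p10 then 0 else c10) *
        xU A.hk 11 (if chevG2.IsPosRoot p11 then 0 else c11)) * n⁻¹ ∈ chevG2.posUnipotent F := by
    have e : ∀ N : GL chevG2.Idx F, n * N * n⁻¹ = (n * P * n⁻¹)⁻¹ * (n * (P * N) * n⁻¹) := by
      intro N
      group
    rw [e]
    exact mul_mem (inv_mem hP) hy
  have h1 : n * (xU A.hk 9 (if chevG2.IsPosRoot p9 then 0 else c9) *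
        xU A.hk 10 (if chevG2.IsPosRoot p10 then 0 else c10) *
        xU A.hk 11 (if chevG2.IsPosRoot p11 then 0 else c11)) * n⁻¹ ∈
      chevG2.posUnipotent F ⊓ chevG2.negUnipotent F := ⟨hNU, hN⟩
  rw [posU_inf_negU A.hk A.wk A.lk A.ak, Subgroup.mem_bot] at h1
  have h2 : xU A.hk 9 (if chevG2.IsPosRoot p9 then 0 else c9) *
        xU A.hk 10 (if chevG2.IsPosRoot p10 then 0 else c10) *
        xU A.hk 11 (if chevG2.IsPosRoot p11 then 0 else c11) = 1 := by
    have e : ∀ N : GL chevG2.Idx F, N = n⁻¹ * (n * N * n⁻¹) * n := by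
      intro N
      group
    rw [e (_ * _ * _), h1]
    group
  obtain ⟨z9, z10, z11⟩ := g2c_unique A h2
  refine ⟨fun hne => ?_, fun hne => ?_, fun hne => ?_⟩
  · by_contra h
    rw [if_neg h] at z9
    exact hne z9
  · by_contra h
    rw [if_neg h] at z10
    exact hne z10
  · by_contra h
    rw [if_neg h] at z11
    exact hne z11

/-- The centraliser of the short root involution `x_{2a+b}(1)` of `chevG2` in characteristic
two. -/
theorem g2_cent_short [CharP F 2] (A : ALLOK chevG2) :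
    chevG2.group F ⊓ Subgroup.centralizer {xU A.hk 9 (1 : F)} = g2T F := by
  apply le_antisymm _ (g2T_le A)
  rintro g ⟨hgG, hgC⟩
  have hgC' : g ∈ Subgroup.centralizer {xU A.hk 9 (1 : F)} := hgC
  have hcomm : xU A.hk 9 (1 : F) * g = g * xU A.hk 9 1 :=
    Subgroup.mem_centralizer_iff.mp hgC' _ rfl
  obtain ⟨b, hb, n, hn, u, hu, rfl⟩ := (bruhat_normal_form (F := F) A.hk A.nk A.xk A.wk A.lk A.ak
    A.w0k A.ck A.pk A.ok A.bk A.rk A.hnp).1 g hgG
  have hub : u ∈ chevG2.borelSubgroup F := Subgroup.mem_sup_left (uneg_le_pos n hu)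
  obtain ⟨π, hπ, hact⟩ := exists_actsAs A hn
  have hS := closed_pos A.hk A.uk
  have p6 : chevG2.IsPosRoot 6 := g2c_pos 6 (by simp)
  have p7 : chevG2.IsPosRoot 7 := g2c_pos 7 (by simp)
  have p8 : chevG2.IsPosRoot 8 := g2c_pos 8 (by simp)
  have p9 : chevG2.IsPosRoot 9 := g2c_pos 9 (by simp)
  have p10 : chevG2.IsPosRoot 10 := g2c_pos 10 (by simp)
  have p11 : chevG2.IsPosRoot 11 := g2c_pos 11 (by simp)
  have hN9 := borel_le_normalizer_vSub_pos (F := F) A 9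
  have hN10 := borel_le_normalizer_vSub_pos (F := F) A 10
  have ht9 : xU A.hk 9 (1 : F) ∈ vSub A.hk F chevG2.IsPosRoot 9 := xU_mem_vSub A.hk p9 le_rfl 1
  have ht' : u * xU A.hk 9 1 * u⁻¹ ∈ vSub A.hk F chevG2.IsPosRoot 9 :=
    (Subgroup.mem_normalizer_iff.mp (hN9 hub) _).mp ht9
  have hy : b⁻¹ * xU A.hk 9 1 * b ∈ vSub A.hk F chevG2.IsPosRoot 9 := by
    have h := (Subgroup.mem_normalizer_iff.mp (hN9 (inv_mem hb)) _).mp ht9
    rwa [inv_inv] at h
  have hrel : n * (u * xU A.hk 9 1 * u⁻¹) * n⁻¹ = b⁻¹ * xU A.hk 9 1 * b := by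
    have h1 : b * n * u * xU A.hk 9 1 * (b * n * u)⁻¹ = xU A.hk 9 1 := by
      rw [← hcomm]
      group
    calc n * (u * xU A.hk 9 1 * u⁻¹) * n⁻¹
        = b⁻¹ * (b * n * u * xU A.hk 9 1 * (b * n * u)⁻¹) * b := by group
      _ = b⁻¹ * xU A.hk 9 1 * b := by rw [h1]
  obtain ⟨c9, v, hv, e9⟩ := vSub_split A.hk A.nk A.xk A.ck A.ok A.uk hS p9 _ ht'
  obtain ⟨c10, v', hv', rfl⟩ := vSub_split A.hk A.nk A.xk A.ck A.ok A.uk hS p10 v hv
  obtain ⟨c11, v'', hv'', rfl⟩ := vSub_split A.hk A.nk A.xk A.ck A.ok A.uk hS p11 v' hv'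
  have hv1 : v'' = 1 := vSub_top A.hk hS (by decide) hv''
  subst hv1
  have hc9 : c9 ≠ 0 := by
    intro h0
    rw [h0, xU_zero, one_mul, mul_one] at e9
    have h1 : u * xU A.hk 9 1 * u⁻¹ ∈ vSub A.hk F chevG2.IsPosRoot 10 := by
      rw [e9]
      exact mul_mem (xU_mem_vSub A.hk p10 le_rfl _) (xU_mem_vSub A.hk p11 (by norm_num) _)
    have h2 := (Subgroup.mem_normalizer_iff.mp (hN10 (inv_mem hub)) _).mp h1
    have h3 : u⁻¹ * (u * xU A.hk 9 1 * u⁻¹) * u⁻¹⁻¹ = xU A.hk 9 (1 : F) := by group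
    rw [h3] at h2
    exact one_ne_zero (xU_vSub_eq_zero A.hk A.wk A.uk hS p9 h2)
  have e9' : u * xU A.hk 9 1 * u⁻¹ = xU A.hk 9 c9 * xU A.hk 10 c10 * xU A.hk 11 c11 := by
    rw [e9, mul_one, mul_assoc]
  rw [e9'] at hrel
  have hyU : n * (xU A.hk 9 c9 * xU A.hk 10 c10 * xU A.hk 11 c11) * n⁻¹ ∈
      chevG2.posUnipotent F := by
    rw [hrel, posU_eq_vSub A.hk]
    exact vSub_anti A.hk _ (Nat.zero_le _) hy
  obtain ⟨hs9, hs10, hs11⟩ := g2_split A hact c9 c10 c11 hyU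
  obtain ⟨L, hL, hLπ⟩ := g2_Wp_tab A hπ
  obtain ⟨f9, f10, f11, fid⟩ := g2WTab_facts L hL
  obtain ⟨d9, he9⟩ := hact ⟨9, by decide⟩
  obtain ⟨d10, he10⟩ := hact ⟨10, by decide⟩
  obtain ⟨d11, he11⟩ := hact ⟨11, by decide⟩
  have hne9 := coeff_ne_of_conj A.hk (by decide) he9
  have hL9 : ((π ⟨9, by decide⟩ : Fin chevG2.nroots) : ℕ) = L.getD 9 0 := hLπ ⟨9, by decide⟩
  have hL10 : ((π ⟨10, by decide⟩ : Fin chevG2.nroots) : ℕ) = L.getD 10 0 := hLπ ⟨10, by decide⟩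
  have hL11 : ((π ⟨11, by decide⟩ : Fin chevG2.nroots) : ℕ) = L.getD 11 0 := hLπ ⟨11, by decide⟩
  rw [conj_three, he9, he10, he11, hL9, hL10, hL11] at hrel
  rw [hL9] at hs9
  rw [hL10] at hs10
  rw [hL11] at hs11
  have hX6n : chevG2.rootSubgroup F 6 ≤
      Subgroup.normalizer (vSub A.hk F chevG2.IsPosRoot 9 : Set (GL chevG2.Idx F)) := by
    intro x hx
    obtain ⟨s, rfl⟩ := rootSubgroup_mem A.hk hx
    exact hN9 (xU_pos_mem_borel A.hk p6 s)
  have hM10 : xU A.hk (L.getD 10 0) (d10 * c10) ∈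
      vSub A.hk F chevG2.IsPosRoot 9 ⊔ chevG2.rootSubgroup F 6 := by
    by_cases h0 : c10 = 0
    · rw [h0, mul_zero, xU_zero]
      exact one_mem _
    · rcases f10 (hs10 h0) with h | h | h <;> rw [h]
      · exact Subgroup.mem_sup_right ((mem_rootSubgroup_iff' A.hk).mpr ⟨_, rfl⟩)
      · exact Subgroup.mem_sup_left (xU_mem_vSub A.hk p10 (by norm_num) _)
      · exact Subgroup.mem_sup_left (xU_mem_vSub A.hk p11 (by norm_num) _)
  have hM11 : xU A.hk (L.getD 11 0) (d11 * c11) ∈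
      vSub A.hk F chevG2.IsPosRoot 9 ⊔ chevG2.rootSubgroup F 6 := by
    by_cases h0 : c11 = 0
    · rw [h0, mul_zero, xU_zero]
      exact one_mem _
    · rcases f11 (hs11 h0) with h | h | h <;> rw [h]
      · exact Subgroup.mem_sup_right ((mem_rootSubgroup_iff' A.hk).mpr ⟨_, rfl⟩)
      · exact Subgroup.mem_sup_left (xU_mem_vSub A.hk p10 (by norm_num) _)
      · exact Subgroup.mem_sup_left (xU_mem_vSub A.hk p11 (by norm_num) _)
  have hM9 : xU A.hk (L.getD 9 0) (d9 * c9) ∈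
      vSub A.hk F chevG2.IsPosRoot 9 ⊔ chevG2.rootSubgroup F 6 := by
    have e : xU A.hk (L.getD 9 0) (d9 * c9) = (b⁻¹ * xU A.hk 9 1 * b) *
        (xU A.hk (L.getD 11 0) (d11 * c11))⁻¹ * (xU A.hk (L.getD 10 0) (d10 * c10))⁻¹ := by
      rw [← hrel]
      group
    rw [e]
    exact mul_mem (mul_mem (Subgroup.mem_sup_left hy) (inv_mem hM11)) (inv_mem hM10)
  obtain ⟨q, hq, x6, hx6, e⟩ := sup_le_prodSubG _ _ hX6n hM9
  obtain ⟨s, rfl⟩ := rootSubgroup_mem A.hk hx6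
  have ha : d9 * c9 ≠ 0 := mul_ne_zero hne9 hc9
  have hπ9 : L.getD 9 0 = 9 := by
    rcases f9 (hs9 hc9) with h | h | h
    · exfalso
      rw [h] at e
      have h6 : xU A.hk 6 s ∈ vSub A.hk F chevG2.IsPosRoot 7 := by
        have e' : xU A.hk 6 s = q⁻¹ * xU A.hk 7 (d9 * c9) := by
          rw [e]
          group
        rw [e']
        exact mul_mem (inv_mem (vSub_anti A.hk _ (by norm_num) hq))
          (xU_mem_vSub A.hk p7 le_rfl _)
      have hs0 := xU_vSub_eq_zero A.hk A.wk A.uk hS p6 h6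
      rw [hs0, xU_zero, mul_one] at e
      have h7 : xU A.hk 7 (d9 * c9) ∈ vSub A.hk F chevG2.IsPosRoot 8 := by
        rw [e]
        exact vSub_anti A.hk _ (by norm_num) hq
      exact ha (xU_vSub_eq_zero A.hk A.wk A.uk hS p7 h7)
    · exfalso
      rw [h] at e
      have h6 : xU A.hk 6 s ∈ vSub A.hk F chevG2.IsPosRoot 7 := by
        have e' : xU A.hk 6 s = q⁻¹ * xU A.hk 8 (d9 * c9) := by
          rw [e]
          group
        rw [e']
        exact mul_mem (inv_mem (vSub_anti A.hk _ (by norm_num) hq))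
          (xU_mem_vSub A.hk p8 (by norm_num) _)
      have hs0 := xU_vSub_eq_zero A.hk A.wk A.uk hS p6 h6
      rw [hs0, xU_zero, mul_one] at e
      have h8 : xU A.hk 8 (d9 * c9) ∈ vSub A.hk F chevG2.IsPosRoot 9 := by
        rw [e]
        exact hq
      exact ha (xU_vSub_eq_zero A.hk A.wk A.uk hS p8 h8)
    · exact h
  have hπcases : π = 1 ∨ π = sig A 1 := by
    rcases fid hπ9 with h | h
    · left
      ext r
      rw [hLπ, h]
      exact (g2WTab_gen.2.2 r r.2).symm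
    · right
      ext r
      rw [hLπ, h, sig_apply A (by decide)]
      exact (g2WTab_gen.2.1 r r.2).symm
  rcases hπcases with h1 | h1
  · rw [h1] at hact
    have hnH := mem_diag_of_actsAs_one A hn hact
    exact g2_cent_borel A _ (mul_mem (mul_mem hb (diag_le_borel hnH)) hub) hcomm
  · rw [h1] at hact
    have hnU := actsAs_nU (F := F) A (i := 1) (by decide)
    have hact' : ActsAs A (n * (nU A.hk F 1)⁻¹) 1 := by
      have h := hact.mul hnU.inv
      rwa [mul_inv_cancel] at h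
    have hn'H := mem_diag_of_actsAs_one A
      (mul_mem hn (inv_mem (nU_mem A.hk (by decide)))) hact'
    rw [uneg_eq_vSub A hact] at hu
    have hu6 : u ∈ chevG2.rootSubgroup F 6 := by
      have hle : vSub A.hk F (Sinv chevG2 (sig A 1)) 0 ≤ chevG2.rootSubgroup F 6 := by
        unfold vSub
        rw [Subgroup.closure_le]
        rintro y ⟨r, t, ⟨hr, hpos, hneg⟩, _, rfl⟩
        rw [sig_apply A (by decide)] at hneg
        have hr6 := g2c_sinv r hr hpos hneg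
        subst hr6
        exact (mem_rootSubgroup_iff' A.hk).mpr ⟨t, rfl⟩
      exact hle hu
    obtain ⟨s', rfl⟩ := rootSubgroup_mem A.hk hu6
    have hℓT : nU A.hk F 1 * xU A.hk 6 s' ∈ g2T F := by
      rw [nU_eq_nrU, nrU, g2c_idx.2.1, g2c_idx.2.2.1]
      exact mul_mem (mul_mem (mul_mem (xU_mem_g2T A.hk (by simp) _)
        (xU_mem_g2T A.hk (by simp) _)) (xU_mem_g2T A.hk (by simp) _))
        (xU_mem_g2T A.hk (by simp) _)
    have hℓC := (g2T_le A hℓT).2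
    have hg' : b * (n * (nU A.hk F 1)⁻¹) ∈ chevG2.borelSubgroup F :=
      mul_mem hb (diag_le_borel hn'H)
    have hcomm' : xU A.hk 9 (1 : F) * (b * (n * (nU A.hk F 1)⁻¹)) =
        (b * (n * (nU A.hk F 1)⁻¹)) * xU A.hk 9 1 := by
      have hmem : b * (n * (nU A.hk F 1)⁻¹) ∈ Subgroup.centralizer {xU A.hk 9 (1 : F)} := by
        have e' : b * (n * (nU A.hk F 1)⁻¹) =
            (b * n * xU A.hk 6 s') * (nU A.hk F 1 * xU A.hk 6 s')⁻¹ := by group
        rw [e']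
        exact mul_mem hgC' (inv_mem hℓC)
      exact Subgroup.mem_centralizer_iff.mp hmem _ rfl
    have hbT := g2_cent_borel A _ hg' hcomm'
    have e' : b * n * xU A.hk 6 s' = (b * (n * (nU A.hk F 1)⁻¹)) * (nU A.hk F 1 * xU A.hk 6 s') := by
      group
    rw [e']
    exact mul_mem hbT hℓT

/-- The centralisers of the long and the short root involutions of `chevG2` in characteristic
two. -/
theorem g2_cent_both [CharP F 2] (z t : GL chevG2.Idx F)
    (hz : (z : Matrix chevG2.Idx chevG2.Idx F) = chevG2.x F 11 1)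
    (ht : (t : Matrix chevG2.Idx chevG2.Idx F) = chevG2.x F 9 1) :
    chevG2.group F ⊓ Subgroup.centralizer {z} =
      chevG2.posUnipotent F ⊔ chevG2.rootSubgroup F 4 ∧
    chevG2.group F ⊓ Subgroup.centralizer {t} =
      chevG2.rootSubgroup F 9 ⊔ chevG2.rootSubgroup F 10 ⊔ chevG2.rootSubgroup F 11 ⊔
        chevG2.rootSubgroup F 6 ⊔ chevG2.rootSubgroup F 5 := by
  have A : ALLOK chevG2 := allok_cert _ (by simp)
  constructor
  · rw [← centGen_one]
    exact root_cent A (by decide) centG2_ok z hz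
  · rw [eq_xU A.hk ht]
    exact g2_cent_short A

end g2

end Cfsg.Agent.Lib.Helper9
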