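import Cfsg.Agent.Lib.Helper9.ThmTw2
import Cfsg.Agent.Lib.Helper9.ThmB

set_option autoImplicit false

namespace Cfsg.Agent.Lib.Helper9

open Cfsg.Lie

open scoped commutatorElement

/-- A subgroup contained in its own commutator subgroup is perfect. -/
theorem commutator_eq_top_of_le {G : Type*} [Group G] (G1 : Subgroup G) (h : G1 ≤ ⁅G1, G1⁆) :
    commutator ↥G1 = ⊤ := by
  rw [eq_top_iff]
  intro x _
  have hx : (x : G) ∈ (commutator ↥G1).map G1.subtype := by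
    rw [Subgroup.map_subtype_commutator]
    exact h x.2
  obtain ⟨y, hy, hxy⟩ := hx
  have : y = x := Subtype.ext hxy
  rw [← this]
  exact hy

/-- The map `x ↦ x ^ q` is additive on a finite field whose order is a power of `q`. -/
theorem frob_add {K : Type*} [Field K] [Fintype K] {q n : ℕ} (hq : IsPrimePow q)
    (hK : Fintype.card K = q ^ n) (a b : K) : (a + b) ^ q = a ^ q + b ^ q := by
  obtain ⟨p, hchar⟩ := CharP.exists K
  have := hchar
  obtain ⟨m, hp, hm⟩ := FiniteField.card K p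
  obtain ⟨p', k, hp', hk, rfl⟩ := hq
  have hp'' : p'.Prime := Nat.prime_iff.mpr hp'
  have hn : n ≠ 0 := by
    rintro rfl
    rw [pow_zero] at hK
    have := Fintype.one_lt_card (α := K)
    omega
  have hdvd : p' ∣ p ^ (m : ℕ) := by
    rw [← hm, hK]
    exact dvd_pow (dvd_pow_self p' hk.ne') hn
  have hpp : p' = p := (Nat.prime_dvd_prime_iff_eq hp'' hp).mp (hp''.dvd_of_dvd_pow hdvd)
  subst hpp
  have : Fact p'.Prime := ⟨hp⟩
  exact add_pow_char_pow a b p' k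

theorem frob_sub {K : Type*} [Field K] [Fintype K] {q n : ℕ} (hq : IsPrimePow q)
    (hK : Fintype.card K = q ^ n) (a b : K) : (a - b) ^ q = a ^ q - b ^ q := by
  have h := frob_add hq hK (a - b) b
  rw [sub_add_cancel] at h
  rw [h, add_sub_cancel_right]

/-- An element `u` with `u ≠ 0` and `u² ≠ 1` in a finite field with at least four elements. -/
theorem exists_sq_ne_one {K : Type*} [Field K] [Fintype K] (h4 : 4 ≤ Fintype.card K) :
    ∃ u : K, u ≠ 0 ∧ u ^ 2 ≠ 1 := by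
  classical
  by_contra hcon
  push Not at hcon
  have hsub : (Finset.univ : Finset K) ⊆ {0, 1, -1} := by
    intro x _
    by_cases hx : x = 0
    · simp [hx]
    · have h1 := hcon x hx
      have h2 : (x - 1) * (x + 1) = 0 := by linear_combination h1
      rcases mul_eq_zero.mp h2 with h3 | h3
      · have : x = 1 := sub_eq_zero.mp h3
        simp [this]
      · have : x = -1 := eq_neg_of_add_eq_zero_left h3
        simp [this]
  have hc := Finset.card_le_card hsub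
  rw [Finset.card_univ] at hc
  have h3 : ({0, 1, -1} : Finset K).card ≤ 3 := Finset.card_le_three
  omega

theorem zpow_pow_comm {F : Type*} [Field F] (u : F) (q : ℕ) (e : ℤ) :
    (u ^ q) ^ e = (u ^ e) ^ q := by
  rw [← zpow_natCast u q, ← zpow_mul, mul_comm, zpow_mul, zpow_natCast]

variable {D : ChevalleyDatum} {F : Type*} [Field F]

/-- A root element which is the only term of the commutator formula of two root elements of a
subgroup lies in the derived subgroup of the subgroup. -/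
theorem single_comm_sub (hk : HOK D) {a b r : ℕ} {c : ℤ} (ha : a < D.nroots)
    (hb : b < D.nroots) (hne : b ≠ D.neg a) (hB : commB D (litsOf D) a b = true)
    (hT : D.commTerms a b = [(r, c, 1, 1)]) (G1 : Subgroup (GL D.Idx F)) (t : F)
    (hat : xU hk a (-t) ∈ G1) (hb1 : xU hk b (1 : F) ∈ G1) :
    xU hk r ((c : F) * t) ∈ ⁅G1, G1⁆ := by
  have h := comm_of_commB D hk.hN (litsOf D) hk.xok ha hb hne hB (-t) (1 : F)
  rw [ChevalleyDatum.commWord, hT] at h
  simp only [List.map_cons, List.map_nil, ChevalleyDatum.wordMat, List.prod_cons, List.prod_nil,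
    mul_one, neg_neg, pow_one] at h
  have e : xU hk r ((c : F) * t) = ⁅(xU hk b (1 : F))⁻¹, (xU hk a (-t))⁻¹⁆ := by
    rw [commutatorElement_def, inv_inv, inv_inv, mul_assoc, mul_assoc, eq_inv_mul_iff_mul_eq,
      eq_inv_mul_iff_mul_eq]
    apply Units.ext
    simp only [Units.val_mul, xU_val]
    rw [h, mul_assoc]
  rw [e]
  exact Subgroup.commutator_mem_commutator (inv_mem hb1) (inv_mem hat)

/-- Conjugation by a product of the `n_p` of the root elements with parameters in a set stable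
under negation. -/
theorem nW_conj_mem (hk : HOK D) (nk : NOK D) (xk : NXOK D) (G1 : Subgroup (GL D.Idx F))
    (w : List ℕ) (hw : ∀ i ∈ w, i < D.rank) (hn : nW hk F w ∈ G1) {s : ℕ} (hs : s < D.nroots)
    (T : Set F) (hT : ∀ t ∈ T, -t ∈ T) (h : ∀ t ∈ T, xU hk s t ∈ G1) :
    ∀ t ∈ T, xU hk (wActP (permOf D) w s) t ∈ G1 := by
  obtain ⟨_, η, hη, h2⟩ := nW_conj (F := F) hk nk xk w hw s hs
  intro t ht
  rcases hη with rfl | rfl
  · have e := h2 t
    rw [Int.cast_one, one_mul] at e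
    rw [← e]
    exact mul_mem (mul_mem hn (h t ht)) (inv_mem hn)
  · have e := h2 (-t)
    rw [Int.cast_neg, Int.cast_one, neg_one_mul, neg_neg] at e
    rw [← e]
    exact mul_mem (mul_mem hn (h _ (hT t ht))) (inv_mem hn)

/-- The test of a root as the only term of a commutator formula. -/
def TwFact (D : ChevalleyDatum) (p : List ℕ × ℕ × ℕ × ℕ) : Prop :=
  (∀ i ∈ p.1, i < D.rank) ∧ p.2.1 < D.nroots ∧ wActP (permOf D) p.1 p.2.1 < D.nroots ∧
    p.2.2.1 < D.nroots ∧ p.2.2.1 ≠ D.neg (wActP (permOf D) p.1 p.2.1) ∧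
    commB D (litsOf D) (wActP (permOf D) p.1 p.2.1) p.2.2.1 = true ∧
    (D.commTerms (wActP (permOf D) p.1 p.2.1) p.2.2.1 = [(p.2.2.2, 1, 1, 1)] ∨
      D.commTerms (wActP (permOf D) p.1 p.2.1) p.2.2.1 = [(p.2.2.2, -1, 1, 1)])

instance (D : ChevalleyDatum) (p : List ℕ × ℕ × ℕ × ℕ) : Decidable (TwFact D p) :=
  inferInstanceAs (Decidable (_ ∧ _))

theorem tw_single (hk : HOK D) (nk : NOK D) (xk : NXOK D) (G1 : Subgroup (GL D.Idx F))
    (T : Set F) (hT1 : (1 : F) ∈ T) (hTneg : ∀ t ∈ T, -t ∈ T) {p : List ℕ × ℕ × ℕ × ℕ}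
    (hp : TwFact D p) (hn : nW hk F p.1 ∈ G1) (hs : ∀ t ∈ T, xU hk p.2.1 t ∈ G1)
    (hb : ∀ t ∈ T, xU hk p.2.2.1 t ∈ G1) : ∀ t ∈ T, xU hk p.2.2.2 t ∈ ⁅G1, G1⁆ := by
  obtain ⟨hw, hs', ha, hb', hne, hB, hT⟩ := hp
  have hmem := nW_conj_mem hk nk xk G1 p.1 hw hn hs' T hTneg hs
  intro t ht
  rcases hT with hT | hT
  · have h := single_comm_sub hk ha hb' hne hB hT G1 t (hmem _ (hTneg t ht)) (hb 1 hT1)
    rwa [Int.cast_one, one_mul] at h
  · have h := single_comm_sub hk ha hb' hne hB hT G1 (-t)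
      (by rw [neg_neg]; exact hmem t ht) (hb 1 hT1)
    rwa [Int.cast_neg, Int.cast_one, neg_one_mul, neg_neg] at h

/-- Conjugation of a root element by `h_r(u)`. -/
theorem hrU_conj (hk : HOK D) (wk : WOK D) (ak : HAOK D) {r s : ℕ} (hr : r < D.nroots)
    (hs : s < D.nroots) {u : F} (hu : u ≠ 0) (t : F) :
    (nrU hk r u * nrU hk r (-1)) * xU hk s t * (nrU hk r u * nrU hk r (-1))⁻¹ =
      xU hk s (u ^ rootExp D r (Nat.add D.rank s) * t) := by
  have hval : ((nrU hk r u * nrU hk r (-1) : GL D.Idx F) : Matrix D.Idx D.Idx F) =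
      D.hMat F r u := hMat_eq_nrU hk r u
  have hchi : ((nrU hk r u * nrU hk r (-1) : GL D.Idx F) : Matrix D.Idx D.Idx F) =
      chiMat D (fun i => u ^ corootC D r i) := by
    rw [hval]
    exact hMat_chi D hk.hN (litsOf D) r hr (hk.neg r hr).2 (hk.xok r hr)
      (hk.xok _ (hk.neg r hr).2) (ak.hall r hr) u hu
  have hconj := chi_conj_xU hk wk _ (fun i => u ^ corootC D r i)
    (fun i => zpow_ne_zero _ hu) hchi hs t
  rw [← zpow_rootExpN D r D.rank _ u hu] at hconj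
  exact hconj

theorem nrU_commute (hk : HOK D) {r1 r2 : ℕ}
    (h1 : ∀ a b : F, Commute (xU hk r1 a) (xU hk r2 b))
    (h2 : ∀ a b : F, Commute (xU hk (D.neg r1) a) (xU hk r2 b))
    (h3 : ∀ a b : F, Commute (xU hk r1 a) (xU hk (D.neg r2) b))
    (h4 : ∀ a b : F, Commute (xU hk (D.neg r1) a) (xU hk (D.neg r2) b)) (a b : F) :
    Commute (nrU hk r1 a) (nrU hk r2 b) := by
  have k1 : ∀ a' : F, Commute (xU hk r1 a') (nrU hk r2 b) := fun a' =>
    ((h1 a' _).mul_right (h3 a' _)).mul_right (h1 a' _)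
  have k2 : ∀ a' : F, Commute (xU hk (D.neg r1) a') (nrU hk r2 b) := fun a' =>
    ((h2 a' _).mul_right (h4 a' _)).mul_right (h2 a' _)
  exact ((k1 _).mul_left (k2 _)).mul_left (k1 _)

theorem nr_block2 (hk : HOK D) (G1 : Subgroup (GL D.Idx F)) {r1 r2 : ℕ}
    (h1 : ∀ a b : F, Commute (xU hk r1 a) (xU hk r2 b))
    (h2 : ∀ a b : F, Commute (xU hk (D.neg r1) a) (xU hk r2 b))
    (h3 : ∀ a b : F, Commute (xU hk r1 a) (xU hk (D.neg r2) b)) {a b : F}
    (hp : xU hk r1 a * xU hk r2 b ∈ G1)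
    (hm : xU hk (D.neg r1) (-a⁻¹) * xU hk (D.neg r2) (-b⁻¹) ∈ G1) :
    nrU hk r1 a * nrU hk r2 b ∈ G1 := by
  rw [nrU, nrU, aba_cdc (h1 _ _) (h2 _ _) (h3 _ _)]
  exact mul_mem (mul_mem hp hm) hp

/-- The commutator of an element `h` acting diagonally with a product of two commuting root
elements. -/
theorem pair_comm_mem (hk : HOK D) (G1 : Subgroup (GL D.Idx F)) {r1 r2 : ℕ} (f : F → F)
    (hf : ∀ a b, f (a - b) = f a - f b)
    (hcomm : ∀ a b : F, Commute (xU hk r1 a) (xU hk r2 b)) (h : GL D.Idx F) (hh : h ∈ G1)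
    (χ : F) (h1 : ∀ t, h * xU hk r1 t * h⁻¹ = xU hk r1 (χ * t))
    (h2 : ∀ t, h * xU hk r2 (f t) * h⁻¹ = xU hk r2 (f (χ * t)))
    (hg : ∀ t, xU hk r1 t * xU hk r2 (f t) ∈ G1) (t : F) :
    xU hk r1 ((χ - 1) * t) * xU hk r2 (f ((χ - 1) * t)) ∈ ⁅G1, G1⁆ := by
  have e : ⁅h, xU hk r1 t * xU hk r2 (f t)⁆ =
      xU hk r1 ((χ - 1) * t) * xU hk r2 (f ((χ - 1) * t)) := by
    rw [commutatorElement_def]
    have e1 : h * (xU hk r1 t * xU hk r2 (f t)) * h⁻¹ * (xU hk r1 t * xU hk r2 (f t))⁻¹ =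
        (h * xU hk r1 t * h⁻¹) * ((h * xU hk r2 (f t) * h⁻¹) * (xU hk r2 (f t))⁻¹) *
          (xU hk r1 t)⁻¹ := by group
    rw [e1, h1, h2, xU_inv, xU_inv, xU_mul]
    have s1 : xU hk r1 (χ * t) * xU hk r2 (f (χ * t) + -f t) * xU hk r1 (-t) =
        xU hk r1 (χ * t + -t) * xU hk r2 (f (χ * t) + -f t) := by
      rw [mul_assoc, ← (hcomm (-t) (f (χ * t) + -f t)).eq, ← mul_assoc, xU_mul]
    rw [s1]
    have e2 : (χ - 1) * t = χ * t - t := by ring
    rw [e2, hf, sub_eq_add_neg, sub_eq_add_neg]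
  rw [← e]
  exact Subgroup.commutator_mem_commutator hh (hg t)

/-- The commutator of an element `h` acting diagonally with a product of three commuting root
elements. -/
theorem triple_comm_mem (hk : HOK D) (G1 : Subgroup (GL D.Idx F)) {r1 r2 r3 : ℕ}
    (f g : F → F) (hf : ∀ a b, f (a - b) = f a - f b) (hg : ∀ a b, g (a - b) = g a - g b)
    (c12 : ∀ a b : F, Commute (xU hk r1 a) (xU hk r2 b))
    (c13 : ∀ a b : F, Commute (xU hk r1 a) (xU hk r3 b))
    (c23 : ∀ a b : F, Commute (xU hk r2 a) (xU hk r3 b)) (h : GL D.Idx F) (hh : h ∈ G1)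
    (χ : F) (h1 : ∀ t, h * xU hk r1 t * h⁻¹ = xU hk r1 (χ * t))
    (h2 : ∀ t, h * xU hk r2 (f t) * h⁻¹ = xU hk r2 (f (χ * t)))
    (h3 : ∀ t, h * xU hk r3 (g t) * h⁻¹ = xU hk r3 (g (χ * t)))
    (hmem : ∀ t, xU hk r1 t * xU hk r2 (f t) * xU hk r3 (g t) ∈ G1) (t : F) :
    xU hk r1 ((χ - 1) * t) * xU hk r2 (f ((χ - 1) * t)) * xU hk r3 (g ((χ - 1) * t)) ∈
      ⁅G1, G1⁆ := by
  have e : ⁅h, xU hk r1 t * xU hk r2 (f t) * xU hk r3 (g t)⁆ =
      xU hk r1 ((χ - 1) * t) * xU hk r2 (f ((χ - 1) * t)) * xU hk r3 (g ((χ - 1) * t)) := by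
    rw [commutatorElement_def]
    have e1 : h * (xU hk r1 t * xU hk r2 (f t) * xU hk r3 (g t)) * h⁻¹ *
        (xU hk r1 t * xU hk r2 (f t) * xU hk r3 (g t))⁻¹ =
        (h * xU hk r1 t * h⁻¹) * ((h * xU hk r2 (f t) * h⁻¹) *
          ((h * xU hk r3 (g t) * h⁻¹) * (xU hk r3 (g t))⁻¹) * (xU hk r2 (f t))⁻¹) *
          (xU hk r1 t)⁻¹ := by group
    rw [e1, h1, h2, h3, xU_inv, xU_inv, xU_inv, xU_mul]
    have s1 : xU hk r2 (f (χ * t)) * xU hk r3 (g (χ * t) + -g t) * xU hk r2 (-f t) =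
        xU hk r2 (f (χ * t) + -f t) * xU hk r3 (g (χ * t) + -g t) := by
      rw [mul_assoc, ← (c23 (-f t) (g (χ * t) + -g t)).eq, ← mul_assoc, xU_mul]
    rw [s1]
    have k1 : Commute (xU hk r1 (-t)) (xU hk r2 (f (χ * t) + -f t) *
        xU hk r3 (g (χ * t) + -g t)) := (c12 _ _).mul_right (c13 _ _)
    have s2 : xU hk r1 (χ * t) * (xU hk r2 (f (χ * t) + -f t) *
        xU hk r3 (g (χ * t) + -g t)) * xU hk r1 (-t) =
        xU hk r1 (χ * t + -t) * xU hk r2 (f (χ * t) + -f t) *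
          xU hk r3 (g (χ * t) + -g t) := by
      rw [mul_assoc (xU hk r1 (χ * t)), ← k1.eq, ← mul_assoc (xU hk r1 (χ * t)), xU_mul,
        ← mul_assoc]
    rw [s2]
    have e2 : (χ - 1) * t = χ * t - t := by ring
    rw [e2, hf, hg, sub_eq_add_neg, sub_eq_add_neg, sub_eq_add_neg]
  rw [← e]
  exact Subgroup.commutator_mem_commutator hh (hmem t)

end Cfsg.Agent.Lib.Helper9
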