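import Cfsg.Agent.Lib.Helper9.ThmG2Cent
import Cfsg.Agent.Lib.Helper9.ThmSylowU
import Cfsg.Agent.Lib.Helper9.ThmTwPerf

set_option autoImplicit false

namespace Cfsg.Agent.Lib.Helper9

open Cfsg.Lie

open Cfsg.Agent.Lib.Helper4

section general

variable {D : ChevalleyDatum} {F : Type*} [Field F]

/-- The commutator formula for a verified pair of roots, in the group. -/
theorem comm_wordU (hk : HOK D) {r s : ℕ} (hr : r < D.nroots) (hs : s < D.nroots)
    (hne : s ≠ D.neg r) (hB : commB D (litsOf D) r s = true) (t u : F) :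
    xU hk s u * xU hk r t = xU hk r t * xU hk s u * wordU hk (D.commWord F r s t u) := by
  apply Units.ext
  rw [Units.val_mul, Units.val_mul, Units.val_mul, xU_val, xU_val, wordU_val]
  exact comm_of_commB D hk.hN (litsOf D) hk.xok hr hs hne hB t u

/-- Conjugating a positive root element by another one changes it by an element of the group
of the later roots. -/
theorem xU_conj_coset (A : ALLOK D) {r s : ℕ} (hr : D.IsPosRoot r) (hs : D.IsPosRoot s)
    (hne : s ≠ r) (t u : F) :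
    ∃ v ∈ vSub A.hk F D.IsPosRoot (s + 1),
      xU A.hk r t * xU A.hk s u * (xU A.hk r t)⁻¹ = xU A.hk s u * v := by
  have hsn : s ≠ D.neg r := by
    intro e'
    have h1 := lamR_pos A.uk hs
    rw [e', lamR_neg A.uk hr.1] at h1
    have h2 := lamR_pos A.uk hr
    omega
  obtain ⟨L, hL, e2⟩ := comm_all A.hk A.nk A.xk A.ck A.ok A.uk _ r hr.1 rfl s hs.1 hne hsn (-t) u
  refine ⟨wordU A.hk L, ?_, ?_⟩
  · apply wordU_mem
    intro p hp
    have h1 := hL p hp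
    have h2 := comb_pos A.hk A.uk hr hs h1
    exact xU_mem_vSub A.hk h2.1 (by omega) _
  · have e3 : xU A.hk r t = (xU A.hk r (-t))⁻¹ := by rw [xU_inv, neg_neg]
    rw [e3, inv_inv, mul_assoc, e2]
    group

theorem nU_conj2 [CharP F 2] (A : ALLOK D) {i s : ℕ} (hi : i < D.rank) (hs : s < D.nroots)
    (t : F) :
    nU A.hk F i * xU A.hk s t * (nU A.hk F i)⁻¹ = xU A.hk (D.reflectRoot i s) t := by
  rw [nU_conj A.hk A.nk A.xk hi hs]
  congr 1
  rcases etaF_pm (getN (etaOf D) i) s with h | h <;> rw [h] <;> simp [CharTwo.neg_eq]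

theorem nrU_mem_group (hk : HOK D) {r : ℕ} (hr : r < D.nroots) (t : F) :
    nrU hk r t ∈ D.group F := by
  rw [nrU]
  exact mul_mem (mul_mem (xU_mem_group hk hr _) (xU_mem_group hk (hk.neg r hr).2 _))
    (xU_mem_group hk hr _)

end general

/-! ### Involutions of the group of type `G₂` in characteristic two -/

set_option maxRecDepth 1000000 in
theorem g2i_comm_facts : ∀ p ∈ [((6 : ℕ), (8 : ℕ)), (6, 11), (8, 10), (6, 9)],
    p.1 < chevG2.nroots ∧ p.2 < chevG2.nroots ∧ p.2 ≠ chevG2.neg p.1 ∧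
      commB chevG2 (litsOf chevG2) p.1 p.2 = true ∧ chevG2.commTerms p.1 p.2 = [] := by
  decide +kernel

set_option maxRecDepth 1000000 in
theorem g2i_t67 : commB chevG2 (litsOf chevG2) 6 7 = true ∧
    chevG2.commTerms 6 7 = [(8, 1, 1, 1), (9, 1, 1, 2), (10, -1, 1, 3), (11, -2, 2, 3)] ∧
    (7 : ℕ) ≠ chevG2.neg 6 := by
  decide +kernel

set_option maxRecDepth 1000000 in
theorem g2i_t76 : commB chevG2 (litsOf chevG2) 7 6 = true ∧
    chevG2.commTerms 7 6 = [(8, -1, 1, 1), (9, 1, 2, 1), (10, 1, 3, 1), (11, 1, 3, 2)] ∧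
    (6 : ℕ) ≠ chevG2.neg 7 := by
  decide +kernel

set_option maxRecDepth 1000000 in
theorem g2i_t6_10 : commB chevG2 (litsOf chevG2) 6 10 = true ∧
    chevG2.commTerms 6 10 = [(11, 1, 1, 1)] ∧ (10 : ℕ) ≠ chevG2.neg 6 := by
  decide +kernel

set_option maxRecDepth 1000000 in
theorem g2i_t10_6 : commB chevG2 (litsOf chevG2) 10 6 = true ∧
    chevG2.commTerms 10 6 = [(11, -1, 1, 1)] ∧ (6 : ℕ) ≠ chevG2.neg 10 := by
  decide +kernel

set_option maxRecDepth 1000000 in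
theorem g2i_t78 : commB chevG2 (litsOf chevG2) 7 8 = true ∧
    chevG2.commTerms 7 8 = [(9, -2, 1, 1), (10, -3, 2, 1), (11, 3, 1, 2)] ∧
    (8 : ℕ) ≠ chevG2.neg 7 := by
  decide +kernel

theorem g2i_refl : chevG2.reflectRoot 0 6 = 10 ∧ chevG2.reflectRoot 0 8 = 9 ∧
    chevG2.reflectRoot 0 10 = 6 ∧ chevG2.reflectRoot 0 11 = 11 ∧ chevG2.reflectRoot 0 9 = 8 ∧
    chevG2.reflectRoot 1 10 = 11 ∧ chevG2.reflectRoot 1 7 = 8 ∧ chevG2.reflectRoot 1 11 = 10 ∧
    chevG2.reflectRoot 1 9 = 9 ∧ chevG2.reflectRoot 1 8 = 7 ∧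
    rootExp chevG2 7 (Nat.add chevG2.rank 9) = 1 ∧
    rootExp chevG2 6 (Nat.add chevG2.rank 11) = 1 := by
  decide +kernel

section g2inv

variable {F : Type*} [Field F]

theorem g2i_commute (hk : HOK chevG2) {r s : ℕ}
    (h : (r, s) ∈ [((6 : ℕ), (8 : ℕ)), (6, 11), (8, 10), (6, 9)])
    (t u : F) : Commute (xU hk r t) (xU hk s u) := by
  obtain ⟨h1, h2, h3, h4, h5⟩ := g2i_comm_facts (r, s) h
  exact comm_of_terms_nil hk h1 h2 h3 h4 h5 t u

variable [CharP F 2]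

theorem g2i_three : (3 : F) = 1 := by
  have h2 : (2 : F) = 0 := CharTwo.two_eq_zero
  linear_combination h2

theorem g2i_inv (hk : HOK chevG2) (r : ℕ) (t : F) : (xU hk r t)⁻¹ = xU hk r t := by
  rw [xU_inv, CharTwo.neg_eq]

theorem g2i_sq (hk : HOK chevG2) (r : ℕ) (t : F) : xU hk r t * xU hk r t = 1 := by
  rw [xU_mul, CharTwo.add_self_eq_zero, xU_zero]

theorem g2i_c79 (hk : HOK chevG2) (c t : F) :
    xU hk 7 c * xU hk 9 t * (xU hk 7 c)⁻¹ = xU hk 9 t * xU hk 10 (t * c) := by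
  rw [g2c_conj7, g2i_three, one_mul]

theorem g2i_c89 (hk : HOK chevG2) (c t : F) :
    xU hk 8 c * xU hk 9 t * (xU hk 8 c)⁻¹ = xU hk 9 t * xU hk 11 (t * c) := by
  rw [g2c_conj8, g2i_three, one_mul]

theorem g2i_c97 (hk : HOK chevG2) (c t : F) :
    xU hk 9 c * xU hk 7 t * (xU hk 9 c)⁻¹ = xU hk 7 t * xU hk 10 (t * c) := by
  have h := g2i_c79 hk t c
  have hc := (g2c_commute hk (r := 7) (s := 10) (by simp) t (c * t)).eq
  have e : xU hk 9 c * xU hk 7 t * (xU hk 9 c)⁻¹ =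
      (xU hk 9 c)⁻¹ * (xU hk 7 t * xU hk 9 c * (xU hk 7 t)⁻¹) * xU hk 7 t := by
    rw [g2i_inv hk 9 c]
    have e1 := g2i_sq hk 9 c
    calc xU hk 9 c * xU hk 7 t * xU hk 9 c
        = xU hk 9 c * xU hk 7 t * xU hk 9 c * ((xU hk 7 t)⁻¹ * xU hk 7 t) := by group
      _ = xU hk 9 c * (xU hk 7 t * xU hk 9 c * (xU hk 7 t)⁻¹) * xU hk 7 t := by group
  rw [e, h, g2i_inv hk 9 c, ← mul_assoc, g2i_sq, one_mul, ← hc, mul_comm c t]

omit [CharP F 2] in
theorem g2i_c6_10 (hk : HOK chevG2) (c t : F) :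
    xU hk 6 c * xU hk 10 t * (xU hk 6 c)⁻¹ = xU hk 10 t * xU hk 11 (t * c) := by
  obtain ⟨hB, hT, hn⟩ := g2i_t10_6
  have h := comm_wordU (F := F) hk (r := 10) (s := 6) (by decide) (by decide) hn hB t c
  rw [ChevalleyDatum.commWord, hT] at h
  simp only [List.map_cons, List.map_nil, wordU, List.prod_cons, List.prod_nil, mul_one] at h
  have hc := (g2i_commute hk (r := 6) (s := 11) (by simp) c (t * c)).eq
  have e : (((-1 : ℤ) : F)) * (-t) ^ 1 * c ^ 1 = t * c := by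
    push_cast
    ring
  rw [e] at h
  rw [h, mul_assoc (xU hk 10 t), hc]
  group

theorem g2i_c10_6 (hk : HOK chevG2) (c t : F) :
    xU hk 10 c * xU hk 6 t * (xU hk 10 c)⁻¹ = xU hk 6 t * xU hk 11 (t * c) := by
  obtain ⟨hB, hT, hn⟩ := g2i_t6_10
  have h := comm_wordU (F := F) hk (r := 6) (s := 10) (by decide) (by decide) hn hB t c
  rw [ChevalleyDatum.commWord, hT] at h
  simp only [List.map_cons, List.map_nil, wordU, List.prod_cons, List.prod_nil, mul_one] at h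
  have hc := (g2c_commute hk (r := 10) (s := 11) (by simp) c (t * c)).eq
  have e : (((1 : ℤ) : F)) * (-t) ^ 1 * c ^ 1 = t * c := by
    push_cast
    rw [CharTwo.neg_eq]
    ring
  rw [e] at h
  rw [h, mul_assoc (xU hk 6 t), hc]
  group

theorem g2i_c87 (hk : HOK chevG2) (c t : F) :
    xU hk 8 c * xU hk 7 t * (xU hk 8 c)⁻¹ =
      xU hk 7 t * xU hk 10 (t ^ 2 * c) * xU hk 11 (t * c ^ 2) := by
  obtain ⟨hB, hT, hn⟩ := g2i_t78
  have h := comm_wordU (F := F) hk (r := 7) (s := 8) (by decide) (by decide) hn hB t c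
  rw [ChevalleyDatum.commWord, hT] at h
  simp only [List.map_cons, List.map_nil, wordU, List.prod_cons, List.prod_nil, mul_one] at h
  have h2 : (2 : F) = 0 := CharTwo.two_eq_zero
  have e9 : (((-2 : ℤ) : F)) * (-t) ^ 1 * c ^ 1 = 0 := by
    push_cast
    rw [h2]
    ring
  have e10 : (((-3 : ℤ) : F)) * (-t) ^ 2 * c ^ 1 = t ^ 2 * c := by
    push_cast
    rw [g2i_three, CharTwo.neg_eq, CharTwo.neg_eq]
    ring
  have e11 : (((3 : ℤ) : F)) * (-t) ^ 1 * c ^ 2 = t * c ^ 2 := by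
    push_cast
    rw [g2i_three, CharTwo.neg_eq]
    ring
  rw [e9, e10, e11, xU_zero, one_mul] at h
  have hc1 := (g2i_commute hk (r := 8) (s := 10) (by simp) c (t ^ 2 * c)).eq
  have hc2 := (g2c_commute hk (r := 8) (s := 11) (by simp) c (t * c ^ 2)).eq
  calc xU hk 8 c * xU hk 7 t * (xU hk 8 c)⁻¹
      = xU hk 7 t * (xU hk 8 c * xU hk 10 (t ^ 2 * c)) * xU hk 11 (t * c ^ 2) * (xU hk 8 c)⁻¹ := by
        rw [h]
        group
    _ = xU hk 7 t * xU hk 10 (t ^ 2 * c) * (xU hk 8 c * xU hk 11 (t * c ^ 2)) * (xU hk 8 c)⁻¹ := by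
        rw [hc1]
        group
    _ = xU hk 7 t * xU hk 10 (t ^ 2 * c) * xU hk 11 (t * c ^ 2) := by
        rw [hc2]
        group

theorem comm_conj {G : Type*} [Group G] {a b : G} (h : Commute a b) : a * b * a⁻¹ = b := by
  rw [h.eq]
  group

theorem conj_mul2 {G : Type*} [Group G] (k a b : G) :
    k * (a * b) * k⁻¹ = (k * a * k⁻¹) * (k * b * k⁻¹) := by
  group

theorem inv_helper {G : Type*} [Group G] {a q z : G} (ha : a * a = 1) (hq : q * q = 1)
    (hz : Commute z q) (hconj : a * q * a⁻¹ = q * z) (hinv : (a * q) * (a * q) = 1) : z = 1 := by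
  have ha' : a⁻¹ = a := inv_eq_of_mul_eq_one_left ha
  have e : (a * q) * (a * q) = (a * q * a⁻¹) * q := by
    rw [ha']
    group
  rw [e, hconj, mul_assoc, hz.eq, ← mul_assoc, hq, one_mul] at hinv
  exact hinv

/-- `G`-conjugate to one of the two root involutions. -/
def G2Cj (A : ALLOK chevG2) (g : GL chevG2.Idx F) : Prop :=
  ∃ h ∈ chevG2.group F, h * g * h⁻¹ = xU A.hk 11 1 ∨ h * g * h⁻¹ = xU A.hk 9 1

omit [CharP F 2] in
theorem G2Cj.of_conj {A : ALLOK chevG2} {g k : GL chevG2.Idx F} (hk : k ∈ chevG2.group F)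
    (h : G2Cj A (k * g * k⁻¹)) : G2Cj A g := by
  obtain ⟨h', hh', e⟩ := h
  refine ⟨h' * k, mul_mem hh' hk, ?_⟩
  have e2 : h' * k * g * (h' * k)⁻¹ = h' * (k * g * k⁻¹) * h'⁻¹ := by group
  rw [e2]
  exact e

omit [CharP F 2] in
theorem g2cj_x9 (A : ALLOK chevG2) {c : F} (hc : c ≠ 0) : G2Cj A (xU A.hk 9 c) := by
  refine ⟨nrU A.hk 7 c⁻¹ * nrU A.hk 7 (-1), mul_mem (nrU_mem_group A.hk (by decide) _)
    (nrU_mem_group A.hk (by decide) _), Or.inr ?_⟩
  rw [hrU_conj A.hk A.wk A.ak (r := 7) (s := 9) (by decide) (by decide) (inv_ne_zero hc),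
    g2i_refl.2.2.2.2.2.2.2.2.2.2.1, zpow_one, inv_mul_cancel₀ hc]

omit [CharP F 2] in
theorem g2cj_x11 (A : ALLOK chevG2) {c : F} (hc : c ≠ 0) : G2Cj A (xU A.hk 11 c) := by
  refine ⟨nrU A.hk 6 c⁻¹ * nrU A.hk 6 (-1), mul_mem (nrU_mem_group A.hk (by decide) _)
    (nrU_mem_group A.hk (by decide) _), Or.inl ?_⟩
  rw [hrU_conj A.hk A.wk A.ak (r := 6) (s := 11) (by decide) (by decide) (inv_ne_zero hc),
    g2i_refl.2.2.2.2.2.2.2.2.2.2.2, zpow_one, inv_mul_cancel₀ hc]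

theorem g2cj_x10 (A : ALLOK chevG2) {c : F} (hc : c ≠ 0) : G2Cj A (xU A.hk 10 c) := by
  apply G2Cj.of_conj (mono_le_group A.hk (nU_mem A.hk (i := 1) (by decide)))
  rw [nU_conj2 A (by decide) (by decide), g2i_refl.2.2.2.2.2.1]
  exact g2cj_x11 A hc

theorem g2cj_x6 (A : ALLOK chevG2) {c : F} (hc : c ≠ 0) : G2Cj A (xU A.hk 6 c) := by
  apply G2Cj.of_conj (mono_le_group A.hk (nU_mem A.hk (i := 0) (by decide)))
  rw [nU_conj2 A (by decide) (by decide), g2i_refl.1]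
  exact g2cj_x10 A hc

theorem g2cj_x8 (A : ALLOK chevG2) {c : F} (hc : c ≠ 0) : G2Cj A (xU A.hk 8 c) := by
  apply G2Cj.of_conj (mono_le_group A.hk (nU_mem A.hk (i := 0) (by decide)))
  rw [nU_conj2 A (by decide) (by decide), g2i_refl.2.1]
  exact g2cj_x9 A hc

theorem g2cj_x7 (A : ALLOK chevG2) {c : F} (hc : c ≠ 0) : G2Cj A (xU A.hk 7 c) := by
  apply G2Cj.of_conj (mono_le_group A.hk (nU_mem A.hk (i := 1) (by decide)))
  rw [nU_conj2 A (by decide) (by decide), g2i_refl.2.2.2.2.2.2.1]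
  exact g2cj_x8 A hc

omit [CharP F 2] in
/-- Elements of `Q = X_9 X_10 X_11` commute with the root elements of these roots. -/
theorem g2Q_comm_gen (A : ALLOK chevG2) {q : GL chevG2.Idx F}
    (hq : q ∈ vSub A.hk F chevG2.IsPosRoot 9) {r : ℕ} (hr : r ∈ [(9 : ℕ), 10, 11]) (c : F) :
    Commute (xU A.hk r c) q := by
  have hle : vSub A.hk F chevG2.IsPosRoot 9 ≤ Subgroup.centralizer {xU A.hk r c} := by
    unfold vSub
    rw [Subgroup.closure_le]
    rintro y ⟨r', t, hr', hkr, rfl⟩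
    rw [SetLike.mem_coe, Subgroup.mem_centralizer_iff]
    intro z hz
    rw [Set.mem_singleton_iff] at hz
    rw [hz]
    have hr12 : r' < 12 := hr'.1
    simp only [List.mem_cons, List.not_mem_nil, or_false] at hr
    rcases hr with rfl | rfl | rfl <;> interval_cases r'
    · rw [xU_mul, xU_mul, add_comm]
    · exact (g2c_commute A.hk (r := 9) (s := 10) (by simp) c t).eq
    · exact (g2c_commute A.hk (r := 9) (s := 11) (by simp) c t).eq
    · exact (g2c_commute A.hk (r := 9) (s := 10) (by simp) t c).eq.symm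
    · rw [xU_mul, xU_mul, add_comm]
    · exact (g2c_commute A.hk (r := 10) (s := 11) (by simp) c t).eq
    · exact (g2c_commute A.hk (r := 9) (s := 11) (by simp) t c).eq.symm
    · exact (g2c_commute A.hk (r := 10) (s := 11) (by simp) t c).eq.symm
    · rw [xU_mul, xU_mul, add_comm]
  exact Subgroup.mem_centralizer_iff.mp (hle hq) _ rfl

omit [CharP F 2] in
theorem g2Q_abel (A : ALLOK chevG2) {q q' : GL chevG2.Idx F}
    (hq : q ∈ vSub A.hk F chevG2.IsPosRoot 9) (hq' : q' ∈ vSub A.hk F chevG2.IsPosRoot 9) :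
    Commute q' q := by
  have hle : vSub A.hk F chevG2.IsPosRoot 9 ≤ Subgroup.centralizer {q} := by
    unfold vSub
    rw [Subgroup.closure_le]
    rintro y ⟨r', t, hr', hkr, rfl⟩
    rw [SetLike.mem_coe, Subgroup.mem_centralizer_iff]
    intro z hz
    rw [Set.mem_singleton_iff] at hz
    rw [hz]
    have hr12 : r' < 12 := hr'.1
    have hmem : r' ∈ [(9 : ℕ), 10, 11] := by interval_cases r' <;> simp
    exact (g2Q_comm_gen A hq hmem t).eq.symm
  exact (Subgroup.mem_centralizer_iff.mp (hle hq') _ rfl).symm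

theorem g2Q_sq (A : ALLOK chevG2) {q : GL chevG2.Idx F}
    (hq : q ∈ vSub A.hk F chevG2.IsPosRoot 9) : q * q = 1 := by
  unfold vSub at hq
  induction hq using Subgroup.closure_induction with
  | mem x hx =>
    obtain ⟨r, t, _, _, rfl⟩ := hx
    exact g2i_sq A.hk r t
  | one => simp
  | mul x y hx hy ihx ihy =>
    have hc : Commute x y := g2Q_abel A hy hx
    calc x * y * (x * y) = x * (y * x) * y := by group
      _ = x * (x * y) * y := by rw [hc.eq]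
      _ = (x * x) * (y * y) := by group
      _ = 1 := by rw [ihx, ihy, one_mul]
  | inv x hx ihx =>
    rw [← mul_inv_rev, ihx, inv_one]

omit [CharP F 2] in
/-- The decomposition of an element of `Q`. -/
theorem g2Q_form (A : ALLOK chevG2) {q : GL chevG2.Idx F}
    (hq : q ∈ vSub A.hk F chevG2.IsPosRoot 9) :
    ∃ t9 t10 t11 : F, q = xU A.hk 9 t9 * (xU A.hk 10 t10 * xU A.hk 11 t11) := by
  have hS := closed_pos A.hk A.uk
  obtain ⟨t9, v, hv, rfl⟩ := vSub_split A.hk A.nk A.xk A.ck A.ok A.uk hS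
    (g2c_pos 9 (by simp)) q hq
  obtain ⟨t10, v', hv', rfl⟩ := vSub_split A.hk A.nk A.xk A.ck A.ok A.uk hS
    (g2c_pos 10 (by simp)) v hv
  obtain ⟨t11, v'', hv'', rfl⟩ := vSub_split A.hk A.nk A.xk A.ck A.ok A.uk hS
    (g2c_pos 11 (by simp)) v' hv'
  have hv1 : v'' = 1 := vSub_top A.hk hS (by decide) hv''
  subst hv1
  exact ⟨t9, t10, t11, by rw [mul_one]⟩

omit [CharP F 2] in
theorem g2Q_mem (A : ALLOK chevG2) (t9 t10 t11 : F) :
    xU A.hk 9 t9 * (xU A.hk 10 t10 * xU A.hk 11 t11) ∈ vSub A.hk F chevG2.IsPosRoot 9 :=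
  mul_mem (xU_mem_vSub A.hk (g2c_pos 9 (by simp)) le_rfl _)
    (mul_mem (xU_mem_vSub A.hk (g2c_pos 10 (by simp)) (by norm_num) _)
      (xU_mem_vSub A.hk (g2c_pos 11 (by simp)) (by norm_num) _))

/-- The non-identity elements of `Q` are conjugate to root involutions. -/
theorem g2cj_Q (A : ALLOK chevG2) {q : GL chevG2.Idx F}
    (hq : q ∈ vSub A.hk F chevG2.IsPosRoot 9) (h1 : q ≠ 1) : G2Cj A q := by
  obtain ⟨t9, t10, t11, rfl⟩ := g2Q_form A hq
  by_cases h9 : t9 = 0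
  · subst h9
    rw [xU_zero, one_mul] at h1 ⊢
    by_cases h10 : t10 = 0
    · subst h10
      rw [xU_zero, one_mul] at h1 ⊢
      apply g2cj_x11 A
      rintro rfl
      exact h1 (xU_zero _ _)
    · apply G2Cj.of_conj (xU_mem_group A.hk (r := 6) (by decide) (t11 / t10))
      have hc := comm_conj (g2i_commute A.hk (r := 6) (s := 11) (by simp) (t11 / t10) t11)
      have e : xU A.hk 6 (t11 / t10) * (xU A.hk 10 t10 * xU A.hk 11 t11) *
          (xU A.hk 6 (t11 / t10))⁻¹ = xU A.hk 10 t10 := by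
        rw [conj_mul2, g2i_c6_10, hc, mul_assoc, xU_mul, mul_div_cancel₀ _ h10,
          CharTwo.add_self_eq_zero, xU_zero, mul_one]
      rw [e]
      exact g2cj_x10 A h10
  · apply G2Cj.of_conj (xU_mem_group A.hk (r := 7) (by decide) (t10 / t9))
    have hc1 := comm_conj (g2c_commute A.hk (r := 7) (s := 10) (by simp) (t10 / t9) t10)
    have hc2 := comm_conj (g2c_commute A.hk (r := 7) (s := 11) (by simp) (t10 / t9) t11)
    have e1 : xU A.hk 7 (t10 / t9) * (xU A.hk 9 t9 * (xU A.hk 10 t10 * xU A.hk 11 t11)) *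
        (xU A.hk 7 (t10 / t9))⁻¹ = xU A.hk 9 t9 * xU A.hk 11 t11 := by
      rw [conj_mul2, conj_mul2, g2i_c79, hc1, hc2, mul_assoc, ← mul_assoc (xU A.hk 10 _),
        xU_mul, mul_div_cancel₀ _ h9, CharTwo.add_self_eq_zero, xU_zero, one_mul]
    rw [e1]
    apply G2Cj.of_conj (xU_mem_group A.hk (r := 8) (by decide) (t11 / t9))
    have hc3 := comm_conj (g2c_commute A.hk (r := 8) (s := 11) (by simp) (t11 / t9) t11)
    have e2 : xU A.hk 8 (t11 / t9) * (xU A.hk 9 t9 * xU A.hk 11 t11) *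
        (xU A.hk 8 (t11 / t9))⁻¹ = xU A.hk 9 t9 := by
      rw [conj_mul2, g2i_c89, hc3, mul_assoc, xU_mul, mul_div_cancel₀ _ h9,
        CharTwo.add_self_eq_zero, xU_zero, mul_one]
    rw [e2]
    exact g2cj_x9 A h9

/-- `x_a(t) x_{3a+2b}(s)` with `t ≠ 0` is conjugate to a root involution. -/
theorem g2cj_7_11 [Finite F] (A : ALLOK chevG2) {t : F} (ht : t ≠ 0) (s : F) :
    G2Cj A (xU A.hk 7 t * xU A.hk 11 s) := by
  obtain ⟨c, hc⟩ : ∃ c : F, s / t = c * c :=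
    FiniteField.isSquare_of_char_two (ringChar.eq F 2) (s / t)
  have hs : t * c ^ 2 = s := by
    rw [pow_two, ← hc, mul_div_cancel₀ _ ht]
  apply G2Cj.of_conj (xU_mem_group A.hk (r := 8) (by decide) c)
  have hcm := comm_conj (g2c_commute A.hk (r := 8) (s := 11) (by simp) c s)
  have e1 : xU A.hk 8 c * (xU A.hk 7 t * xU A.hk 11 s) * (xU A.hk 8 c)⁻¹ =
      xU A.hk 7 t * xU A.hk 10 (t ^ 2 * c) := by
    rw [conj_mul2, g2i_c87, hcm, mul_assoc, xU_mul, hs, CharTwo.add_self_eq_zero, xU_zero,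
      mul_one]
  rw [e1]
  apply G2Cj.of_conj (xU_mem_group A.hk (r := 9) (by decide) (t * c))
  have hcm2 := comm_conj (g2c_commute A.hk (r := 9) (s := 10) (by simp) (t * c) (t ^ 2 * c))
  have e2 : xU A.hk 9 (t * c) * (xU A.hk 7 t * xU A.hk 10 (t ^ 2 * c)) *
      (xU A.hk 9 (t * c))⁻¹ = xU A.hk 7 t := by
    have e3 : t * (t * c) + t ^ 2 * c = 0 := by
      have : t * (t * c) = t ^ 2 * c := by ring
      rw [this, CharTwo.add_self_eq_zero]
    rw [conj_mul2, g2i_c97, hcm2, mul_assoc, xU_mul, e3, xU_zero, mul_one]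
  rw [e2]
  exact g2cj_x7 A ht

/-- An involution `x_b(s) q` with `s ≠ 0` and `q ∈ Q` is conjugate to a root involution. -/
theorem g2cj_6Q [Finite F] (A : ALLOK chevG2) {s : F} (hs : s ≠ 0) {q : GL chevG2.Idx F}
    (hq : q ∈ vSub A.hk F chevG2.IsPosRoot 9)
    (hinv : (xU A.hk 6 s * q) * (xU A.hk 6 s * q) = 1) : G2Cj A (xU A.hk 6 s * q) := by
  obtain ⟨t9, t10, t11, rfl⟩ := g2Q_form A hq
  have hc9 := comm_conj (g2c_commute A.hk (r := 9) (s := 6) (by simp) t9 s).symm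
  have hc11 := comm_conj (g2i_commute A.hk (r := 6) (s := 11) (by simp) s t11)
  have h10 : t10 = 0 := by
    have hconj : xU A.hk 6 s * (xU A.hk 9 t9 * (xU A.hk 10 t10 * xU A.hk 11 t11)) *
        (xU A.hk 6 s)⁻¹ =
        (xU A.hk 9 t9 * (xU A.hk 10 t10 * xU A.hk 11 t11)) * xU A.hk 11 (t10 * s) := by
      rw [conj_mul2, conj_mul2, hc9, g2i_c6_10, hc11, mul_assoc (xU A.hk 10 t10), xU_mul,
        add_comm, ← xU_mul]
      group
    have hz := inv_helper (g2i_sq A.hk 6 s) (g2Q_sq A hq)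
      (g2Q_comm_gen A hq (r := 11) (by simp) (t10 * s)) hconj hinv
    have h0 := xU_eq_one A.hk (by decide) hz
    rcases mul_eq_zero.mp h0 with h | h
    · exact h
    · exact absurd h hs
  subst h10
  rw [xU_zero, one_mul]
  apply G2Cj.of_conj (xU_mem_group A.hk (r := 10) (by decide) (t11 / s))
  have hd9 := comm_conj (g2c_commute A.hk (r := 9) (s := 10) (by simp) t9 (t11 / s)).symm
  have hd11 := comm_conj (g2c_commute A.hk (r := 10) (s := 11) (by simp) (t11 / s) t11)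
  have e1 : xU A.hk 10 (t11 / s) * (xU A.hk 6 s * (xU A.hk 9 t9 * xU A.hk 11 t11)) *
      (xU A.hk 10 (t11 / s))⁻¹ = xU A.hk 6 s * xU A.hk 9 t9 := by
    have hcm := (g2Q_comm_gen A (g2Q_mem A t9 0 0) (r := 11) (by simp) (s * (t11 / s))).eq
    rw [xU_zero, xU_zero, mul_one, mul_one] at hcm
    rw [conj_mul2, conj_mul2, g2i_c10_6, hd9, hd11, mul_assoc (xU A.hk 6 s),
      ← mul_assoc (xU A.hk 11 _), hcm, mul_assoc (xU A.hk 9 t9), xU_mul, mul_div_cancel₀ _ hs,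
      CharTwo.add_self_eq_zero, xU_zero, mul_one]
  rw [e1]
  by_cases h9 : t9 = 0
  · subst h9
    rw [xU_zero, mul_one]
    exact g2cj_x6 A hs
  · apply G2Cj.of_conj (mono_le_group A.hk (nU_mem A.hk (i := 0) (by decide)))
    rw [conj_mul2, nU_conj2 A (by decide) (by decide), nU_conj2 A (by decide) (by decide),
      g2i_refl.1, g2i_refl.2.2.2.2.1]
    apply G2Cj.of_conj (mono_le_group A.hk (nU_mem A.hk (i := 1) (by decide)))
    rw [conj_mul2, nU_conj2 A (by decide) (by decide), nU_conj2 A (by decide) (by decide),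
      g2i_refl.2.2.2.2.2.1, g2i_refl.2.2.2.2.2.2.2.2.2.1,
      ← (g2c_commute A.hk (r := 7) (s := 11) (by simp) t9 s).eq]
    exact g2cj_7_11 A h9 s

/-- An involution `x_a(s) q` with `s ≠ 0` and `q ∈ Q` is conjugate to a root involution. -/
theorem g2cj_7Q [Finite F] (A : ALLOK chevG2) {s : F} (hs : s ≠ 0) {q : GL chevG2.Idx F}
    (hq : q ∈ vSub A.hk F chevG2.IsPosRoot 9)
    (hinv : (xU A.hk 7 s * q) * (xU A.hk 7 s * q) = 1) : G2Cj A (xU A.hk 7 s * q) := by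
  obtain ⟨t9, t10, t11, rfl⟩ := g2Q_form A hq
  have hc10 := comm_conj (g2c_commute A.hk (r := 7) (s := 10) (by simp) s t10)
  have hc11 := comm_conj (g2c_commute A.hk (r := 7) (s := 11) (by simp) s t11)
  have h9 : t9 = 0 := by
    have hconj : xU A.hk 7 s * (xU A.hk 9 t9 * (xU A.hk 10 t10 * xU A.hk 11 t11)) *
        (xU A.hk 7 s)⁻¹ =
        (xU A.hk 9 t9 * (xU A.hk 10 t10 * xU A.hk 11 t11)) * xU A.hk 10 (t9 * s) := by
      have hcm := (g2Q_comm_gen A (g2Q_mem A 0 t10 t11) (r := 10) (by simp) (t9 * s)).eq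
      rw [xU_zero, one_mul] at hcm
      rw [conj_mul2, conj_mul2, g2i_c79, hc10, hc11, mul_assoc (xU A.hk 9 t9), hcm]
      group
    have hz := inv_helper (g2i_sq A.hk 7 s) (g2Q_sq A hq)
      (g2Q_comm_gen A hq (r := 10) (by simp) (t9 * s)) hconj hinv
    have h0 := xU_eq_one A.hk (by decide) hz
    rcases mul_eq_zero.mp h0 with h | h
    · exact h
    · exact absurd h hs
  subst h9
  rw [xU_zero, one_mul]
  apply G2Cj.of_conj (xU_mem_group A.hk (r := 9) (by decide) (t10 / s))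
  have hd10 := comm_conj (g2c_commute A.hk (r := 9) (s := 10) (by simp) (t10 / s) t10)
  have hd11 := comm_conj (g2c_commute A.hk (r := 9) (s := 11) (by simp) (t10 / s) t11)
  have e1 : xU A.hk 9 (t10 / s) * (xU A.hk 7 s * (xU A.hk 10 t10 * xU A.hk 11 t11)) *
      (xU A.hk 9 (t10 / s))⁻¹ = xU A.hk 7 s * xU A.hk 11 t11 := by
    rw [conj_mul2, conj_mul2, g2i_c97, hd10, hd11, mul_assoc (xU A.hk 7 s),
      ← mul_assoc (xU A.hk 10 _), xU_mul, mul_div_cancel₀ _ hs, CharTwo.add_self_eq_zero,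
      xU_zero, one_mul]
  rw [e1]
  exact g2cj_7_11 A hs t11

/-- An involution `x_{a+b}(s) q` with `s ≠ 0` and `q ∈ Q` is conjugate to a root involution. -/
theorem g2cj_8Q [Finite F] (A : ALLOK chevG2) {s : F} (hs : s ≠ 0) {q : GL chevG2.Idx F}
    (hq : q ∈ vSub A.hk F chevG2.IsPosRoot 9)
    (hinv : (xU A.hk 8 s * q) * (xU A.hk 8 s * q) = 1) : G2Cj A (xU A.hk 8 s * q) := by
  obtain ⟨t9, t10, t11, rfl⟩ := g2Q_form A hq
  have hc10 := comm_conj (g2i_commute A.hk (r := 8) (s := 10) (by simp) s t10)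
  have hc11 := comm_conj (g2c_commute A.hk (r := 8) (s := 11) (by simp) s t11)
  have h9 : t9 = 0 := by
    have hconj : xU A.hk 8 s * (xU A.hk 9 t9 * (xU A.hk 10 t10 * xU A.hk 11 t11)) *
        (xU A.hk 8 s)⁻¹ =
        (xU A.hk 9 t9 * (xU A.hk 10 t10 * xU A.hk 11 t11)) * xU A.hk 11 (t9 * s) := by
      have hcm := (g2Q_comm_gen A (g2Q_mem A 0 t10 t11) (r := 11) (by simp) (t9 * s)).eq
      rw [xU_zero, one_mul] at hcm
      rw [conj_mul2, conj_mul2, g2i_c89, hc10, hc11, mul_assoc (xU A.hk 9 t9), hcm]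
      group
    have hz := inv_helper (g2i_sq A.hk 8 s) (g2Q_sq A hq)
      (g2Q_comm_gen A hq (r := 11) (by simp) (t9 * s)) hconj hinv
    have h0 := xU_eq_one A.hk (by decide) hz
    rcases mul_eq_zero.mp h0 with h | h
    · exact h
    · exact absurd h hs
  subst h9
  rw [xU_zero, one_mul] at hinv ⊢
  apply G2Cj.of_conj (mono_le_group A.hk (nU_mem A.hk (i := 0) (by decide)))
  have e1 : nU A.hk F 0 * (xU A.hk 8 s * (xU A.hk 10 t10 * xU A.hk 11 t11)) *
      (nU A.hk F 0)⁻¹ = xU A.hk 6 t10 * (xU A.hk 9 s * (xU A.hk 10 0 * xU A.hk 11 t11)) := by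
    rw [conj_mul2, conj_mul2, nU_conj2 A (by decide) (by decide),
      nU_conj2 A (by decide) (by decide), nU_conj2 A (by decide) (by decide), g2i_refl.2.1,
      g2i_refl.2.2.1, g2i_refl.2.2.2.1, xU_zero, one_mul, ← mul_assoc, ← mul_assoc,
      (g2c_commute A.hk (r := 9) (s := 6) (by simp) s t10).eq]
  have hinv' : (nU A.hk F 0 * (xU A.hk 8 s * (xU A.hk 10 t10 * xU A.hk 11 t11)) *
      (nU A.hk F 0)⁻¹) * (nU A.hk F 0 * (xU A.hk 8 s * (xU A.hk 10 t10 * xU A.hk 11 t11)) *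
      (nU A.hk F 0)⁻¹) = 1 := by
    rw [← conj_mul2, hinv]
    group
  rw [e1] at hinv' ⊢
  by_cases h10 : t10 = 0
  · subst h10
    rw [xU_zero, one_mul]
    apply g2cj_Q A (g2Q_mem A s 0 t11)
    intro h
    have h' : xU A.hk 9 s * xU A.hk 10 0 * xU A.hk 11 t11 = 1 := by
      rw [mul_assoc]
      exact h
    exact hs (g2c_unique A h').1
  · exact g2cj_6Q A h10 (g2Q_mem A s 0 t11) hinv'

omit [CharP F 2] in
theorem g2i_m67 (A : ALLOK chevG2) (c s : F) :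
    ∃ q₁ ∈ vSub A.hk F chevG2.IsPosRoot 9,
      xU A.hk 6 c * xU A.hk 7 s * (xU A.hk 6 c)⁻¹ = xU A.hk 7 s * (xU A.hk 8 (s * c) * q₁) := by
  obtain ⟨hB, hT, hn⟩ := g2i_t76
  have h := comm_wordU (F := F) A.hk (r := 7) (s := 6) (by decide) (by decide) hn hB s c
  rw [ChevalleyDatum.commWord, hT] at h
  simp only [List.map_cons, List.map_nil, wordU, List.prod_cons, List.prod_nil, mul_one] at h
  have e8 : (((-1 : ℤ) : F)) * (-s) ^ 1 * c ^ 1 = s * c := by
    push_cast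
    ring
  rw [e8] at h
  obtain ⟨a9, a10, a11, h⟩ : ∃ a9 a10 a11 : F, xU A.hk 6 c * xU A.hk 7 s =
      xU A.hk 7 s * xU A.hk 6 c * (xU A.hk 8 (s * c) *
        (xU A.hk 9 a9 * (xU A.hk 10 a10 * xU A.hk 11 a11))) := ⟨_, _, _, h⟩
  have hN9 := borel_le_normalizer_vSub_pos (F := F) A 9
  have h6B : xU A.hk 6 c ∈ chevG2.borelSubgroup F :=
    xU_pos_mem_borel A.hk (g2c_pos 6 (by simp)) c
  have hc8 := comm_conj (g2i_commute A.hk (r := 6) (s := 8) (by simp) c (s * c))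
  refine ⟨xU A.hk 6 c * (xU A.hk 9 a9 * (xU A.hk 10 a10 * xU A.hk 11 a11)) * (xU A.hk 6 c)⁻¹,
    (Subgroup.mem_normalizer_iff.mp (hN9 h6B) _).mp (g2Q_mem A _ _ _), ?_⟩
  calc xU A.hk 6 c * xU A.hk 7 s * (xU A.hk 6 c)⁻¹
      = xU A.hk 7 s * xU A.hk 6 c * (xU A.hk 8 (s * c) *
        (xU A.hk 9 a9 * (xU A.hk 10 a10 * xU A.hk 11 a11))) * (xU A.hk 6 c)⁻¹ := by rw [h]
    _ = xU A.hk 7 s * ((xU A.hk 6 c * xU A.hk 8 (s * c) * (xU A.hk 6 c)⁻¹) *
        (xU A.hk 6 c * (xU A.hk 9 a9 * (xU A.hk 10 a10 * xU A.hk 11 a11)) *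
          (xU A.hk 6 c)⁻¹)) := by group
    _ = _ := by rw [hc8]

theorem g2i_m76 (A : ALLOK chevG2) (c s : F) :
    ∃ q₁ ∈ vSub A.hk F chevG2.IsPosRoot 9,
      xU A.hk 7 c * xU A.hk 6 s * (xU A.hk 7 c)⁻¹ = xU A.hk 6 s * (xU A.hk 8 (s * c) * q₁) := by
  obtain ⟨hB, hT, hn⟩ := g2i_t67
  have h := comm_wordU (F := F) A.hk (r := 6) (s := 7) (by decide) (by decide) hn hB s c
  rw [ChevalleyDatum.commWord, hT] at h
  simp only [List.map_cons, List.map_nil, wordU, List.prod_cons, List.prod_nil, mul_one] at h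
  have e8 : (((1 : ℤ) : F)) * (-s) ^ 1 * c ^ 1 = s * c := by
    push_cast
    rw [CharTwo.neg_eq]
    ring
  rw [e8] at h
  obtain ⟨a9, a10, a11, h⟩ : ∃ a9 a10 a11 : F, xU A.hk 7 c * xU A.hk 6 s =
      xU A.hk 6 s * xU A.hk 7 c * (xU A.hk 8 (s * c) *
        (xU A.hk 9 a9 * (xU A.hk 10 a10 * xU A.hk 11 a11))) := ⟨_, _, _, h⟩
  have hN9 := borel_le_normalizer_vSub_pos (F := F) A 9
  have h7B : xU A.hk 7 c ∈ chevG2.borelSubgroup F :=
    xU_pos_mem_borel A.hk (g2c_pos 7 (by simp)) c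
  obtain ⟨v, hv, ev⟩ := xU_conj_coset A (g2c_pos 7 (by simp)) (g2c_pos 8 (by simp))
    (by decide) c (s * c)
  refine ⟨v * (xU A.hk 7 c * (xU A.hk 9 a9 * (xU A.hk 10 a10 * xU A.hk 11 a11)) *
    (xU A.hk 7 c)⁻¹),
    mul_mem hv ((Subgroup.mem_normalizer_iff.mp (hN9 h7B) _).mp (g2Q_mem A _ _ _)), ?_⟩
  calc xU A.hk 7 c * xU A.hk 6 s * (xU A.hk 7 c)⁻¹
      = xU A.hk 6 s * xU A.hk 7 c * (xU A.hk 8 (s * c) *
        (xU A.hk 9 a9 * (xU A.hk 10 a10 * xU A.hk 11 a11))) * (xU A.hk 7 c)⁻¹ := by rw [h]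
    _ = xU A.hk 6 s * ((xU A.hk 7 c * xU A.hk 8 (s * c) * (xU A.hk 7 c)⁻¹) *
        (xU A.hk 7 c * (xU A.hk 9 a9 * (xU A.hk 10 a10 * xU A.hk 11 a11)) *
          (xU A.hk 7 c)⁻¹)) := by group
    _ = _ := by
        rw [ev]
        group

/-- The first two coefficients of an involution of `U` have product zero. -/
theorem g2_inv_I1 (A : ALLOK chevG2) (s6 s7 : F) {w : GL chevG2.Idx F}
    (hw : w ∈ vSub A.hk F chevG2.IsPosRoot 8)
    (hinv : (xU A.hk 6 s6 * (xU A.hk 7 s7 * w)) * (xU A.hk 6 s6 * (xU A.hk 7 s7 * w)) = 1) :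
    s6 * s7 = 0 := by
  have hS := closed_pos A.hk A.uk
  have p6 : chevG2.IsPosRoot 6 := g2c_pos 6 (by simp)
  have p7 : chevG2.IsPosRoot 7 := g2c_pos 7 (by simp)
  have p8 : chevG2.IsPosRoot 8 := g2c_pos 8 (by simp)
  have hN9 := borel_le_normalizer_vSub_pos (F := F) A 9
  obtain ⟨s8, q, hq, rfl⟩ := vSub_split A.hk A.nk A.xk A.ck A.ok A.uk hS p8 w hw
  obtain ⟨hB, hT, hn⟩ := g2i_t67
  have h := comm_wordU (F := F) A.hk (r := 6) (s := 7) (by decide) (by decide) hn hB s6 s7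
  rw [ChevalleyDatum.commWord, hT] at h
  simp only [List.map_cons, List.map_nil, wordU, List.prod_cons, List.prod_nil, mul_one] at h
  have e8 : (((1 : ℤ) : F)) * (-s6) ^ 1 * s7 ^ 1 = s6 * s7 := by
    push_cast
    rw [CharTwo.neg_eq]
    ring
  rw [e8] at h
  obtain ⟨a9, a10, a11, h⟩ : ∃ a9 a10 a11 : F, xU A.hk 7 s7 * xU A.hk 6 s6 =
      xU A.hk 6 s6 * xU A.hk 7 s7 * (xU A.hk 8 (s6 * s7) *
        (xU A.hk 9 a9 * (xU A.hk 10 a10 * xU A.hk 11 a11))) := ⟨_, _, _, h⟩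
  obtain ⟨v, hv, ebc⟩ := xU_conj_coset A p7 p8 (by decide) s7 s8
  obtain ⟨v', hv', ebx⟩ := xU_conj_coset A p7 p8 (by decide) s7 (s6 * s7)
  have hQB : vSub A.hk F chevG2.IsPosRoot 9 ≤ chevG2.borelSubgroup F := by
    intro y hy
    have h1 := vSub_anti A.hk _ (Nat.zero_le 9) hy
    rw [← posU_eq_vSub A.hk] at h1
    exact Subgroup.mem_sup_left h1
  let N : Subgroup ↥(chevG2.borelSubgroup F) :=
    (vSub A.hk F chevG2.IsPosRoot 9).subgroupOf (chevG2.borelSubgroup F)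
  have hNn : N.Normal :=
    ⟨fun n hn g => (Subgroup.mem_normalizer_iff.mp (hN9 g.2) _).mp hn⟩
  let a : ↥(chevG2.borelSubgroup F) := ⟨xU A.hk 6 s6, xU_pos_mem_borel A.hk p6 _⟩
  let b : ↥(chevG2.borelSubgroup F) := ⟨xU A.hk 7 s7, xU_pos_mem_borel A.hk p7 _⟩
  let c : ↥(chevG2.borelSubgroup F) := ⟨xU A.hk 8 s8, xU_pos_mem_borel A.hk p8 _⟩
  let x : ↥(chevG2.borelSubgroup F) := ⟨xU A.hk 8 (s6 * s7), xU_pos_mem_borel A.hk p8 _⟩
  let π := QuotientGroup.mk' N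
  have hker : ∀ (y : GL chevG2.Idx F) (hy : y ∈ vSub A.hk F chevG2.IsPosRoot 9),
      π ⟨y, hQB hy⟩ = 1 := fun y hy => (QuotientGroup.eq_one_iff _).mpr hy
  have ra : π a * π a = 1 := by
    have e : a * a = 1 := Subtype.ext (g2i_sq A.hk 6 s6)
    rw [← map_mul, e, map_one]
  have rb : π b * π b = 1 := by
    have e : b * b = 1 := Subtype.ext (g2i_sq A.hk 7 s7)
    rw [← map_mul, e, map_one]
  have rc : π c * π c = 1 := by
    have e : c * c = 1 := Subtype.ext (g2i_sq A.hk 8 s8)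
    rw [← map_mul, e, map_one]
  have rac : π a * π c = π c * π a := by
    have e : a * c = c * a := Subtype.ext (g2i_commute A.hk (r := 6) (s := 8) (by simp) s6 s8).eq
    rw [← map_mul, e, map_mul]
  have rbc : π b * π c = π c * π b := by
    have e : b * c = c * ⟨v, hQB hv⟩ * b := Subtype.ext (by
      show xU A.hk 7 s7 * xU A.hk 8 s8 = xU A.hk 8 s8 * v * xU A.hk 7 s7
      rw [← ebc]
      group)
    rw [← map_mul, e, map_mul, map_mul, hker v hv, mul_one]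
  have rbx : π b * π x = π x * π b := by
    have e : b * x = x * ⟨v', hQB hv'⟩ * b := Subtype.ext (by
      show xU A.hk 7 s7 * xU A.hk 8 (s6 * s7) = xU A.hk 8 (s6 * s7) * v' * xU A.hk 7 s7
      rw [← ebx]
      group)
    rw [← map_mul, e, map_mul, map_mul, hker v' hv', mul_one]
  have rba : π b * π a = π a * π b * π x := by
    have e : b * a = a * b * (x * ⟨_, hQB (g2Q_mem A a9 a10 a11)⟩) := Subtype.ext h
    rw [← map_mul, e, map_mul, map_mul, map_mul, hker _ (g2Q_mem A a9 a10 a11), mul_one]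
  have hinv' : π a * π b * π c * (π a * π b * π c) = 1 := by
    have e : (a * (b * (c * ⟨q, hQB hq⟩))) * (a * (b * (c * ⟨q, hQB hq⟩))) = 1 :=
      Subtype.ext hinv
    have e2 := congrArg π e
    rw [map_mul, map_mul, map_mul, map_mul, hker q hq, mul_one, map_one] at e2
    rw [← e2]
    group
  have hx1 : π x = 1 := by
    calc π x = π b * π x * π b := by rw [rbx, mul_assoc, rb, mul_one]
      _ = π a * (π a * π b * π x) * π b := by
          rw [← mul_assoc, ← mul_assoc, ra, one_mul]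
      _ = π a * (π b * π a) * π b := by rw [rba]
      _ = π a * π b * π a * π b * (π c * π c) := by
          rw [rc]
          group
      _ = π a * π b * π a * (π b * π c) * π c := by group
      _ = π a * π b * π a * (π c * π b) * π c := by rw [rbc]
      _ = π a * π b * (π a * π c) * π b * π c := by group
      _ = π a * π b * (π c * π a) * π b * π c := by rw [rac]
      _ = π a * π b * π c * (π a * π b * π c) := by group
      _ = 1 := hinv'
  have hxQ : xU A.hk 8 (s6 * s7) ∈ vSub A.hk F chevG2.IsPosRoot 9 :=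
    (QuotientGroup.eq_one_iff x).mp hx1
  exact xU_vSub_eq_zero A.hk A.wk A.uk hS p8 hxQ

/-- Every involution of `U` is conjugate to one of the two root involutions. -/
theorem g2_inv_main [Finite F] (A : ALLOK chevG2) {u : GL chevG2.Idx F}
    (hu : u ∈ chevG2.posUnipotent F) (h1 : u ≠ 1) (h2 : u * u = 1) : G2Cj A u := by
  have hS := closed_pos A.hk A.uk
  have p6 : chevG2.IsPosRoot 6 := g2c_pos 6 (by simp)
  have p7 : chevG2.IsPosRoot 7 := g2c_pos 7 (by simp)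
  have p8 : chevG2.IsPosRoot 8 := g2c_pos 8 (by simp)
  have hN9 := borel_le_normalizer_vSub_pos (F := F) A 9
  have nrm : ∀ g ∈ chevG2.borelSubgroup F, ∀ y ∈ vSub A.hk F chevG2.IsPosRoot 9,
      g * y * g⁻¹ ∈ vSub A.hk F chevG2.IsPosRoot 9 :=
    fun g hg y hy => (Subgroup.mem_normalizer_iff.mp (hN9 hg) y).mp hy
  have hu6 : u ∈ vSub A.hk F chevG2.IsPosRoot 6 := by
    rw [posU_eq_vSub A.hk] at hu
    have hle : vSub A.hk F chevG2.IsPosRoot 0 ≤ vSub A.hk F chevG2.IsPosRoot 6 := by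
      unfold vSub
      apply Subgroup.closure_mono
      rintro y ⟨r, t, hr, _, rfl⟩
      exact ⟨r, t, hr, g2c_pos_ge r hr.1 hr, rfl⟩
    exact hle hu
  obtain ⟨s6, v6, hv6, rfl⟩ := vSub_split A.hk A.nk A.xk A.ck A.ok A.uk hS p6 u hu6
  obtain ⟨s7, v7, hv7, rfl⟩ := vSub_split A.hk A.nk A.xk A.ck A.ok A.uk hS p7 v6 hv6
  have h67 := g2_inv_I1 A s6 s7 hv7 h2
  obtain ⟨s8, q, hq, rfl⟩ := vSub_split A.hk A.nk A.xk A.ck A.ok A.uk hS p8 v7 hv7
  by_cases h6 : s6 = 0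
  · subst h6
    rw [xU_zero, one_mul] at h1 h2 ⊢
    by_cases h7 : s7 = 0
    · subst h7
      rw [xU_zero, one_mul] at h1 h2 ⊢
      by_cases h8 : s8 = 0
      · subst h8
        rw [xU_zero, one_mul] at h1 h2 ⊢
        exact g2cj_Q A hq h1
      · exact g2cj_8Q A h8 hq h2
    · have hkB : xU A.hk 6 (s8 / s7) ∈ chevG2.borelSubgroup F := xU_pos_mem_borel A.hk p6 _
      have h8B : xU A.hk 8 s8 ∈ chevG2.borelSubgroup F := xU_pos_mem_borel A.hk p8 _
      apply G2Cj.of_conj (xU_mem_group A.hk (r := 6) (by decide) (s8 / s7))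
      obtain ⟨q₁, hq₁, e⟩ := g2i_m67 A (s8 / s7) s7
      have hc8 := comm_conj (g2i_commute A.hk (r := 6) (s := 8) (by simp) (s8 / s7) s8)
      have e' : xU A.hk 6 (s8 / s7) * (xU A.hk 7 s7 * (xU A.hk 8 s8 * q)) *
          (xU A.hk 6 (s8 / s7))⁻¹ = xU A.hk 7 s7 * ((xU A.hk 8 s8 * q₁ * (xU A.hk 8 s8)⁻¹) *
            (xU A.hk 6 (s8 / s7) * q * (xU A.hk 6 (s8 / s7))⁻¹)) := by
        rw [conj_mul2, conj_mul2, e, hc8, mul_div_cancel₀ _ h7, g2i_inv A.hk 8 s8]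
        group
      have hinv' : (xU A.hk 6 (s8 / s7) * (xU A.hk 7 s7 * (xU A.hk 8 s8 * q)) *
          (xU A.hk 6 (s8 / s7))⁻¹) * (xU A.hk 6 (s8 / s7) * (xU A.hk 7 s7 * (xU A.hk 8 s8 * q)) *
          (xU A.hk 6 (s8 / s7))⁻¹) = 1 := by
        rw [← conj_mul2, h2]
        group
      rw [e'] at hinv' ⊢
      exact g2cj_7Q A h7 (mul_mem (nrm _ h8B _ hq₁) (nrm _ hkB _ hq)) hinv'
  · have h7 : s7 = 0 := by
      rcases mul_eq_zero.mp h67 with h | h
      · exact absurd h h6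
      · exact h
    subst h7
    rw [xU_zero, one_mul] at h1 h2 ⊢
    have hkB : xU A.hk 7 (s8 / s6) ∈ chevG2.borelSubgroup F := xU_pos_mem_borel A.hk p7 _
    have h8B : xU A.hk 8 s8 ∈ chevG2.borelSubgroup F := xU_pos_mem_borel A.hk p8 _
    apply G2Cj.of_conj (xU_mem_group A.hk (r := 7) (by decide) (s8 / s6))
    obtain ⟨q₁, hq₁, e⟩ := g2i_m76 A (s8 / s6) s6
    obtain ⟨v₂, hv₂, e8⟩ := xU_conj_coset A p7 p8 (by decide) (s8 / s6) s8
    have e' : xU A.hk 7 (s8 / s6) * (xU A.hk 6 s6 * (xU A.hk 8 s8 * q)) *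
        (xU A.hk 7 (s8 / s6))⁻¹ = xU A.hk 6 s6 * ((xU A.hk 8 s8 * q₁ * (xU A.hk 8 s8)⁻¹) * v₂ *
          (xU A.hk 7 (s8 / s6) * q * (xU A.hk 7 (s8 / s6))⁻¹)) := by
      rw [conj_mul2, conj_mul2, e, e8, mul_div_cancel₀ _ h6, g2i_inv A.hk 8 s8]
      group
    have hinv' : (xU A.hk 7 (s8 / s6) * (xU A.hk 6 s6 * (xU A.hk 8 s8 * q)) *
        (xU A.hk 7 (s8 / s6))⁻¹) * (xU A.hk 7 (s8 / s6) * (xU A.hk 6 s6 * (xU A.hk 8 s8 * q)) *
        (xU A.hk 7 (s8 / s6))⁻¹) = 1 := by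
      rw [← conj_mul2, h2]
      group
    rw [e'] at hinv' ⊢
    exact g2cj_6Q A h6 (mul_mem (mul_mem (nrm _ h8B _ hq₁) hv₂) (nrm _ hkB _ hq)) hinv'

/-- Every element of order two is conjugate into `U`. -/
theorem g2_conj_into_U [Fintype F] {g : GL chevG2.Idx F}
    (hg : g ∈ chevG2.group F) (ho : orderOf g = 2) :
    ∃ k ∈ chevG2.group F, k * g * k⁻¹ ∈ chevG2.posUnipotent F := by
  have : Fact (Nat.Prime 2) := ⟨Nat.prime_two⟩
  obtain ⟨P, hP⟩ := posU_sylow (F := F) 2 chevG2 (by simp)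
  have hg2 : IsPGroup 2 (Subgroup.zpowers (⟨g, hg⟩ : ↥(chevG2.group F))) := by
    apply IsPGroup.of_card (n := 1)
    rw [Nat.card_zpowers, pow_one, ← ho]
    exact Subgroup.orderOf_mk g hg
  obtain ⟨R, hR⟩ := hg2.exists_le_sylow
  obtain ⟨k, hk⟩ := MulAction.exists_smul_eq ↥(chevG2.group F) R P
  refine ⟨k, k.2, ?_⟩
  have hmem : (⟨g, hg⟩ : ↥(chevG2.group F)) ∈ (R : Subgroup ↥(chevG2.group F)) :=
    hR (Subgroup.mem_zpowers _)
  have h1 : k * ⟨g, hg⟩ * k⁻¹ ∈ (P : Subgroup ↥(chevG2.group F)) := by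
    rw [← hk, Sylow.coe_subgroup_smul]
    exact Subgroup.smul_mem_pointwise_smul _ (MulAut.conj k) _ hmem
  rw [hP] at h1
  exact h1

omit [CharP F 2] in
/-- The long and the short root involutions are not conjugate. -/
theorem g2_not_conj (A : ALLOK chevG2) :
    ¬ ∃ h ∈ chevG2.group F, h * xU A.hk 11 (1 : F) * h⁻¹ = xU A.hk 9 1 := by
  rintro ⟨h, hh, e⟩
  obtain ⟨b, hb, n, hn, u, hu, rfl⟩ := (bruhat_normal_form (F := F) A.hk A.nk A.xk A.wk A.lk A.ak
    A.w0k A.ck A.pk A.ok A.bk A.rk A.hnp).1 h hh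
  have hS := closed_pos A.hk A.uk
  have p6 : chevG2.IsPosRoot 6 := g2c_pos 6 (by simp)
  have p9 : chevG2.IsPosRoot 9 := g2c_pos 9 (by simp)
  have p10 : chevG2.IsPosRoot 10 := g2c_pos 10 (by simp)
  have p11 : chevG2.IsPosRoot 11 := g2c_pos 11 (by simp)
  have huU := uneg_le_pos n hu
  have htop : chevG2.IsPosRoot (chevG2.nroots - 1) := by decide
  have hu11 : u * xU A.hk 11 (1 : F) * u⁻¹ = xU A.hk 11 1 := by
    have hle : chevG2.posUnipotent F ≤ Subgroup.centralizer {xU A.hk 11 (1 : F)} := by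
      unfold ChevalleyDatum.posUnipotent
      rw [Subgroup.closure_le]
      rintro g ⟨r, a, hr, hg⟩
      rw [eq_xU A.hk hg, SetLike.mem_coe, Subgroup.mem_centralizer_iff]
      intro y hy
      rw [Set.mem_singleton_iff] at hy
      rw [hy]
      exact top_comm A htop hr a 1
    have h1 := Subgroup.mem_centralizer_iff.mp (hle huU) _ rfl
    rw [← h1]
    group
  obtain ⟨π, hπ, hact⟩ := exists_actsAs A hn
  obtain ⟨d, hd⟩ := hact ⟨11, by decide⟩
  have hdne := coeff_ne_of_conj A.hk (by decide) hd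
  have e1 : b⁻¹ * xU A.hk 9 (1 : F) * b =
      xU A.hk ((π ⟨11, by decide⟩ : Fin chevG2.nroots) : ℕ) (d * 1) := by
    rw [← hd, ← e]
    calc b⁻¹ * (b * n * u * xU A.hk 11 (1 : F) * (b * n * u)⁻¹) * b
        = n * (u * xU A.hk 11 (1 : F) * u⁻¹) * n⁻¹ := by group
      _ = _ := by rw [hu11]
  have hN9 := borel_le_normalizer_vSub_pos (F := F) A 9
  have hN10 := borel_le_normalizer_vSub_pos (F := F) A 10
  have ht9 : xU A.hk 9 (1 : F) ∈ vSub A.hk F chevG2.IsPosRoot 9 := xU_mem_vSub A.hk p9 le_rfl 1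
  have hy : b⁻¹ * xU A.hk 9 (1 : F) * b ∈ vSub A.hk F chevG2.IsPosRoot 9 := by
    have h1 := (Subgroup.mem_normalizer_iff.mp (hN9 (inv_mem hb)) _).mp ht9
    rwa [inv_inv] at h1
  obtain ⟨t9, t10, t11, ey⟩ := g2Q_form A hy
  have ht9ne : t9 ≠ 0 := by
    intro h0
    rw [h0, xU_zero, one_mul] at ey
    have h1 : b⁻¹ * xU A.hk 9 (1 : F) * b ∈ vSub A.hk F chevG2.IsPosRoot 10 := by
      rw [ey]
      exact mul_mem (xU_mem_vSub A.hk p10 le_rfl _) (xU_mem_vSub A.hk p11 (by norm_num) _)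
    have h2 := (Subgroup.mem_normalizer_iff.mp (hN10 hb) _).mp h1
    have h3 : b * (b⁻¹ * xU A.hk 9 (1 : F) * b) * b⁻¹ = xU A.hk 9 (1 : F) := by group
    rw [h3] at h2
    exact one_ne_zero (xU_vSub_eq_zero A.hk A.wk A.uk hS p9 h2)
  obtain ⟨L, hL, hLπ⟩ := g2_Wp_tab A hπ
  have hL11 : ((π ⟨11, by decide⟩ : Fin chevG2.nroots) : ℕ) = L.getD 11 0 :=
    hLπ ⟨11, by decide⟩
  have hlt : L.getD 11 0 < chevG2.nroots := by
    rw [← hL11]
    exact (π _).2
  rw [hL11, mul_one] at e1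
  have hpos : chevG2.IsPosRoot (L.getD 11 0) := by
    by_contra hneg
    have hneg' := (neg_iff_not_pos A hlt).mpr hneg
    have hV : xU A.hk (L.getD 11 0) d ∈ chevG2.negUnipotent F :=
      Subgroup.subset_closure ⟨_, _, hneg', xU_val A.hk _ _⟩
    have hU : xU A.hk (L.getD 11 0) d ∈ chevG2.posUnipotent F := by
      rw [← e1, posU_eq_vSub A.hk]
      exact vSub_anti A.hk _ (Nat.zero_le _) hy
    have h4 : xU A.hk (L.getD 11 0) d ∈ chevG2.posUnipotent F ⊓ chevG2.negUnipotent F :=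
      ⟨hU, hV⟩
    rw [posU_inf_negU A.hk A.wk A.lk A.ak, Subgroup.mem_bot] at h4
    exact hdne (xU_eq_one A.hk hlt h4)
  obtain ⟨-, -, f11, -⟩ := g2WTab_facts L hL
  have e2 : xU A.hk 9 t9 =
      xU A.hk (L.getD 11 0) d * (xU A.hk 10 t10 * xU A.hk 11 t11)⁻¹ := by
    rw [← e1, ey]
    group
  rcases f11 hpos with h | h | h
  · rw [h] at e2
    have h6 : xU A.hk 6 d ∈ vSub A.hk F chevG2.IsPosRoot 7 := by
      have e3 : xU A.hk 6 d = xU A.hk 9 t9 * (xU A.hk 10 t10 * xU A.hk 11 t11) := by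
        rw [e2]
        group
      rw [e3]
      exact vSub_anti A.hk _ (by norm_num) (g2Q_mem A t9 t10 t11)
    exact hdne (xU_vSub_eq_zero A.hk A.wk A.uk hS p6 h6)
  · rw [h] at e2
    have h9 : xU A.hk 9 t9 ∈ vSub A.hk F chevG2.IsPosRoot 10 := by
      rw [e2]
      exact mul_mem (xU_mem_vSub A.hk p10 le_rfl _) (inv_mem (mul_mem
        (xU_mem_vSub A.hk p10 le_rfl _) (xU_mem_vSub A.hk p11 (by norm_num) _)))
    exact ht9ne (xU_vSub_eq_zero A.hk A.wk A.uk hS p9 h9)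
  · rw [h] at e2
    have h9 : xU A.hk 9 t9 ∈ vSub A.hk F chevG2.IsPosRoot 10 := by
      rw [e2]
      exact mul_mem (xU_mem_vSub A.hk p11 (by norm_num) _) (inv_mem (mul_mem
        (xU_mem_vSub A.hk p10 le_rfl _) (xU_mem_vSub A.hk p11 (by norm_num) _)))
    exact ht9ne (xU_vSub_eq_zero A.hk A.wk A.uk hS p9 h9)

/-- The two classes of involutions of the group of type `G₂` in characteristic two. -/
theorem g2_inv_classes [Fintype F] :
    (∀ y : GL chevG2.Idx F, ((y : GL chevG2.Idx F) : Matrix chevG2.Idx chevG2.Idx F) ∈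
        [chevG2.x F 11 1, chevG2.x F 9 1] → y ∈ chevG2.group F ∧ orderOf y = 2) ∧
    (∀ g ∈ chevG2.group F, orderOf g = 2 → ∃ y ∈ chevG2.group F,
      ((y : GL chevG2.Idx F) : Matrix chevG2.Idx chevG2.Idx F) ∈
        [chevG2.x F 11 1, chevG2.x F 9 1] ∧ ∃ h ∈ chevG2.group F, h * g * h⁻¹ = y) ∧
    (∀ y₁ ∈ chevG2.group F, ∀ y₂ ∈ chevG2.group F,
      ((y₁ : GL chevG2.Idx F) : Matrix chevG2.Idx chevG2.Idx F) ∈
        [chevG2.x F 11 1, chevG2.x F 9 1] →
      ((y₂ : GL chevG2.Idx F) : Matrix chevG2.Idx chevG2.Idx F) ∈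
        [chevG2.x F 11 1, chevG2.x F 9 1] →
      (∃ h ∈ chevG2.group F, h * y₁ * h⁻¹ = y₂) →
      ((y₁ : GL chevG2.Idx F) : Matrix chevG2.Idx chevG2.Idx F) =
        ((y₂ : GL chevG2.Idx F) : Matrix chevG2.Idx chevG2.Idx F)) := by
  have A : ALLOK chevG2 := allok_cert _ (by simp)
  have hord : ∀ r : ℕ, r < chevG2.nroots → orderOf (xU A.hk r (1 : F)) = 2 := by
    intro r hr
    apply orderOf_eq_prime
    · rw [pow_two]
      exact g2i_sq A.hk r 1
    · intro h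
      exact one_ne_zero (xU_eq_one A.hk hr h)
  refine ⟨?_, ?_, ?_⟩
  · intro y hy
    simp only [List.mem_cons, List.not_mem_nil, or_false] at hy
    rcases hy with h | h
    · rw [eq_xU A.hk h]
      exact ⟨xU_mem_group A.hk (by decide) 1, hord 11 (by decide)⟩
    · rw [eq_xU A.hk h]
      exact ⟨xU_mem_group A.hk (by decide) 1, hord 9 (by decide)⟩
  · intro g hg ho
    obtain ⟨k, hk, hkU⟩ := g2_conj_into_U hg ho
    have hgg : g * g = 1 := by
      rw [← pow_two, ← ho]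
      exact pow_orderOf_eq_one g
    have hg1 : g ≠ 1 := by
      rintro rfl
      rw [orderOf_one] at ho
      omega
    have h1 : k * g * k⁻¹ ≠ 1 := by
      intro h
      apply hg1
      have e : g = k⁻¹ * (k * g * k⁻¹) * k := by group
      rw [e, h]
      group
    have h2 : (k * g * k⁻¹) * (k * g * k⁻¹) = 1 := by
      rw [← conj_mul2, hgg]
      group
    obtain ⟨h, hh, e⟩ := G2Cj.of_conj hk (g2_inv_main A hkU h1 h2)
    rcases e with e | e
    · exact ⟨xU A.hk 11 1, xU_mem_group A.hk (by decide) 1, by simp [xU_val], h, hh, e⟩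
    · exact ⟨xU A.hk 9 1, xU_mem_group A.hk (by decide) 1, by simp [xU_val], h, hh, e⟩
  · intro y₁ _ y₂ _ h1 h2 hc
    simp only [List.mem_cons, List.not_mem_nil, or_false] at h1 h2
    rcases h1 with h1 | h1 <;> rcases h2 with h2 | h2
    · rw [h1, h2]
    · exfalso
      obtain ⟨h, hh, e⟩ := hc
      rw [eq_xU A.hk h1, eq_xU A.hk h2] at e
      exact g2_not_conj (F := F) A ⟨h, hh, e⟩
    · exfalso
      obtain ⟨h, hh, e⟩ := hc
      rw [eq_xU A.hk h1, eq_xU A.hk h2] at e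
      apply g2_not_conj (F := F) A
      refine ⟨h⁻¹, inv_mem hh, ?_⟩
      rw [← e]
      group
    · rw [h1, h2]

end g2inv

end Cfsg.Agent.Lib.Helper9
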