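import Cfsg.Agent.Lib.Helper9.ThmPJ
import Cfsg.Agent.Lib.Helper9.ThmBN
import Cfsg.Agent.Lib.Helper9.ThmTw
import Cfsg.Agent.Lib.Helper4.BNPair

set_option autoImplicit false

namespace Cfsg.Agent.Lib.Helper9

open Cfsg.Lie

open Cfsg.Agent.Lib.Helper4

variable {D : ChevalleyDatum} {F : Type*} [Field F]

theorem uJ_le_posU (J : Set ℕ) : D.unipotentRadical F J ≤ D.posUnipotent F := by
  unfold ChevalleyDatum.unipotentRadical ChevalleyDatum.posUnipotent
  apply Subgroup.closure_mono
  rintro g ⟨r, t, hr, _, hg⟩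
  exact ⟨r, t, hr, hg⟩

/-- If `n_{p_i}` normalises `U_J` then `i ∈ J`. -/
theorem mem_of_nU_normalizer (hk : HOK D) (nk : NOK D) (xk : NXOK D) (wk : WOK D) (lk : LOK D)
    (ak : HAOK D) (ok : ORBOK D) (bk : BNOK D) (jk : PJOK D) {J : Set ℕ} {i : ℕ}
    (hi : i < D.rank)
    (h : nU hk F i ∈ Subgroup.normalizer (D.unipotentRadical F J : Set (GL D.Idx F))) :
    i ∈ J := by
  by_contra hiJ
  have hp := simple_lt D hk.simple hi
  have hpos : D.IsPosRoot (D.simple i) := (simpB_spec ok.simp hi).1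
  have hn : ¬ D.InRootSub J (D.simple i) :=
    (not_sub_iff J hp.1).mpr ⟨i, hi, hiJ, simpSuppB_spec (jk.ssupp i hi)⟩
  have h1 : xU hk (D.simple i) (-1 : F) ∈ D.unipotentRadical F J := xU_mem_uJ hk J hpos hn _
  have h2 := (Subgroup.mem_normalizer_iff.mp h _).mp h1
  rw [← xnp_eq_conj hk nk xk hi] at h2
  have hneg : D.IsNegRoot (D.neg (D.simple i)) := of_decide_eq_true (bk.sneg i hi)
  have h3 : xU hk (D.neg (D.simple i)) (1 : F) ∈ D.negUnipotent F :=
    Subgroup.subset_closure ⟨_, _, hneg, xU_val hk _ _⟩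
  have h4 : xU hk (D.neg (D.simple i)) (1 : F) ∈ D.posUnipotent F ⊓ D.negUnipotent F :=
    ⟨uJ_le_posU J h2, h3⟩
  rw [posU_inf_negU hk wk lk ak, Subgroup.mem_bot] at h4
  exact one_ne_zero (xU_eq_one hk hp.2 h4)

/-- `N_G(U_J) = P_J`. -/
theorem normalizer_uJ (hk : HOK D) (nk : NOK D) (xk : NXOK D) (wk : WOK D) (lk : LOK D)
    (ak : HAOK D) (w0k : W0OK D) (ck : COMMOK D) (pk : POSOK D) (ok : ORBOK D) (bk : BNOK D)
    (jk : PJOK D) (J : Set ℕ) :
    Subgroup.normalizer (D.unipotentRadical F J : Set (GL D.Idx F)) ⊓ D.group F =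
      D.parabolicSubgroup F J := by
  have hpar := par_le_normalizer_uJ (F := F) hk nk xk wk ak ck pk ok jk J
  have hparG : D.parabolicSubgroup F J ≤ D.group F := by
    unfold ChevalleyDatum.parabolicSubgroup
    refine sup_le (borel_le_group hk) ?_
    rw [Subgroup.closure_le]
    rintro g ⟨j, _, hj, hg⟩
    have e : g = nU hk F j := Units.ext (by rw [hg, nU_val])
    rw [e]
    exact mono_le_group hk (nU_mem hk hj)
  apply le_antisymm
  · obtain ⟨P, hB, hN, hS⟩ := bn_pair_exists (F := F) hk nk xk wk lk ak w0k ck pk ok bk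
    have hBM : P.B ≤ (Subgroup.normalizer
        (D.unipotentRadical F J : Set (GL D.Idx F))).subgroupOf (D.group F) := by
      rw [hB]
      intro x hx
      exact hpar ((le_sup_left : D.borelSubgroup F ≤ D.parabolicSubgroup F J) hx)
    have hle : P.parabolic {s | s ∈ P.S ∧ s ∈ (Subgroup.normalizer
        (D.unipotentRadical F J : Set (GL D.Idx F))).subgroupOf (D.group F)} ≤
        (D.parabolicSubgroup F J).subgroupOf (D.group F) := by
      unfold Cfsg.BNPair.parabolic
      refine sup_le ?_ ?_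
      · rw [hB]
        intro x hx
        exact (le_sup_left : D.borelSubgroup F ≤ D.parabolicSubgroup F J) hx
      · rw [Subgroup.closure_le]
        rintro s ⟨hsS, hsM⟩
        rw [hS] at hsS
        obtain ⟨i, hi, hs⟩ := hsS
        have e : (s : GL D.Idx F) = nU hk F i := Units.ext (by rw [hs, nU_val])
        have hsM' : (s : GL D.Idx F) ∈
            Subgroup.normalizer (D.unipotentRadical F J : Set (GL D.Idx F)) := hsM
        rw [e] at hsM'
        have hiJ := mem_of_nU_normalizer hk nk xk wk lk ak ok bk jk hi hsM'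
        show (s : GL D.Idx F) ∈ D.parabolicSubgroup F J
        rw [e]
        exact nU_mem_par hk hi hiJ
    rintro g ⟨hgn, hgG⟩
    have h1 : (⟨g, hgG⟩ : ↥(D.group F)) ∈ (Subgroup.normalizer
        (D.unipotentRadical F J : Set (GL D.Idx F))).subgroupOf (D.group F) := hgn
    exact hle ((BN.eq_parabolic_of_le P _ hBM).le h1)
  · exact le_inf hpar hparG

end Cfsg.Agent.Lib.Helper9
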