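import Cfsg.Agent.Lib.Helper9.CertOrb
import Cfsg.Agent.Lib.Helper9.ThmNX
import Cfsg.Agent.Lib.Helper9.ThmB2

set_option autoImplicit false

namespace Cfsg.Agent.Lib.Helper9

open Cfsg.Lie

variable {D : ChevalleyDatum} {F : Type*} [Field F]

/-- The group generated by `H` and the root subgroups of the positive roots and of the roots of
the subsystem. -/
def leviGen (D : ChevalleyDatum) (F : Type*) [Field F] (J : Set ℕ) : Subgroup (GL D.Idx F) :=
  D.diagonalSubgroup F ⊔ Subgroup.closure {g : GL D.Idx F | ∃ (r : ℕ) (t : F),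
    (D.IsPosRoot r ∨ D.InRootSub J r) ∧ (g : Matrix D.Idx D.Idx F) = D.x F r t}

theorem xU_mem_leviGen (hk : HOK D) (J : Set ℕ) {r : ℕ} (h : D.IsPosRoot r ∨ D.InRootSub J r)
    (t : F) : xU hk r t ∈ leviGen D F J :=
  (le_sup_right : Subgroup.closure _ ≤ leviGen D F J)
    (Subgroup.subset_closure ⟨r, t, h, xU_val hk r t⟩)

theorem xU_pos_mem_par (hk : HOK D) (J : Set ℕ) {r : ℕ} (h : D.IsPosRoot r) (t : F) :
    xU hk r t ∈ D.parabolicSubgroup F J := by
  have h1 : xU hk r t ∈ D.posUnipotent F := Subgroup.subset_closure ⟨r, t, h, xU_val hk r t⟩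
  exact (le_sup_left : D.borelSubgroup F ≤ D.parabolicSubgroup F J)
    ((le_sup_left : D.posUnipotent F ≤ D.borelSubgroup F) h1)

theorem nU_mem_par (hk : HOK D) {J : Set ℕ} {j : ℕ} (hj : j < D.rank) (hJ : j ∈ J) :
    nU hk F j ∈ D.parabolicSubgroup F J :=
  (le_sup_right : Subgroup.closure _ ≤ D.parabolicSubgroup F J)
    (Subgroup.subset_closure ⟨j, hJ, hj, nU_val hk j⟩)

theorem xU_neg_mem_par (hk : HOK D) (nk : NOK D) (xk : NXOK D) (ok : ORBOK D) (J : Set ℕ) :
    ∀ (m r : ℕ), D.IsNegRoot r → D.InRootSub J r →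
      64 - lvlF (lvlOf D) (Nat.add D.rank r) = m → ∀ t : F, xU hk r t ∈ D.parabolicSubgroup F J := by
  intro m
  induction m using Nat.strong_induction_on with
  | _ m ih =>
    intro r hneg hsub hm t
    have hr := hneg.1
    obtain ⟨hj, hc, hl, hback, hsupp⟩ := parB_spec (ok.par r hr) hneg
    generalize digitAt 16 (parJOf D) r = j at hj hc hl hback hsupp
    have hp : ∀ s < D.nroots, digitAt 256 (getN (permOf D) j) s = D.reflectRoot j s :=
      fun s hs => Nat.eq_of_beq_eq_true (allB_spec (xk.perm j hj) hs)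
    have hr' : D.reflectRoot j r < D.nroots := refl_lt hk nk hj hr
    rw [hp r hr] at hl hback hsupp
    rw [hp _ hr'] at hback
    have hJ : j ∈ J := by
      by_contra hjJ
      exact hc (hsub.2 j hj hjJ)
    have hsub' : D.InRootSub J (D.reflectRoot j r) :=
      ⟨hr', fun i hi hiJ => hsupp i hi (hsub.2 i hi hiJ)⟩
    have h64 : lvlF (lvlOf D) (Nat.add D.rank (D.reflectRoot j r)) < 64 := Nat.mod_lt _ (by decide)
    have hx : ∀ t' : F, xU hk (D.reflectRoot j r) t' ∈ D.parabolicSubgroup F J := by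
      intro t'
      rcases hk.posneg _ hr' with hpos | hneg'
      · exact xU_pos_mem_par hk J hpos t'
      · exact ih _ (by omega) _ hneg' hsub' rfl t'
    have hn := nU_mem_par (F := F) hk hj hJ
    have h1 := mul_mem (mul_mem hn (hx (((etaF (getN (etaOf D) j) (D.reflectRoot j r) : ℤ) : F) * t)))
      (inv_mem hn)
    rw [nU_conj hk nk xk hj hr', hback] at h1
    have e : ((etaF (getN (etaOf D) j) (D.reflectRoot j r) : ℤ) : F) *
        (((etaF (getN (etaOf D) j) (D.reflectRoot j r) : ℤ) : F) * t) = t := by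
      rcases etaF_pm (getN (etaOf D) j) (D.reflectRoot j r) with h | h <;> rw [h] <;> simp
    rw [e] at h1
    exact h1

/-- `P_J` is generated by `H` and the root subgroups of the positive roots and of the roots of
the subsystem. -/
theorem par_eq_leviGen (hk : HOK D) (nk : NOK D) (xk : NXOK D) (ok : ORBOK D) (J : Set ℕ) :
    D.parabolicSubgroup F J = leviGen D F J := by
  apply le_antisymm
  · unfold ChevalleyDatum.parabolicSubgroup ChevalleyDatum.borelSubgroup
    refine sup_le (sup_le ?_ le_sup_left) ?_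
    · unfold ChevalleyDatum.posUnipotent
      rw [Subgroup.closure_le]
      rintro g ⟨r, t, hr, hg⟩
      rw [eq_xU hk hg]
      exact xU_mem_leviGen hk J (Or.inl hr) t
    · rw [Subgroup.closure_le]
      rintro g ⟨j, hJ, hj, hg⟩
      have e : g = nrU hk (D.simple j) 1 := by
        apply Units.ext
        rw [hg, nrU_val]
      obtain ⟨hpos, hz⟩ := simpB_spec ok.simp hj
      have hsub : D.InRootSub J (D.neg (D.simple j)) :=
        ⟨(simple_lt D hk.simple hj).2, fun i hi hiJ => hz i hi (fun h => hiJ (h ▸ hJ))⟩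
      rw [e, nrU]
      exact mul_mem (mul_mem (xU_mem_leviGen hk J (Or.inl hpos) _)
        (xU_mem_leviGen hk J (Or.inr hsub) _)) (xU_mem_leviGen hk J (Or.inl hpos) _)
  · unfold leviGen
    refine sup_le ?_ ?_
    · exact (le_sup_right : D.diagonalSubgroup F ≤ D.borelSubgroup F).trans le_sup_left
    · rw [Subgroup.closure_le]
      rintro g ⟨r, t, hr, hg⟩
      rw [eq_xU hk hg]
      rcases hr with hpos | hsub
      · exact xU_pos_mem_par hk J hpos t
      · rcases hk.posneg r hsub.1 with hpos | hneg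
        · exact xU_pos_mem_par hk J hpos t
        · exact xU_neg_mem_par hk nk xk ok J _ r hneg hsub rfl t

end Cfsg.Agent.Lib.Helper9
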