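import Cfsg.Agent.Lib.Helper9.CertPJ
import Cfsg.Agent.Lib.Helper9.ThmUp
import Cfsg.Agent.Lib.Helper9.ThmPar
import Cfsg.Agent.Lib.Helper9.ThmB

set_option autoImplicit false

namespace Cfsg.Agent.Lib.Helper9

open Cfsg.Lie

variable {D : ChevalleyDatum} {F : Type*} [Field F]

theorem xU_mem_uJ (hk : HOK D) (J : Set ℕ) {r : ℕ} (hpos : D.IsPosRoot r)
    (hn : ¬ D.InRootSub J r) (t : F) : xU hk r t ∈ D.unipotentRadical F J :=
  Subgroup.subset_closure ⟨r, t, hpos, hn, xU_val hk r t⟩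

theorem not_sub_iff (J : Set ℕ) {r : ℕ} (hr : r < D.nroots) :
    ¬ D.InRootSub J r ↔ ∃ i < D.rank, i ∉ J ∧ corootC D r i ≠ 0 := by
  unfold ChevalleyDatum.InRootSub corootC
  constructor
  · intro h
    by_contra hcon
    push Not at hcon
    exact h ⟨hr, hcon⟩
  · rintro ⟨i, hi, hiJ, hne⟩ h
    exact hne (h.2 i hi hiJ)

/-- A root outside the subsystem is not a fundamental root of the subsystem. -/
theorem ne_simple_of_not_sub (hk : HOK D) (xk : NXOK D) (ok : ORBOK D) (jk : PJOK D) {J : Set ℕ}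
    {j r : ℕ} (hj : j < D.rank) (hJ : j ∈ J) (hr : r < D.nroots) (hn : ¬ D.InRootSub J r) :
    r ≠ D.simple j := by
  intro e
  obtain ⟨i, hi, hiJ, hne⟩ := (not_sub_iff J hr).mp hn
  have hij : i ≠ j := fun e' => hiJ (e' ▸ hJ)
  have h1 := reflSuppB_spec (jk.rsupp j hj r hr) hi hij
  rw [Nat.eq_of_beq_eq_true (allB_spec (xk.perm j hj) hr), e, refl_simple] at h1
  exact hne (e ▸ h1.mp ((simpB_spec ok.simp hj).2 i hi hij))

/-- The reflection in a fundamental root of the subsystem maps the positive roots outside the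
subsystem to positive roots outside the subsystem. -/
theorem refl_not_sub (hk : HOK D) (xk : NXOK D) (pk : POSOK D) (ok : ORBOK D) (jk : PJOK D)
    {J : Set ℕ} {j r : ℕ} (hj : j < D.rank) (hJ : j ∈ J) (hpos : D.IsPosRoot r)
    (hn : ¬ D.InRootSub J r) :
    D.IsPosRoot (D.reflectRoot j r) ∧ ¬ D.InRootSub J (D.reflectRoot j r) ∧
      D.reflectRoot j (D.reflectRoot j r) = r := by
  have hr := hpos.1
  have hp : ∀ s < D.nroots, digitAt 256 (getN (permOf D) j) s = D.reflectRoot j s :=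
    fun s hs => Nat.eq_of_beq_eq_true (allB_spec (xk.perm j hj) hs)
  have hne := ne_simple_of_not_sub hk xk ok jk hj hJ hr hn
  obtain ⟨h1, _, h3⟩ := reflPosB_spec (pk.rpos j hj r hr) hpos hne
  rw [hp r hr] at h1 h3
  rw [hp _ h1.1] at h3
  refine ⟨h1, ?_, h3⟩
  obtain ⟨i, hi, hiJ, hne'⟩ := (not_sub_iff J hr).mp hn
  have hij : i ≠ j := fun e' => hiJ (e' ▸ hJ)
  have h4 := reflSuppB_spec (jk.rsupp j hj r hr) hi hij
  rw [hp r hr] at h4
  exact (not_sub_iff J h1.1).mpr ⟨i, hi, hiJ, fun h0 => hne' (h4.mp h0)⟩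

/-- `n_{p_j}` normalises `U_J` for `j ∈ J`. -/
theorem nU_mem_normalizer_uJ (hk : HOK D) (nk : NOK D) (xk : NXOK D) (pk : POSOK D)
    (ok : ORBOK D) (jk : PJOK D) {J : Set ℕ} {j : ℕ} (hj : j < D.rank) (hJ : j ∈ J) :
    nU hk F j ∈ Subgroup.normalizer (D.unipotentRadical F J : Set (GL D.Idx F)) := by
  apply mem_normalizer_closure
  · rintro y ⟨s, u, hs, hn, hy⟩
    rw [eq_xU hk hy, nU_conj hk nk xk hj hs.1]
    obtain ⟨h1, h2, _⟩ := refl_not_sub hk xk pk ok jk hj hJ hs hn
    exact xU_mem_uJ hk J h1 h2 _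
  · rintro y ⟨s, u, hs, hn, hy⟩
    rw [eq_xU hk hy]
    obtain ⟨h1, h2, h3⟩ := refl_not_sub hk xk pk ok jk hj hJ hs hn
    have h4 := nU_conj (F := F) hk nk xk hj h1.1
      (((etaF (getN (etaOf D) j) (D.reflectRoot j s) : ℤ) : F) * u)
    rw [h3] at h4
    have e : ((etaF (getN (etaOf D) j) (D.reflectRoot j s) : ℤ) : F) *
        (((etaF (getN (etaOf D) j) (D.reflectRoot j s) : ℤ) : F) * u) = u := by
      rcases etaF_pm (getN (etaOf D) j) (D.reflectRoot j s) with h | h <;> rw [h] <;> simp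
    rw [e] at h4
    rw [← h4]
    have e2 : (nU hk F j)⁻¹ * (nU hk F j * xU hk (D.reflectRoot j s)
        (((etaF (getN (etaOf D) j) (D.reflectRoot j s) : ℤ) : F) * u) * (nU hk F j)⁻¹) * nU hk F j =
        xU hk (D.reflectRoot j s) (((etaF (getN (etaOf D) j) (D.reflectRoot j s) : ℤ) : F) * u) := by
      group
    rw [e2]
    exact xU_mem_uJ hk J h1 h2 _

theorem xs_conj_mem_uJ (hk : HOK D) (xk : NXOK D) (ck : COMMOK D) (pk : POSOK D) (ok : ORBOK D)
    (jk : PJOK D) {J : Set ℕ} {j s : ℕ} (hj : j < D.rank) (hJ : j ∈ J) (hs : D.IsPosRoot s)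
    (hn : ¬ D.InRootSub J s) (t u : F) :
    (xU hk (D.simple j) t)⁻¹ * xU hk s u * xU hk (D.simple j) t ∈ D.unipotentRadical F J := by
  have hne := ne_simple_of_not_sub hk xk ok jk hj hJ hs.1 hn
  have hne' : s ≠ D.neg (D.simple j) := by
    intro e
    rw [e] at hs
    exact negSimpB_spec (pk.nneg j hj) hs
  have h := comm_simple hk ck hj hs.1 hne' t u
  have e : xU hk s u * xU hk (D.simple j) t =
      xU hk (D.simple j) t * xU hk s u * wordU hk (D.commWord F (D.simple j) s t u) := by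
    apply Units.ext
    simp only [Units.val_mul, xU_val, wordU_val]
    exact h
  have e2 : (xU hk (D.simple j) t)⁻¹ * xU hk s u * xU hk (D.simple j) t =
      xU hk s u * wordU hk (D.commWord F (D.simple j) s t u) := by
    rw [mul_assoc, e]
    group
  rw [e2]
  apply mul_mem (xU_mem_uJ hk J hs hn u)
  apply wordU_mem
  intro p hp
  simp only [ChevalleyDatum.commWord, List.mem_map] at hp
  obtain ⟨c, hc, rfl⟩ := hp
  obtain ⟨h1, _⟩ := commPosB_spec (pk.cpos j hj s hs.1) hs hne c hc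
  obtain ⟨i, hi, hiJ, hne2⟩ := (not_sub_iff J hs.1).mp hn
  have h3 := commSuppB_spec (jk.csupp j hj s hs.1) hs hne c hc i hi
  exact xU_mem_uJ hk J h1 ((not_sub_iff J h1.1).mpr ⟨i, hi, hiJ, fun h0 => hne2 (h3 h0)⟩) _

/-- `X_{p_j}` normalises `U_J` for `j ∈ J`. -/
theorem xs_mem_normalizer_uJ (hk : HOK D) (xk : NXOK D) (ck : COMMOK D) (pk : POSOK D)
    (ok : ORBOK D) (jk : PJOK D) {J : Set ℕ} {j : ℕ} (hj : j < D.rank) (hJ : j ∈ J) (t : F) :
    xU hk (D.simple j) t ∈ Subgroup.normalizer (D.unipotentRadical F J : Set (GL D.Idx F)) := by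
  apply mem_normalizer_closure
  · rintro y ⟨s, u, hs, hn, hy⟩
    rw [eq_xU hk hy]
    have h := xs_conj_mem_uJ hk xk ck pk ok jk hj hJ hs hn (-t) u
    rwa [← xU_inv, inv_inv] at h
  · rintro y ⟨s, u, hs, hn, hy⟩
    rw [eq_xU hk hy]
    exact xs_conj_mem_uJ hk xk ck pk ok jk hj hJ hs hn t u

/-- The root subgroups of the positive roots of the subsystem normalise `U_J`. -/
theorem xU_sub_mem_normalizer (hk : HOK D) (nk : NOK D) (xk : NXOK D) (ck : COMMOK D)
    (pk : POSOK D) (ok : ORBOK D) (jk : PJOK D) (J : Set ℕ) :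
    ∀ (m r : ℕ), D.IsPosRoot r → D.InRootSub J r →
      lvlF (lvlOf D) (Nat.add D.rank r) = m → ∀ t : F,
      xU hk r t ∈ Subgroup.normalizer (D.unipotentRadical F J : Set (GL D.Idx F)) := by
  intro m
  induction m using Nat.strong_induction_on with
  | _ m ih =>
    intro r hpos hsub hm t
    have hr := hpos.1
    obtain ⟨hj, hc, hcase⟩ := parPosB_spec (jk.ppos r hr) hpos
    generalize digitAt 16 (parJOf D) (D.neg r) = j at hj hc hcase
    have hJ : j ∈ J := by
      by_contra hjJ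
      exact hc (hsub.2 j hj hjJ)
    by_cases hrs : r = D.simple j
    · rw [hrs]
      exact xs_mem_normalizer_uJ hk xk ck pk ok jk hj hJ t
    · have hlt : lvlF (lvlOf D) (Nat.add D.rank (digitAt 256 (getN (permOf D) j) r)) <
          lvlF (lvlOf D) (Nat.add D.rank r) := by
        rcases hcase with h | h
        · exact absurd h hrs
        · exact h
      have hp : ∀ s < D.nroots, digitAt 256 (getN (permOf D) j) s = D.reflectRoot j s :=
        fun s hs => Nat.eq_of_beq_eq_true (allB_spec (xk.perm j hj) hs)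
      obtain ⟨h1, _, h3⟩ := reflPosB_spec (pk.rpos j hj r hr) hpos hrs
      rw [hp r hr] at h1 h3 hlt
      rw [hp _ h1.1] at h3
      have hsub' : D.InRootSub J (D.reflectRoot j r) := by
        refine ⟨h1.1, fun i hi hiJ => ?_⟩
        have hij : i ≠ j := fun e' => hiJ (e' ▸ hJ)
        have h4 := reflSuppB_spec (jk.rsupp j hj r hr) hi hij
        rw [hp r hr] at h4
        exact h4.mpr (hsub.2 i hi hiJ)
      have hx : ∀ t' : F, xU hk (D.reflectRoot j r) t' ∈
          Subgroup.normalizer (D.unipotentRadical F J : Set (GL D.Idx F)) :=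
        fun t' => ih _ (by omega) _ h1 hsub' rfl t'
      have hn := nU_mem_normalizer_uJ (F := F) hk nk xk pk ok jk hj hJ
      have h5 := mul_mem (mul_mem hn
        (hx (((etaF (getN (etaOf D) j) (D.reflectRoot j r) : ℤ) : F) * t))) (inv_mem hn)
      rw [nU_conj hk nk xk hj h1.1, h3] at h5
      have e : ((etaF (getN (etaOf D) j) (D.reflectRoot j r) : ℤ) : F) *
          (((etaF (getN (etaOf D) j) (D.reflectRoot j r) : ℤ) : F) * t) = t := by
        rcases etaF_pm (getN (etaOf D) j) (D.reflectRoot j r) with h | h <;> rw [h] <;> simp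
      rw [e] at h5
      exact h5

/-- `P_J` normalises `U_J`. -/
theorem par_le_normalizer_uJ (hk : HOK D) (nk : NOK D) (xk : NXOK D) (wk : WOK D) (ak : HAOK D)
    (ck : COMMOK D) (pk : POSOK D) (ok : ORBOK D) (jk : PJOK D) (J : Set ℕ) :
    D.parabolicSubgroup F J ≤
      Subgroup.normalizer (D.unipotentRadical F J : Set (GL D.Idx F)) := by
  unfold ChevalleyDatum.parabolicSubgroup ChevalleyDatum.borelSubgroup
  refine sup_le (sup_le ?_ ?_) ?_
  · unfold ChevalleyDatum.posUnipotent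
    rw [Subgroup.closure_le]
    rintro g ⟨r, t, hr, hg⟩
    rw [eq_xU hk hg]
    by_cases hsub : D.InRootSub J r
    · exact xU_sub_mem_normalizer hk nk xk ck pk ok jk J _ r hr hsub rfl t
    · exact Subgroup.le_normalizer (xU_mem_uJ hk J hr hsub t)
  · have h := diag_le_normalizer (F := F) hk wk ak (fun r => D.IsPosRoot r ∧ ¬ D.InRootSub J r)
      (fun r h => h.1.1)
    have e : D.unipotentRadical F J = Subgroup.closure
        {g : GL D.Idx F | ∃ (r : ℕ) (t : F), (D.IsPosRoot r ∧ ¬ D.InRootSub J r) ∧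
          (g : Matrix D.Idx D.Idx F) = D.x F r t} := by
      unfold ChevalleyDatum.unipotentRadical
      congr 1
      ext g
      simp only [Set.mem_setOf_eq, and_assoc]
    rw [e]
    exact h
  · rw [Subgroup.closure_le]
    rintro g ⟨j, hJ, hj, hg⟩
    have e : g = nU hk F j := by
      apply Units.ext
      rw [hg, nU_val]
    rw [e]
    exact nU_mem_normalizer_uJ hk nk xk pk ok jk hj hJ

end Cfsg.Agent.Lib.Helper9
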