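import Cfsg.Agent.Lib.Helper9.CertAll
import Cfsg.Agent.Lib.Helper9.CertPair
import Cfsg.Agent.Lib.Helper9.ThmRk1

set_option autoImplicit false

namespace Cfsg.Agent.Lib.Helper9

open Cfsg.Lie

variable {D : ChevalleyDatum} {F : Type*} [Field F]

theorem mem_rootSubgroup_iff' (hk : HOK D) {r : ℕ} {g : GL D.Idx F} :
    g ∈ D.rootSubgroup F r ↔ ∃ a : F, g = xU hk r a :=
  ⟨rootSubgroup_mem hk, by
    rintro ⟨a, rfl⟩
    exact Subgroup.subset_closure ⟨a, xU_val hk r a⟩⟩

theorem map_conj_of_mem_normalizer' {G : Type*} [Group G] {H : Subgroup G} {g : G}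
    (hg : g ∈ Subgroup.normalizer (H : Set G)) : H.map (MulAut.conj g).toMonoidHom = H := by
  ext x
  simp only [Subgroup.mem_map, MulEquiv.coe_toMonoidHom, MulAut.conj_apply]
  constructor
  · rintro ⟨y, hy, rfl⟩
    exact (Subgroup.mem_normalizer_iff.mp hg y).mp hy
  · intro hx
    refine ⟨g⁻¹ * x * g, ?_, by group⟩
    rw [Subgroup.mem_normalizer_iff.mp hg (g⁻¹ * x * g)]
    have e : g * (g⁻¹ * x * g) * g⁻¹ = x := by group
    rw [e]
    exact hx

theorem map_conj_mul' {G : Type*} [Group G] (H : Subgroup G) (a b : G) :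
    H.map (MulAut.conj (a * b)).toMonoidHom =
      (H.map (MulAut.conj b).toMonoidHom).map (MulAut.conj a).toMonoidHom := by
  rw [Subgroup.map_map]
  congr 1
  ext x
  simp [mul_assoc]

theorem isPGroup_iff_mem' {G : Type*} [Group G] {p : ℕ} {H : Subgroup G} :
    IsPGroup p H ↔ ∀ x ∈ H, ∃ k : ℕ, x ^ p ^ k = 1 := by
  constructor
  · intro h x hx
    obtain ⟨k, hk⟩ := h ⟨x, hx⟩
    exact ⟨k, by simpa using congrArg Subtype.val hk⟩
  · intro h x
    obtain ⟨k, hk⟩ := h x.1 x.2
    exact ⟨k, Subtype.ext (by simpa using hk)⟩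

theorem isPGroup_of_map_conj_le' {G : Type*} [Group G] {p : ℕ} {K U : Subgroup G}
    (hU : IsPGroup p U) (m : G) (h : K.map (MulAut.conj m).toMonoidHom ≤ U) : IsPGroup p K := by
  rw [isPGroup_iff_mem'] at hU ⊢
  intro x hx
  obtain ⟨k, hk⟩ := hU (m * x * m⁻¹) (h ⟨x, hx, rfl⟩)
  refine ⟨k, ?_⟩
  rw [conj_pow] at hk
  have e : x ^ p ^ k = m⁻¹ * (m * x ^ p ^ k * m⁻¹) * m := by group
  rw [e, hk]
  group

theorem isPGroup_map_conj' {G : Type*} [Group G] {p : ℕ} {K : Subgroup G}
    (hK : IsPGroup p K) (m : G) : IsPGroup p (K.map (MulAut.conj m).toMonoidHom) := by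
  apply isPGroup_of_map_conj_le' hK m⁻¹
  rw [← map_conj_mul', inv_mul_cancel]
  intro x hx
  obtain ⟨y, hy, rfl⟩ := hx
  simpa using hy

/-- The last root element commutes with the positive root elements. -/
theorem top_comm (A : ALLOK D) (htop : D.IsPosRoot (D.nroots - 1)) {r : ℕ} (hr : D.IsPosRoot r)
    (t u : F) :
    xU A.hk (D.nroots - 1) u * xU A.hk r t = xU A.hk r t * xU A.hk (D.nroots - 1) u := by
  by_cases hrt : r = D.nroots - 1
  · rw [hrt, xU_mul, xU_mul, add_comm]
  · have hsn : D.nroots - 1 ≠ D.neg r := by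
      intro e
      have h1 := lamR_pos A.uk htop
      rw [e, lamR_neg A.uk hr.1] at h1
      have h2 := lamR_pos A.uk hr
      omega
    obtain ⟨L, hL, e⟩ := comm_all A.hk A.nk A.xk A.ck A.ok A.uk _ r hr.1 rfl (D.nroots - 1)
      htop.1 (Ne.symm hrt) hsn t u
    have hnil : L = [] := by
      rcases L with _ | ⟨p, L⟩
      · rfl
      · have h1 := hL p (by simp)
        have h2 := (comb_pos A.hk A.uk hr htop h1).2
        have h3 := h1.1
        omega
    rw [e, hnil]
    simp [wordU]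

theorem ActsAs.map_root {A : ALLOK D} {n : GL D.Idx F} {π : Equiv.Perm (Fin D.nroots)}
    (h : ActsAs A n π) (r : Fin D.nroots) :
    (D.rootSubgroup F r).map (MulAut.conj n).toMonoidHom = D.rootSubgroup F (π r) := by
  obtain ⟨c, e⟩ := h r
  have hc := coeff_ne_of_conj A.hk r.2 e
  ext g
  simp only [Subgroup.mem_map, MulEquiv.coe_toMonoidHom, MulAut.conj_apply]
  rw [mem_rootSubgroup_iff' A.hk]
  constructor
  · rintro ⟨y, hy, rfl⟩
    obtain ⟨a, rfl⟩ := (mem_rootSubgroup_iff' A.hk).mp hy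
    exact ⟨c * a, e a⟩
  · rintro ⟨a, rfl⟩
    refine ⟨xU A.hk r (c⁻¹ * a), (mem_rootSubgroup_iff' A.hk).mpr ⟨_, rfl⟩, ?_⟩
    rw [e, ← mul_assoc, mul_inv_cancel₀ hc, one_mul]

/-- The Borel subgroup normalises the last root subgroup. -/
theorem borel_le_normalizer_top (A : ALLOK D) (htop : D.IsPosRoot (D.nroots - 1)) :
    D.borelSubgroup F ≤
      Subgroup.normalizer (D.rootSubgroup F (D.nroots - 1) : Set (GL D.Idx F)) := by
  unfold ChevalleyDatum.borelSubgroup
  apply sup_le
  · have h1 : D.posUnipotent F ≤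
        Subgroup.centralizer (D.rootSubgroup F (D.nroots - 1) : Set (GL D.Idx F)) := by
      unfold ChevalleyDatum.posUnipotent
      rw [Subgroup.closure_le]
      rintro g ⟨r, t, hr, hg⟩
      rw [eq_xU A.hk hg]
      intro y hy
      obtain ⟨a, rfl⟩ := rootSubgroup_mem A.hk hy
      exact top_comm A htop hr t a
    exact h1.trans (Subgroup.centralizer_le_normalizer _)
  · intro h hh
    have h1 := (actsAs_diag A hh).map_root ⟨D.nroots - 1, htop.1⟩
    rw [Subgroup.mem_normalizer_iff]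
    intro x
    constructor
    · intro hx
      have : h * x * h⁻¹ ∈ (D.rootSubgroup F (D.nroots - 1)).map (MulAut.conj h).toMonoidHom :=
        ⟨x, hx, rfl⟩
      rw [h1] at this
      exact this
    · intro hx
      have h2 : h * x * h⁻¹ ∈ (D.rootSubgroup F (D.nroots - 1)).map (MulAut.conj h).toMonoidHom := by
        rw [h1]
        exact hx
      obtain ⟨y, hy, e⟩ := h2
      simp only [MulEquiv.coe_toMonoidHom, MulAut.conj_apply] at e
      have : y = x := by
        have e2 : y = h⁻¹ * (h * y * h⁻¹) * h := by group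
        rw [e2, e]
        group
      rw [← this]
      exact hy

/-- Two conjugate last-root subgroups generate a `p`-group, or are conjugate to the pair of
opposite root subgroups. -/
theorem root_pair [Fintype F] (p : ℕ) [Fact p.Prime] [CharP F p] (A : ALLOK D) (K : PAIROK D)
    (g : GL D.Idx F) (hg : g ∈ D.group F) :
    IsPGroup p ↥(D.rootSubgroup F (D.nroots - 1) ⊔
      (D.rootSubgroup F (D.nroots - 1)).map (MulAut.conj g).toMonoidHom) ∨
    ∃ h ∈ D.group F, (D.rootSubgroup F (D.nroots - 1) ⊔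
      (D.rootSubgroup F (D.nroots - 1)).map (MulAut.conj g).toMonoidHom).map
        (MulAut.conj h).toMonoidHom = D.rootSubgroup F (D.nroots - 1) ⊔ D.rootSubgroup F 0 := by
  have htop := K.top
  obtain ⟨b, hb, n, hn, u, hu, rfl⟩ := (bruhat_normal_form (F := F) A.hk A.nk A.xk A.wk A.lk A.ak
    A.w0k A.ck A.pk A.ok A.bk A.rk A.hnp).1 g hg
  have hub : u ∈ D.borelSubgroup F := Subgroup.mem_sup_left (uneg_le_pos n hu)
  have hnorm := borel_le_normalizer_top (F := F) A htop
  obtain ⟨π, hπ, hact⟩ := exists_actsAs A hn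
  set θ : Fin D.nroots := ⟨D.nroots - 1, htop.1⟩ with hθ
  have hX : (D.rootSubgroup F (D.nroots - 1)).map (MulAut.conj (b * n * u)).toMonoidHom =
      (D.rootSubgroup F (π θ)).map (MulAut.conj b).toMonoidHom := by
    rw [map_conj_mul', map_conj_of_mem_normalizer' (hnorm hub), map_conj_mul']
    congr 1
    exact hact.map_root θ
  rw [hX]
  have hbX : (D.rootSubgroup F (D.nroots - 1)).map (MulAut.conj b).toMonoidHom =
      D.rootSubgroup F (D.nroots - 1) := map_conj_of_mem_normalizer' (hnorm hb)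
  have hsup : D.rootSubgroup F (D.nroots - 1) ⊔
      (D.rootSubgroup F (π θ)).map (MulAut.conj b).toMonoidHom =
      (D.rootSubgroup F (D.nroots - 1) ⊔ D.rootSubgroup F (π θ)).map
        (MulAut.conj b).toMonoidHom := by
    rw [Subgroup.map_sup, hbX]
  rw [hsup]
  by_cases hβ : ((π θ : Fin D.nroots) : ℕ) = D.neg (D.nroots - 1)
  · right
    refine ⟨b⁻¹, inv_mem (borel_le_group A.hk hb), ?_⟩
    rw [← map_conj_mul', inv_mul_cancel, hβ, K.neg0]
    ext x
    simp
  · left
    obtain ⟨ws, hlt, hws⟩ := K.ex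
    obtain ⟨w, hw, hp1, hp2⟩ := pairB_spec hws (π θ).2 hβ
    obtain ⟨_, η1, hη1, e1⟩ := nW_conj (F := F) A.hk A.nk A.xk w (hlt w hw) (D.nroots - 1) htop.1
    obtain ⟨_, η2, hη2, e2⟩ := nW_conj (F := F) A.hk A.nk A.xk w (hlt w hw) (π θ) (π θ).2
    have hU : IsPGroup p (D.posUnipotent F) := by
      obtain ⟨f, hf⟩ := FiniteField.card F p
      apply IsPGroup.of_card (n := (f : ℕ) * (D.nroots / 2))
      rw [card_posU A.hk A.nk A.xk A.wk A.ck A.ok A.uk, hf.2, pow_mul]
    apply isPGroup_map_conj'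
    apply isPGroup_of_map_conj_le' hU (nW A.hk F w)
    rw [Subgroup.map_sup]
    apply sup_le
    · rintro x ⟨y, hy, rfl⟩
      obtain ⟨a, rfl⟩ := rootSubgroup_mem A.hk hy
      simp only [MulEquiv.coe_toMonoidHom, MulAut.conj_apply]
      rw [e1]
      exact Subgroup.subset_closure ⟨_, _, hp1, xU_val _ _ _⟩
    · rintro x ⟨y, hy, rfl⟩
      obtain ⟨a, rfl⟩ := rootSubgroup_mem A.hk hy
      simp only [MulEquiv.coe_toMonoidHom, MulAut.conj_apply]
      rw [e2]
      exact Subgroup.subset_closure ⟨_, _, hp2, xU_val _ _ _⟩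

end Cfsg.Agent.Lib.Helper9
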