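import Cfsg.Agent.Lib.Helper9.CertNX
import Cfsg.Agent.Lib.Helper9.ThmNXa

set_option autoImplicit false

namespace Cfsg.Agent.Lib.Helper9

open Cfsg.Lie

/-- Every root other than the negative of the last root is made positive, together with the
last root, by one of the words of the list. -/
def pairB (D : ChevalleyDatum) (Ps : List ℕ) (ws : List (List ℕ)) : Bool :=
  allB D.nroots (fun β => or (Nat.beq β (D.neg (D.nroots - 1)))
    (ws.any fun w => and (decide (D.IsPosRoot (wActP Ps w (D.nroots - 1))))
      (decide (D.IsPosRoot (wActP Ps w β)))))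

theorem pairB_spec {D : ChevalleyDatum} {Ps : List ℕ} {ws : List (List ℕ)}
    (h : pairB D Ps ws = true) {β : ℕ} (hβ : β < D.nroots) (hne : β ≠ D.neg (D.nroots - 1)) :
    ∃ w ∈ ws, D.IsPosRoot (wActP Ps w (D.nroots - 1)) ∧ D.IsPosRoot (wActP Ps w β) := by
  have h1 := allB_spec h hβ
  simp only [Bool.or_eq_true, List.any_eq_true, Bool.and_eq_true, decide_eq_true_eq] at h1
  rcases h1 with h1 | h1
  · exact absurd (Nat.eq_of_beq_eq_true h1) hne
  · exact h1

/-- The verified data on the pairs of the last root and another root. -/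
structure PAIROK (D : ChevalleyDatum) : Prop where
  top : D.IsPosRoot (D.nroots - 1)
  neg0 : D.neg (D.nroots - 1) = 0
  ex : ∃ ws : List (List ℕ), (∀ w ∈ ws, ∀ i ∈ w, i < D.rank) ∧ pairB D (permOf D) ws = true

end Cfsg.Agent.Lib.Helper9
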