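import Cfsg.Agent.Lib.Helper9.CertCent
import Cfsg.Agent.Lib.Helper9.ThmNorm
import Cfsg.Agent.Lib.Helper9.ThmHCard

set_option autoImplicit false

namespace Cfsg.Agent.Lib.Helper9

open Cfsg.Lie

open Cfsg.Agent.Lib.Helper4

variable {D : ChevalleyDatum} {F : Type*} [Field F]

/-- The group generated by `U` and the root subgroups of a list of roots. -/
def centGen (D : ChevalleyDatum) (F : Type*) [Field F] (L : List ℕ) : Subgroup (GL D.Idx F) :=
  D.posUnipotent F ⊔ Subgroup.closure {g : GL D.Idx F | ∃ s ∈ L, ∃ c : F,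
    (g : Matrix D.Idx D.Idx F) = D.x F s c}

theorem centGen_eq_closure (L : List ℕ) :
    centGen D F L = Subgroup.closure {g : GL D.Idx F | ∃ (r : ℕ) (t : F),
      (D.IsPosRoot r ∨ r ∈ L) ∧ (g : Matrix D.Idx D.Idx F) = D.x F r t} := by
  unfold centGen ChevalleyDatum.posUnipotent
  rw [← Subgroup.closure_union]
  congr 1
  ext g
  constructor
  · rintro (⟨r, t, hr, hg⟩ | ⟨s, hs, c, hg⟩)
    · exact ⟨r, t, Or.inl hr, hg⟩
    · exact ⟨s, c, Or.inr hs, hg⟩
  · rintro ⟨r, t, hr | hr, hg⟩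
    · exact Or.inl ⟨r, t, hr, hg⟩
    · exact Or.inr ⟨r, hr, t, hg⟩

theorem xU_mem_centGen_pos (hk : HOK D) (L : List ℕ) {r : ℕ} (hr : D.IsPosRoot r) (t : F) :
    xU hk r t ∈ centGen D F L :=
  Subgroup.mem_sup_left (Subgroup.subset_closure ⟨r, t, hr, xU_val hk r t⟩)

theorem xU_mem_centGen_L (hk : HOK D) {L : List ℕ} {s : ℕ} (hs : s ∈ L) (c : F) :
    xU hk s c ∈ centGen D F L :=
  Subgroup.mem_sup_right (Subgroup.subset_closure ⟨s, hs, c, xU_val hk s c⟩)

theorem diag_le_normalizer_centGen (hk : HOK D) (wk : WOK D) (ak : HAOK D) {L : List ℕ}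
    (hL : ∀ s ∈ L, s < D.nroots) :
    D.diagonalSubgroup F ≤ Subgroup.normalizer (centGen D F L : Set (GL D.Idx F)) := by
  rw [centGen_eq_closure]
  apply diag_le_normalizer hk wk ak
  rintro r (h | h)
  · exact h.1
  · exact hL r h

theorem mem_normalizer_of_map_conj_eq' {G : Type*} [Group G] {H : Subgroup G} {g : G}
    (h : H.map (MulAut.conj g).toMonoidHom = H) : g ∈ Subgroup.normalizer (H : Set G) := by
  rw [Subgroup.mem_normalizer_iff]
  intro x
  constructor
  · intro hx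
    have h1 : g * x * g⁻¹ ∈ H.map (MulAut.conj g).toMonoidHom := ⟨x, hx, rfl⟩
    rw [h] at h1
    exact h1
  · intro hx
    have h2 : g * x * g⁻¹ ∈ H.map (MulAut.conj g).toMonoidHom := by
      rw [h]
      exact hx
    obtain ⟨y, hy, e⟩ := h2
    simp only [MulEquiv.coe_toMonoidHom, MulAut.conj_apply] at e
    have e3 : y = x := by
      have e2 : y = g⁻¹ * (g * y * g⁻¹) * g := by group
      rw [e2, e]
      group
    rw [← e3]
    exact hy

theorem rootSubgroup_inj (A : ALLOK D) {a b : ℕ} (ha : a < D.nroots) (hb : b < D.nroots)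
    (h : D.rootSubgroup F a = D.rootSubgroup F b) : a = b := by
  have h1 : xU A.hk a (1 : F) ∈ D.rootSubgroup F b := by
    rw [← h]
    exact (mem_rootSubgroup_iff' A.hk).mpr ⟨1, rfl⟩
  obtain ⟨c, hc⟩ := rootSubgroup_mem A.hk h1
  exact xU_root_inj A ha hb one_ne_zero hc

/-- The centraliser of the last root element `x_θ(1)` in characteristic two. -/
theorem root_cent [CharP F 2] (A : ALLOK D) (htop : D.IsPosRoot (D.nroots - 1)) {L : List ℕ}
    {k : ℕ} (C : CentP D L k) (t : GL D.Idx F)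
    (ht : (t : Matrix D.Idx D.Idx F) = D.x F (D.nroots - 1) 1) :
    D.group F ⊓ Subgroup.centralizer {t} = centGen D F L := by
  obtain ⟨hk', hcart, hrefl, hkne, hL⟩ := C
  have htU : t = xU A.hk (D.nroots - 1) 1 := eq_xU A.hk ht
  rw [htU]
  have hLlt : ∀ s ∈ L, s < D.nroots := by
    intro s hs
    obtain ⟨i, hi, _, rfl⟩ := hL s hs
    exact (simple_lt D A.hk.simple hi).2
  have hge : centGen D F L ≤
      D.group F ⊓ Subgroup.centralizer {xU A.hk (D.nroots - 1) (1 : F)} := by
    unfold centGen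
    apply sup_le
    · apply le_inf (posU_le_group A.hk)
      unfold ChevalleyDatum.posUnipotent
      rw [Subgroup.closure_le]
      rintro g ⟨r, a, hr, hg⟩
      rw [eq_xU A.hk hg, SetLike.mem_coe, Subgroup.mem_centralizer_iff]
      intro y hy
      rw [Set.mem_singleton_iff] at hy
      rw [hy]
      exact top_comm A htop hr a 1
    · rw [Subgroup.closure_le]
      rintro g ⟨s, hs, c, hg⟩
      obtain ⟨i, hi, hik, rfl⟩ := hL s hs
      rw [eq_xU A.hk hg]
      refine ⟨xU_mem_group A.hk (simple_lt D A.hk.simple hi).2 c, ?_⟩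
      rw [xnp_eq_conj A.hk A.nk A.xk hi]
      have hn : nU A.hk F i ∈ Subgroup.centralizer {xU A.hk (D.nroots - 1) (1 : F)} := by
        rw [Subgroup.mem_centralizer_iff]
        intro y hy
        rw [Set.mem_singleton_iff] at hy
        rw [hy]
        have h1 := nU_conj (F := F) A.hk A.nk A.xk hi htop.1 1
        rw [(hrefl i hi hik).1] at h1
        have h2 : ((etaF (getN (etaOf D) i) (D.nroots - 1) : ℤ) : F) * 1 = 1 := by
          rcases etaF_pm (getN (etaOf D) i) (D.nroots - 1) with h | h <;> rw [h] <;>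
            simp [CharTwo.neg_eq]
        rw [h2] at h1
        calc xU A.hk (D.nroots - 1) (1 : F) * nU A.hk F i
            = (nU A.hk F i * xU A.hk (D.nroots - 1) 1 * (nU A.hk F i)⁻¹) * nU A.hk F i := by
              rw [h1]
          _ = nU A.hk F i * xU A.hk (D.nroots - 1) 1 := by group
      have hx : xU A.hk (D.simple i) (-c) ∈
          Subgroup.centralizer {xU A.hk (D.nroots - 1) (1 : F)} := by
        rw [Subgroup.mem_centralizer_iff]
        intro y hy
        rw [Set.mem_singleton_iff] at hy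
        rw [hy]
        exact top_comm A htop (simpB_spec A.ok.simp hi).1 (-c) 1
      exact (Subgroup.centralizer {xU A.hk (D.nroots - 1) (1 : F)}).mul_mem
        ((Subgroup.centralizer {xU A.hk (D.nroots - 1) (1 : F)}).mul_mem hn hx)
        ((Subgroup.centralizer {xU A.hk (D.nroots - 1) (1 : F)}).inv_mem hn)
  apply le_antisymm _ hge
  rintro g ⟨hgG, hgC⟩
  have hgC' : g ∈ Subgroup.centralizer {xU A.hk (D.nroots - 1) (1 : F)} := hgC
  have hcomm : xU A.hk (D.nroots - 1) (1 : F) * g = g * xU A.hk (D.nroots - 1) 1 :=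
    Subgroup.mem_centralizer_iff.mp hgC' _ rfl
  obtain ⟨b, hb, n, hn, u, hu, rfl⟩ := (bruhat_normal_form (F := F) A.hk A.nk A.xk A.wk A.lk A.ak
    A.w0k A.ck A.pk A.ok A.bk A.rk A.hnp).1 g hgG
  have hub : u ∈ D.borelSubgroup F := Subgroup.mem_sup_left (uneg_le_pos n hu)
  have hnorm := borel_le_normalizer_top (F := F) A htop
  obtain ⟨π, hπ, hact⟩ := exists_actsAs A hn
  obtain ⟨c, e⟩ := hact ⟨D.nroots - 1, htop.1⟩
  have hc := coeff_ne_of_conj A.hk htop.1 e
  have hu' : xU A.hk (D.nroots - 1) (1 : F) * u = u * xU A.hk (D.nroots - 1) 1 :=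
    Subgroup.mem_centralizer_iff.mp
      (hge (Subgroup.mem_sup_left (uneg_le_pos n hu))).2 _ rfl
  have h1 : b * (n * xU A.hk (D.nroots - 1) (1 : F) * n⁻¹) * b⁻¹ =
      xU A.hk (D.nroots - 1) 1 := by
    calc b * (n * xU A.hk (D.nroots - 1) (1 : F) * n⁻¹) * b⁻¹
        = b * n * (xU A.hk (D.nroots - 1) (1 : F) * u) * (u⁻¹ * n⁻¹ * b⁻¹) := by group
      _ = (b * n * u * xU A.hk (D.nroots - 1) (1 : F)) * (u⁻¹ * n⁻¹ * b⁻¹) := by
          rw [hu']
          group
      _ = (xU A.hk (D.nroots - 1) (1 : F) * (b * n * u)) * (u⁻¹ * n⁻¹ * b⁻¹) := by rw [hcomm]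
      _ = xU A.hk (D.nroots - 1) 1 := by group
  rw [e 1, mul_one] at h1
  have h3 : xU A.hk (π ⟨D.nroots - 1, htop.1⟩) c =
      b⁻¹ * xU A.hk (D.nroots - 1) (1 : F) * b := by
    rw [← h1]
    group
  have h4 : b⁻¹ * xU A.hk (D.nroots - 1) (1 : F) * b ∈ D.rootSubgroup F (D.nroots - 1) := by
    have hb' := hnorm (inv_mem hb)
    have h5 := (Subgroup.mem_normalizer_iff.mp hb' (xU A.hk (D.nroots - 1) (1 : F))).mp
      ((mem_rootSubgroup_iff' A.hk).mpr ⟨1, rfl⟩)
    rw [inv_inv] at h5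
    exact h5
  obtain ⟨a, ha⟩ := rootSubgroup_mem A.hk h4
  have hπθ : ((π ⟨D.nroots - 1, htop.1⟩ : Fin D.nroots) : ℕ) = D.nroots - 1 :=
    xU_root_inj A (π ⟨D.nroots - 1, htop.1⟩).2 htop.1 hc (h3.trans ha)
  have hn' : n ∈ Subgroup.normalizer (D.rootSubgroup F (D.nroots - 1) : Set (GL D.Idx F)) := by
    apply mem_normalizer_of_map_conj_eq'
    have h5 := hact.map_root ⟨D.nroots - 1, htop.1⟩
    rw [hπθ] at h5
    exact h5
  have hgN : b * n * u ∈
      Subgroup.normalizer (D.rootSubgroup F (D.nroots - 1) : Set (GL D.Idx F)) :=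
    mul_mem (mul_mem (hnorm hb) hn') (hnorm hub)
  obtain ⟨P, hB, hN, hS⟩ := bn_pair_exists (F := F) A.hk A.nk A.xk A.wk A.lk A.ak A.w0k A.ck A.pk
    A.ok A.bk
  have hBM : P.B ≤ (Subgroup.normalizer
      (D.rootSubgroup F (D.nroots - 1) : Set (GL D.Idx F))).subgroupOf (D.group F) := by
    rw [hB]
    intro x hx
    exact hnorm hx
  have hle : P.parabolic {s | s ∈ P.S ∧ s ∈ (Subgroup.normalizer
      (D.rootSubgroup F (D.nroots - 1) : Set (GL D.Idx F))).subgroupOf (D.group F)} ≤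
      (centGen D F L ⊔ D.diagonalSubgroup F).subgroupOf (D.group F) := by
    unfold Cfsg.BNPair.parabolic
    refine sup_le ?_ ?_
    · rw [hB]
      intro x hx
      have hx' : (x : GL D.Idx F) ∈ D.posUnipotent F ⊔ D.diagonalSubgroup F := hx
      exact (sup_le_sup_right (le_sup_left : D.posUnipotent F ≤ centGen D F L) _) hx'
    · rw [Subgroup.closure_le]
      rintro s ⟨hsS, hsM⟩
      rw [hS] at hsS
      obtain ⟨i, hi, hs⟩ := hsS
      have e' : (s : GL D.Idx F) = nU A.hk F i := Units.ext (by rw [hs, nU_val])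
      have hsM' : (s : GL D.Idx F) ∈ Subgroup.normalizer
          (D.rootSubgroup F (D.nroots - 1) : Set (GL D.Idx F)) := hsM
      rw [e'] at hsM'
      have h5 := (actsAs_nU (F := F) A hi).map_root ⟨D.nroots - 1, htop.1⟩
      rw [map_conj_of_mem_normalizer' hsM'] at h5
      have h6 := rootSubgroup_inj A htop.1 (sig A i ⟨D.nroots - 1, htop.1⟩).2 h5
      rw [sig_apply A hi] at h6
      have hik : i ≠ k := by
        rintro rfl
        exact hkne h6.symm
      show (s : GL D.Idx F) ∈ centGen D F L ⊔ D.diagonalSubgroup F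
      rw [e']
      apply Subgroup.mem_sup_left
      have hp := (simpB_spec A.ok.simp hi).1
      exact mul_mem (mul_mem (xU_mem_centGen_pos A.hk L hp _)
        (xU_mem_centGen_L A.hk (hrefl i hi hik).2 _)) (xU_mem_centGen_pos A.hk L hp _)
  have h7 : (⟨b * n * u, hgG⟩ : ↥(D.group F)) ∈ (Subgroup.normalizer
      (D.rootSubgroup F (D.nroots - 1) : Set (GL D.Idx F))).subgroupOf (D.group F) := hgN
  have h8 : b * n * u ∈ centGen D F L ⊔ D.diagonalSubgroup F :=
    hle ((BN.eq_parabolic_of_le P _ hBM).le h7)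
  have hHn := diag_le_normalizer_centGen (F := F) A.hk A.wk A.ak hLlt
  obtain ⟨c', hc', h, hh, eg⟩ := sup_le_prodSubG _ _ hHn h8
  have hhC : xU A.hk (D.nroots - 1) (1 : F) * h = h * xU A.hk (D.nroots - 1) 1 := by
    have hc'C := (hge hc').2
    have e2 : h = c'⁻¹ * (b * n * u) := by
      rw [eg]
      group
    have hmem : h ∈ Subgroup.centralizer {xU A.hk (D.nroots - 1) (1 : F)} := by
      rw [e2]
      exact mul_mem (inv_mem hc'C) hgC'
    exact Subgroup.mem_centralizer_iff.mp hmem _ rfl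
  suffices hh' : h ∈ centGen D F L by
    rw [eg]
    exact mul_mem hc' hh'
  obtain ⟨cc, hcc, hval⟩ := diag_chi A.hk A.ak h hh
  have h9 := chi_conj_xU A.hk A.wk h cc hcc hval htop.1 (1 : F)
  have h10 : h * xU A.hk (D.nroots - 1) (1 : F) * h⁻¹ = xU A.hk (D.nroots - 1) 1 := by
    rw [← hhC]
    group
  rw [h10, mul_one] at h9
  have h11 : chiN D cc D.rank (Nat.add D.rank (D.nroots - 1)) = cc k := by
    unfold chiN
    rw [Finset.prod_eq_single k]
    · rw [hcart k hk', if_pos rfl, zpow_one]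
    · intro i hi hik
      rw [hcart i (Finset.mem_range.mp hi), if_neg hik, zpow_zero]
    · intro h
      exact absurd (Finset.mem_range.mpr hk') h
  have h12 : cc k = 1 := by
    rw [h11] at h9
    have e1 : xU A.hk (D.nroots - 1) (cc k + -1) = 1 := by
      rw [← xU_mul, ← xU_inv, ← h9, mul_inv_cancel]
    have e2 := xU_eq_one A.hk htop.1 e1
    linear_combination e2
  have hval3 : (h : Matrix D.Idx D.Idx F) =
      D.wordMat F ((List.range D.rank).flatMap fun i => D.hWord (D.simple i) (cc i)) := by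
    rw [hval, prod_hMat D A.hk.hN (litsOf D) A.hk.xok (fun i hi => simple_lt D A.hk.simple hi)
      A.hk.hdiag cc D.rank le_rfl (fun i _ => hcc i)]
    rfl
  have hh2 : h = hProd A.hk cc D.rank := Units.ext (by rw [hval3, hProd_val])
  rw [hh2]
  unfold hProd
  apply Subgroup.list_prod_mem
  intro g hg
  obtain ⟨i, hi, rfl⟩ := List.mem_map.mp hg
  rw [List.mem_range] at hi
  by_cases hik : i = k
  · rw [hik, h12]
    have e3 := nrU_neg_one_mul (F := F) A.hk (D.simple k)
    have e4 : nrU A.hk (D.simple k) (1 : F) = (nrU A.hk (D.simple k) (-1 : F))⁻¹ :=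
      eq_inv_of_mul_eq_one_right e3
    rw [e4, inv_mul_cancel]
    exact one_mem _
  · have hp := (simpB_spec A.ok.simp hi).1
    have hmem : ∀ a : F, nrU A.hk (D.simple i) a ∈ centGen D F L := fun a =>
      mul_mem (mul_mem (xU_mem_centGen_pos A.hk L hp _)
        (xU_mem_centGen_L A.hk (hrefl i hi hik).2 _)) (xU_mem_centGen_pos A.hk L hp _)
    exact mul_mem (hmem _) (hmem _)

end Cfsg.Agent.Lib.Helper9
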