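import Cfsg.Agent.Lib.Helper9.ThmFieldDecomp
import Cfsg.Agent.Lib.Helper9.CertAll

set_option autoImplicit false

namespace Cfsg.Agent.Lib.Helper9

open Cfsg.Lie

/-- A subgroup between the group generated by the root elements over the field of `p ^ a`
elements and the group of the matrices with entries in that field has trivial centraliser, and
its normaliser is the group of the matrices with entries in that field. -/
theorem subfield_cent_norm {k : Type*} [Field k] (p : ℕ) [Fact p.Prime] [CharP k p]
    (D : ChevalleyDatum) (hD : D ∈ [chevG2, chevB2, chevD4, chevF4, chevE6, chevE7, chevE8])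
    (a : ℕ) (K : Subgroup (GL D.Idx k)) (hKG : K ≤ D.group k)
    (hLK : Subgroup.closure {g : GL D.Idx k | ∃ (s : ℕ) (t : k), t ^ (p ^ a) = t ∧
      (g : Matrix D.Idx D.Idx k) = D.x k s t} ≤ K)
    (hKfix : ∀ g ∈ K, ∀ i j : D.Idx,
      ((g : Matrix D.Idx D.Idx k) i j) ^ (p ^ a) = (g : Matrix D.Idx D.Idx k) i j) :
    D.group k ⊓ Subgroup.centralizer (K : Set (GL D.Idx k)) = ⊥ ∧
    ∀ g : GL D.Idx k, g ∈ D.group k → (g ∈ Subgroup.normalizer (K : Set (GL D.Idx k)) ↔
      ∀ i j : D.Idx, ((g : Matrix D.Idx D.Idx k) i j) ^ (p ^ a) = (g : Matrix D.Idx D.Idx k) i j) := by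
  haveI : ExpChar k p := ExpChar.prime Fact.out
  have A := allok_cert D hD
  have hLK' : fixGen D (iterateFrobenius k p a) ≤ K := hLK
  have hKfix' : ∀ g ∈ K, glMap D (iterateFrobenius k p a) g = g := by
    intro g hg
    apply Units.ext
    rw [glMap_val]
    ext i j
    exact hKfix g hg i j
  refine ⟨cent_fix A (iterateFrobenius k p a) K hLK', fun g hg => ?_⟩
  rw [norm_fix A (iterateFrobenius k p a) K hKG hLK' hKfix' hg]
  constructor
  · intro h i j
    have h1 : ((glMap D (iterateFrobenius k p a) g : GL D.Idx k) : Matrix D.Idx D.Idx k) i j =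
        (g : Matrix D.Idx D.Idx k) i j := by rw [h]
    exact h1
  · intro h
    apply Units.ext
    rw [glMap_val]
    ext i j
    exact h i j

end Cfsg.Agent.Lib.Helper9
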